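import Cfsg.Agent.Lib.CoprimeAction.Abelian

/-!
# Noncyclic abelian actions without fixed points outside a subgroup

An abelian `p`-group `A`, noncyclic modulo `B`, normalising a `p'`-group on which every element
outside `B` acts without fixed points, forces that group to be trivial.
-/

set_option autoImplicit false
set_option linter.style.haveILetI false
set_option linter.unusedSectionVars false

namespace CfsgLib.SeenOnce.FPFAbelian

open Subgroup
open scoped commutatorElement

universe u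

variable {G : Type u} [Group G] [Finite G]

/-- Elements of coprime orders: a subgroup of `A` meets `R` trivially. -/
theorem eq_one_of_mem {p : ℕ} [Fact p.Prime] {A R : Subgroup G} (hA : IsPGroup p A)
    (hp : ¬ p ∣ Nat.card R) {x : G} (hxA : x ∈ A) (hxR : x ∈ R) : x = 1 := by
  obtain ⟨i, hi⟩ := IsPGroup.iff_orderOf.1 hA ⟨x, hxA⟩
  rw [Subgroup.orderOf_mk] at hi
  refine orderOf_eq_one_iff.1 (Nat.eq_one_of_dvd_coprimes
    (((Fact.out : p.Prime).coprime_iff_not_dvd.2 hp).pow_left i) (hi ▸ dvd_rfl) (R.orderOf_dvd_natCard hxR))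

/-- The passage to `C(a) ⧸ ⟨a⟩`. -/
theorem eq_bot_step {p : ℕ} [Fact p.Prime] {A B R : Subgroup G} {a : G}
    (hA : IsPGroup p A) (haA : a ∈ A) (haB : a ∈ B) (hAa : A ≤ centralizer {a})
    (hRa : R ≤ centralizer {a}) (hBA : B ≤ A) (hAR : A ≤ Subgroup.normalizer (R : Set G))
    (hp : ¬ p ∣ Nat.card R) (hfpf : ∀ x ∈ A, x ∉ B → ∀ r ∈ R, Commute x r → r = 1)
    (hnc : ∀ x ∈ A, ¬ A ≤ zpowers x ⊔ B)
    (ih : ∀ [((zpowers a).subgroupOf (centralizer {a})).Normal]
      (A' B' R' : Subgroup (centralizer ({a} : Set G) ⧸ (zpowers a).subgroupOf (centralizer {a}))),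
      A' = (A.subgroupOf (centralizer {a})).map (QuotientGroup.mk' _) →
      IsPGroup p A' → B' ≤ A' → A' ≤ Subgroup.normalizer (R' : Set _) → ¬ p ∣ Nat.card R' →
      (∀ x ∈ A', x ∉ B' → ∀ r ∈ R', Commute x r → r = 1) → (∀ x ∈ A', ¬ A' ≤ zpowers x ⊔ B') →
      Nat.card R' ≤ Nat.card R → R' = ⊥) : R = ⊥ := by
  set H := centralizer ({a} : Set G) with hH
  haveI hN : ((zpowers a).subgroupOf H).Normal := ⟨fun w hw y => by
    rw [mem_subgroupOf] at hw ⊢
    obtain ⟨i, hi⟩ := mem_zpowers_iff.1 hw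
    have hc : Commute (y : G) (w : G) :=
      hi ▸ (show Commute (y : G) a from mem_centralizer_singleton_iff.1 y.2).zpow_right i
    show (y : G) * w * (y : G)⁻¹ ∈ zpowers a
    rw [hc.eq, mul_inv_cancel_right]
    exact hw⟩
  set π := QuotientGroup.mk' ((zpowers a).subgroupOf H) with hπ
  have hker : ∀ w : H, π w = 1 ↔ (w : G) ∈ zpowers a := fun w =>
    (QuotientGroup.eq_one_iff w).trans mem_subgroupOf
  have hzA : ∀ w, w ∈ zpowers a → w ∈ A := fun w hw => zpowers_le.2 haA hw
  have hR' := ih ((A.subgroupOf H).map π) ((B.subgroupOf H).map π) ((R.subgroupOf H).map π) rfl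
    (hA.comap_subtype.map π) (map_mono fun x hx => mem_subgroupOf.2 (hBA (mem_subgroupOf.1 hx))) ?_ ?_ ?_ ?_ ?_
  · rw [eq_bot_iff_forall]
    intro r hr
    have h1 : π ⟨r, hRa hr⟩ = 1 := (Subgroup.eq_bot_iff_forall _).1 hR' _ ⟨⟨r, hRa hr⟩, hr, rfl⟩
    exact eq_one_of_mem hA hp (hzA _ ((hker _).1 h1)) hr
  · rintro _ ⟨x, hx, rfl⟩
    refine mem_normalizer_iff.2 fun q => ?_
    constructor
    · rintro ⟨r, hr, rfl⟩
      refine ⟨x * r * x⁻¹, (mem_normalizer_iff.1 (hAR hx) _).1 hr, by simp⟩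
    · rintro ⟨r, hr, he⟩
      refine ⟨x⁻¹ * r * x, ?_, ?_⟩
      · show ((x⁻¹ * r * x : H) : G) ∈ R
        have := (mem_normalizer_iff''.1 (hAR hx) (r : G)).1 hr
        simpa using this
      · rw [map_mul, map_mul, map_inv, he]; group
  · intro h
    refine hp (h.trans ?_)
    refine (card_map_dvd _ π).trans ?_
    rw [Nat.card_congr (subgroupOfEquivOfLe hRa).toEquiv]
  · rintro _ ⟨x, hx, rfl⟩ hxB _ ⟨r, hr, rfl⟩ hc
    have h1 : (⁅(x : G), (r : G)⁆) ∈ zpowers a := by
      have := (hker ⁅x, r⁆).1 (by rw [map_commutatorElement]; exact commutatorElement_eq_one_iff_commute.2 hc)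
      simpa [commutatorElement_def] using this
    have h2 : ⁅(x : G), (r : G)⁆ ∈ R := by
      rw [commutatorElement_def]
      exact mul_mem ((mem_normalizer_iff.1 (hAR hx) _).1 hr) (inv_mem hr)
    have h3 := eq_one_of_mem hA hp (hzA _ h1) h2
    have h4 := hfpf x hx (fun hb => hxB ⟨x, hb, rfl⟩) r hr
      (commutatorElement_eq_one_iff_commute.1 h3)
    rw [show r = 1 from Subtype.ext h4, map_one]
  · rintro _ ⟨x, hx, rfl⟩ hle
    refine hnc x hx fun y hy => ?_
    have h1 : π ⟨y, hAa hy⟩ ∈ zpowers (π x) ⊔ (B.subgroupOf H).map π :=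
      hle ⟨⟨y, hAa hy⟩, hy, rfl⟩
    rw [← MonoidHom.map_zpowers, ← Subgroup.map_sup] at h1
    obtain ⟨w, hw, he⟩ := h1
    have h2 : (w : G) ∈ zpowers (x : G) ⊔ B := by
      have h3 : (zpowers x ⊔ B.subgroupOf H).map H.subtype ≤ zpowers (x : G) ⊔ B := by
        rw [Subgroup.map_sup, MonoidHom.map_zpowers]
        exact sup_le_sup le_rfl (map_comap_le _ _)
      exact h3 ⟨w, hw, rfl⟩
    have h4 : ((w⁻¹ * ⟨y, hAa hy⟩ : H) : G) ∈ zpowers a :=
      (hker _).1 (by rw [map_mul, map_inv, he, inv_mul_cancel])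
    have h5 := mul_mem h2 (mem_sup_right (zpowers_le.2 haB h4) : _ ∈ zpowers (x : G) ⊔ B)
    simpa using h5
  · rw [← Nat.card_congr (subgroupOfEquivOfLe hRa).toEquiv]
    exact Nat.le_of_dvd Nat.card_pos (card_map_dvd _ π)

/-- **Main lemma.** -/
theorem eq_bot {p : ℕ} [Fact p.Prime] {A B R : Subgroup G} [IsMulCommutative A] (hA : IsPGroup p A)
    (hBA : B ≤ A) (hAR : A ≤ Subgroup.normalizer (R : Set G)) (hp : ¬ p ∣ Nat.card R)
    (hfpf : ∀ x ∈ A, x ∉ B → ∀ r ∈ R, Commute x r → r = 1)
    (hnc : ∀ x ∈ A, ¬ A ≤ zpowers x ⊔ B) : R = ⊥ := by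
  induction hn : Nat.card G + Nat.card R using Nat.strong_induction_on generalizing G with
  | _ n ih =>
    subst hn
    have hAc : ∀ x ∈ A, A ≤ centralizer {x} := fun x hx y hy => mem_centralizer_singleton_iff.2
      (congrArg Subtype.val (mul_comm' (⟨y, hy⟩ : A) ⟨x, hx⟩))
    by_cases hex : ∃ a ∈ A, a ≠ 1 ∧ R ≤ centralizer {a}
    · obtain ⟨a, haA, ha1, hRa⟩ := hex
      by_cases haB : a ∈ B
      · refine eq_bot_step hA haA haB (hAc a haA) hRa hBA hAR hp hfpf hnc
          fun {_} A' B' R' hdef hA' hB' hN' hp' hf' hn' hle => ?_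
        haveI : IsMulCommutative A' := by
          subst hdef
          haveI : IsMulCommutative (A.subgroupOf (centralizer ({a} : Set G))) :=
            ⟨⟨fun x y => Subtype.ext (Subtype.ext
              (show ((x : centralizer ({a} : Set G)) : G) * ((y : centralizer ({a} : Set G)) : G)
                  = ((y : centralizer ({a} : Set G)) : G) * ((x : centralizer ({a} : Set G)) : G)
              from congrArg Subtype.val (mul_comm' (⟨_, x.2⟩ : A) ⟨_, y.2⟩)))⟩⟩
          infer_instance
        refine ih _ ?_ hA' hB' hN' hp' hf' hn' rfl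
        refine add_lt_add_of_lt_of_le ?_ hle
        have h1 := ((zpowers a).subgroupOf (centralizer ({a} : Set G))).card_mul_index
        rw [index_eq_card] at h1
        have h2 : 2 ≤ Nat.card ((zpowers a).subgroupOf (centralizer ({a} : Set G))) := by
          refine (Subgroup.one_lt_card_iff_ne_bot _).2 fun h => ha1 ?_
          have := (Subgroup.eq_bot_iff_forall _).1 h
            ⟨a, mem_centralizer_singleton_iff.2 rfl⟩ (mem_subgroupOf.2 (mem_zpowers a))
          exact congrArg Subtype.val this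
        refine lt_of_lt_of_le ?_ (card_le_card_group (centralizer ({a} : Set G)))
        rw [← h1]
        exact lt_mul_of_one_lt_left Nat.card_pos h2
      · exact (eq_bot_iff_forall _).2 fun r hr => hfpf a haA haB r hr
          (show Commute r a from mem_centralizer_singleton_iff.1 (hRa hr)).symm
    · push Not at hex
      have hcyc : ¬ IsCyclic A := fun h => by
        obtain ⟨x, hx⟩ := Subgroup.isCyclic_iff_exists_zpowers_eq_top A |>.1 h
        exact hnc x (hx ▸ mem_zpowers x) (hx ▸ le_sup_left)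
      have hcop : (Nat.card A).Coprime (Nat.card R) := by
        obtain ⟨i, hi⟩ := IsPGroup.iff_card.1 hA
        rw [hi]
        exact ((Fact.out : p.Prime).coprime_iff_not_dvd.2 hp).pow_left i
      rw [← CoprimeAction.iSup_centralizers_eq hcyc hAR hcop]
      refine le_bot_iff.1 (iSup₂_le fun a ha => ?_)
      set R' := R ⊓ centralizer ({a} : Set G)
      have hlt : Nat.card R' < Nat.card R := by
        refine lt_of_le_of_ne (card_le_of_le inf_le_left) fun he => hex a ha.1 ha.2 ?_
        exact (eq_of_le_of_card_ge inf_le_left he.ge : R' = R) ▸ inf_le_right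
      have hN : A ≤ Subgroup.normalizer (R' : Set G) := fun x hx => by
        refine CoprimeAction.mem_normalizer_of_conj_mem fun r hr => ⟨(mem_normalizer_iff.1 (hAR hx) r).1 hr.1,
          mem_centralizer_singleton_iff.2 ?_⟩
        have h1 : Commute x a := mem_centralizer_singleton_iff.1 (hAc a ha.1 hx)
        exact ((h1.mul_left (mem_centralizer_singleton_iff.1 hr.2)).mul_left h1.inv_left).eq
      exact (ih _ (Nat.add_lt_add_left hlt _) hA hBA hN
        (fun h => hp (h.trans (card_dvd_of_le inf_le_left)))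
        (fun x hx hxB r hr => hfpf x hx hxB r hr.1) hnc rfl).le

end CfsgLib.SeenOnce.FPFAbelian
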