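import Cfsg.Agent.Lib.FixedPointFree.Basic
import Mathlib.GroupTheory.NoncommCoprod
import Mathlib.GroupTheory.Solvable
import Mathlib.Data.Nat.ChineseRemainder

/-!
# Fixed-point-free automorphisms of order four

**Gorenstein–Herstein**: a finite group with an automorphism `φ`, `φ⁴ = 1`, fixing only the
identity, is solvable.  Every product `m · φm · φ²m · φ³m` is `1`; hence an element `w` inverted by
`φ²` commutes with `φ w`, so the inverted elements of prime power order lie in the invariant Sylow
subgroups, and counting makes those of coprime orders commute.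
-/

set_option autoImplicit false
set_option linter.style.haveILetI false
set_option linter.unusedSectionVars false

namespace CfsgLib.SeenOnce.FPFFour

open CfsgLib.FixedPointFree

section count

variable {G : Type*} [Group G] [Finite G] (z : G ≃* G)

/-- The fixed points of `z`. -/
def fixedSubgroup : Subgroup G := z.toMonoidHom.eqLocus (MonoidHom.id G)

theorem mem_fixedSubgroup {x : G} : x ∈ fixedSubgroup z ↔ z x = x := Iff.rfl

/-- The elements inverted by `z`. -/
abbrev Inverted : Type _ := {w : G // z w = w⁻¹}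

theorem decompose (hodd : Odd (Nat.card G)) (hz : ∀ x, z (z x) = x) (m : G) :
    ∃ v u : G, z v = v⁻¹ ∧ z u = u ∧ m = v * u := by
  obtain ⟨j, hj⟩ := hodd
  set w := m * (z m)⁻¹ with hw
  have hzw : z w = w⁻¹ := by rw [hw, map_mul, map_inv, hz, mul_inv_rev, inv_inv]
  have hsq : w ^ (j + 1) * w ^ (j + 1) = w := by
    rw [← pow_add, show j + 1 + (j + 1) = Nat.card G + 1 by omega, pow_succ, pow_card_eq_one',
      one_mul]
  have hzm : z m = w⁻¹ * m := by rw [hw]; group
  set v := w ^ (j + 1) with hv
  have hzv : z v = v⁻¹ := by rw [hv, map_pow, hzw, inv_pow]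
  refine ⟨v, v⁻¹ * m, hzv, ?_, by group⟩
  rw [map_mul, map_inv, hzv, inv_inv, hzm, ← hsq]
  group

/-- `|G| = |{inverted}| · |{fixed}|`. -/
theorem card_inverted_mul (hodd : Odd (Nat.card G)) (hz : ∀ x, z (z x) = x) :
    Nat.card (Inverted z) * Nat.card (fixedSubgroup z) = Nat.card G := by
  let f : G ⧸ fixedSubgroup z → Inverted z :=
    Quotient.lift (fun m => ⟨m * (z m)⁻¹, by rw [map_mul, map_inv, hz, mul_inv_rev, inv_inv]⟩)
      fun a b hab => by
        have h1 : z (a⁻¹ * b) = a⁻¹ * b := QuotientGroup.leftRel_apply.1 hab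
        refine Subtype.ext ?_
        show a * (z a)⁻¹ = b * (z b)⁻¹
        calc a * (z a)⁻¹ = a * (a⁻¹ * b) * ((z a) * (a⁻¹ * b))⁻¹ := by group
          _ = b * (z a * z (a⁻¹ * b))⁻¹ := by rw [h1]; group
          _ = b * (z b)⁻¹ := by rw [← map_mul]; group
  have hbij : Function.Bijective f := by
    constructor
    · intro a b hab
      induction a using QuotientGroup.induction_on with | _ a => ?_
      induction b using QuotientGroup.induction_on with | _ b => ?_
      have h1 : a * (z a)⁻¹ = b * (z b)⁻¹ := congrArg Subtype.val hab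
      refine QuotientGroup.eq.2 ?_
      show z (a⁻¹ * b) = a⁻¹ * b
      rw [map_mul, map_inv]
      calc (z a)⁻¹ * z b = a⁻¹ * (a * (z a)⁻¹) * z b := by group
        _ = a⁻¹ * b := by rw [h1]; group
    · rintro ⟨w, hw⟩
      obtain ⟨j, hj⟩ := hodd
      refine ⟨((w ^ (j + 1) : G) : G ⧸ fixedSubgroup z), Subtype.ext ?_⟩
      show w ^ (j + 1) * (z (w ^ (j + 1)))⁻¹ = w
      rw [map_pow, hw, inv_pow, inv_inv, ← pow_add,
        show j + 1 + (j + 1) = Nat.card G + 1 by omega, pow_succ, pow_card_eq_one', one_mul]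
  rw [← Nat.card_eq_of_bijective f hbij, ← Subgroup.index_eq_card, Subgroup.index_mul_card]

end count

section parts

variable {G : Type*} [Group G] [Finite G]

/-- An exponent extracting the `r`-part. -/
noncomputable def partExp (n r : ℕ) (hr : r.Prime) (hn : n ≠ 0) : ℕ :=
  (Nat.chineseRemainder (Nat.coprime_ordCompl hr hn |>.pow_left (n.factorization r)) 1 0).1

theorem partExp_spec (n r : ℕ) (hr : r.Prime) (hn : n ≠ 0) :
    partExp n r hr hn ≡ 1 [MOD r ^ n.factorization r] ∧
      partExp n r hr hn ≡ 0 [MOD n / r ^ n.factorization r] :=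
  (Nat.chineseRemainder (Nat.coprime_ordCompl hr hn |>.pow_left (n.factorization r)) 1 0).2

/-- The `r`-part of `x`. -/
noncomputable def part (r : ℕ) [Fact r.Prime] (x : G) : G :=
  x ^ partExp (Nat.card G) r Fact.out Nat.card_pos.ne'

theorem part_pow_eq_one (r : ℕ) [Fact r.Prime] (x : G) :
    part r x ^ r ^ (Nat.card G).factorization r = 1 := by
  obtain ⟨c, hc⟩ := Nat.modEq_zero_iff_dvd.1
    (partExp_spec (Nat.card G) r Fact.out Nat.card_pos.ne').2
  rw [part, hc, ← pow_mul, mul_comm _ c, mul_assoc,
    Nat.div_mul_cancel (Nat.ordProj_dvd _ _), mul_comm, pow_mul, pow_card_eq_one', one_pow]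

open scoped Classical in
/-- An element is the product of its parts. -/
theorem prod_parts : ∃ e : ℕ → ℕ,
    (∀ r, ∀ hr : r.Prime, e r = partExp (Nat.card G) r hr Nat.card_pos.ne') ∧
      ∀ u : G, ((Nat.card G).primeFactors.toList.map fun r => u ^ e r).prod = u := by
  let e : ℕ → ℕ := fun r =>
    if hr : r.Prime then partExp (Nat.card G) r hr Nat.card_pos.ne' else 0
  set l := (Nat.card G).primeFactors.toList
  have hprod : ∀ u : G, (l.map fun r => u ^ e r).prod = u := by
    intro u
    have h1 : ∀ m : List ℕ, (m.map fun r => u ^ e r).prod = u ^ (m.map e).sum := by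
      intro m
      induction m with
      | nil => simp
      | cons a m ih => simp [ih, pow_add]
    rw [h1]
    conv_rhs => rw [← pow_one u]
    rw [pow_eq_pow_iff_modEq]
    refine Nat.ModEq.of_dvd (orderOf_dvd_natCard u) ?_
    rw [show (l.map e).sum = ∑ r ∈ (Nat.card G).primeFactors, e r from Finset.sum_map_toList _ _]
    rw [Nat.modEq_iff_dvd]
    set n := Nat.card G with hn
    have hn0 : n ≠ 0 := Nat.card_pos.ne'
    have hprodn : (n : ℤ) = ∏ q ∈ n.primeFactors, ((q ^ n.factorization q : ℕ) : ℤ) := by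
      rw [← Nat.cast_prod]
      exact congrArg Nat.cast (Nat.prod_factorization_pow_eq_self hn0).symm
    rw [hprodn]
    refine Finset.prod_dvd_of_coprime ?_ fun q hq => ?_
    · intro a ha b hb hab
      exact Nat.isCoprime_iff_coprime.2 (Nat.coprime_pow_primes _ _
        (Nat.prime_of_mem_primeFactors ha) (Nat.prime_of_mem_primeFactors hb) hab)
    have hqp := Nat.prime_of_mem_primeFactors hq
    rw [← Nat.modEq_iff_dvd, ← Finset.add_sum_erase _ e hq]
    have hz : ∑ r ∈ n.primeFactors.erase q, e r ≡ 0 [MOD q ^ n.factorization q] := by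
      rw [Nat.modEq_zero_iff_dvd]
      refine Finset.dvd_sum fun r hr => ?_
      obtain ⟨hrq, hr⟩ := Finset.mem_erase.1 hr
      have hrp := Nat.prime_of_mem_primeFactors hr
      rw [show e r = partExp n r hrp hn0 from dif_pos hrp]
      refine dvd_trans ?_ (Nat.modEq_zero_iff_dvd.1 (partExp_spec n r hrp hn0).2)
      refine (Nat.Coprime.dvd_mul_left (Nat.coprime_pow_primes (n.factorization q)
        (n.factorization r) hqp hrp (Ne.symm hrq))).1 ?_
      rw [Nat.mul_div_cancel' (Nat.ordProj_dvd _ _)]
      exact Nat.ordProj_dvd _ _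
    have h1 : e q ≡ 1 [MOD q ^ n.factorization q] := by
      rw [show e q = partExp n q hqp hn0 from dif_pos hqp]
      exact (partExp_spec n q hqp hn0).1
    simpa using h1.add hz
  exact ⟨e, fun r hr => dif_pos hr, hprod⟩

/-- An element is determined by its parts. -/
theorem eq_of_part_eq {x y : G}
    (h : ∀ r ∈ (Nat.card G).primeFactors, ∀ hr : r.Prime, (haveI := Fact.mk hr; part r x = part r y)) :
    x = y := by
  obtain ⟨e, he, hprod⟩ := prod_parts (G := G)
  have h2 : ((Nat.card G).primeFactors.toList.map fun r => x ^ e r)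
      = (Nat.card G).primeFactors.toList.map fun r => y ^ e r := by
    refine List.map_congr_left fun r hr => ?_
    have hr' : r ∈ (Nat.card G).primeFactors := Finset.mem_toList.1 hr
    have hp := Nat.prime_of_mem_primeFactors hr'
    have h1 := h r hr' hp
    simp only [part, he r hp] at h1 ⊢
    exact h1
  rw [← hprod x, h2, hprod y]

/-- A subgroup containing all parts of `x` contains `x`. -/
theorem mem_of_part_mem {x : G} {F : Subgroup G}
    (h : ∀ r ∈ (Nat.card G).primeFactors, ∀ hr : r.Prime, (haveI := Fact.mk hr; part r x ∈ F)) :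
    x ∈ F := by
  obtain ⟨e, he, hprod⟩ := prod_parts (G := G)
  rw [← hprod x]
  refine list_prod_mem fun y hy => ?_
  obtain ⟨r, hr, rfl⟩ := List.mem_map.1 hy
  have hr' : r ∈ (Nat.card G).primeFactors := Finset.mem_toList.1 hr
  have hp := Nat.prime_of_mem_primeFactors hr'
  have h1 := h r hr' hp
  simp only [part, ← he r hp] at h1
  exact h1

end parts

section solvable

variable {M : Type*} [Group M]

/-- Elementwise commuting solvable subgroups generate a solvable subgroup. -/
theorem isSolvable_sup {H K : Subgroup M} (hH : Group.IsSolvable H) (hK : Group.IsSolvable K)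
    (hc : K ≤ Subgroup.centralizer (H : Set M)) : Group.IsSolvable (H ⊔ K : Subgroup M) := by
  have comm : ∀ (a : H) (b : K), Commute (H.subtype a) (K.subtype b) := fun a b =>
    Subgroup.mem_centralizer_iff.1 (hc b.2) a a.2
  have hrange : (MonoidHom.noncommCoprod H.subtype K.subtype comm).range = H ⊔ K := by
    rw [MonoidHom.noncommCoprod_range, Subgroup.range_subtype, Subgroup.range_subtype]
  haveI := hH
  haveI := hK
  haveI : Group.IsSolvable (H × K) := inferInstance
  rw [← hrange]
  exact Group.isSolvable_of_surjective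
    (f := (MonoidHom.noncommCoprod H.subtype K.subtype comm).rangeRestrict)
    (MonoidHom.rangeRestrict_surjective _)

end solvable

section main

variable {M : Type*} [Group M] [Finite M] (φ : M ≃* M)

theorem not_two_dvd_card (hfix : ∀ x, φ x = x → x = 1) (h4 : ∀ x, φ (φ (φ (φ x))) = x) :
    ¬ 2 ∣ Nat.card M := by
  let ψ : MulAut M := φ
  have hψ : ψ ^ 4 = 1 := MulEquiv.ext fun x => h4 x
  haveI : Fact (Nat.Prime 2) := ⟨Nat.prime_two⟩
  have hA : IsPGroup 2 (Subgroup.zpowers ψ) :=
    IsPGroup.iff_card.2 (by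
      rw [Nat.card_zpowers]
      obtain ⟨i, -, hi⟩ := (Nat.dvd_prime_pow Nat.prime_two).1
        (show orderOf ψ ∣ 2 ^ 2 from orderOf_dvd_of_pow_eq_one hψ)
      exact ⟨i, hi⟩)
  letI : MulAction (Subgroup.zpowers ψ) M := MulAction.compHom M (Subgroup.zpowers ψ).subtype
  intro h
  obtain ⟨b, hb, hb1⟩ := hA.exists_fixed_point_of_prime_dvd_card_of_fixed_point M h
    (a := (1 : M)) (fun a => map_one (a : MulAut M))
  exact hb1 (hfix b (hb ⟨ψ, Subgroup.mem_zpowers ψ⟩)).symm

/-- The norm of every element is trivial. -/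
theorem norm_eq_one (hfix : ∀ x, φ x = x → x = 1) (h4 : ∀ x, φ (φ (φ (φ x))) = x) (m : M) :
    m * φ m * φ (φ m) * φ (φ (φ m)) = 1 := by
  obtain ⟨x, rfl⟩ := commutatorMap_surjective (p := 4) ⟨hfix, h4⟩ m
  simp only [map_mul, map_inv, h4]
  group

/-- An element inverted by `φ²` commutes with its image. -/
theorem commute_image (hfix : ∀ x, φ x = x → x = 1) (h4 : ∀ x, φ (φ (φ (φ x))) = x) {w : M}
    (hw : φ (φ w) = w⁻¹) : Commute w (φ w) := by
  have h := norm_eq_one φ hfix h4 w
  rw [hw, map_inv] at h
  calc w * φ w = w * φ w * w⁻¹ * (φ w)⁻¹ * (φ w * w) := by group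
    _ = φ w * w := by rw [h, one_mul]

/-- A maximal invariant `r`-subgroup is a Sylow subgroup, and that is unique. -/
theorem le_invariant_sylow (hfix : ∀ x, φ x = x → x = 1) (h4 : ∀ x, φ (φ (φ (φ x))) = x) {r : ℕ}
    [Fact r.Prime] {R : Sylow r M} (hR : Invariant φ (R : Subgroup M)) {X : Subgroup M}
    (hX : IsPGroup r X) (hXi : Invariant φ X) : X ≤ R := by
  classical
  have h : IsFPF φ 4 := ⟨hfix, h4⟩
  let S : Set (Subgroup M) := {T | X ≤ T ∧ IsPGroup r T ∧ Invariant φ T}
  obtain ⟨T, ⟨hXT, hT, hTi⟩, hTmax⟩ :=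
    (Set.toFinite S).exists_maximal ⟨X, le_rfl, hX, hXi⟩
  -- `T` is a Sylow subgroup
  obtain ⟨Q, hQ⟩ := hT.exists_le_sylow
  have hTQ : T = Q := by
    by_contra hne
    set N := Subgroup.normalizer (T : Set M) with hN
    have hNi : Invariant φ N := invariant_normalizer hTi
    obtain ⟨S', hS'⟩ := exists_invariant_sylow (isFPF_restr h hNi) r
    set W := (S' : Subgroup N).map N.subtype with hW
    have hWi : Invariant φ W := by
      rintro _ ⟨y, hy, rfl⟩
      exact ⟨restr φ hNi y, hS' y hy, rfl⟩
    have hTW : T ≤ W := by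
      have h1 : (T.subgroupOf N) ≤ S' := by
        haveI : (T.subgroupOf N).Normal := Subgroup.normal_in_normalizer
        exact (show IsPGroup r (T.subgroupOf N) from hT.comap_subtype).le_sylow_of_normal S'
      intro t ht
      exact ⟨⟨t, Subgroup.le_normalizer ht⟩, h1 ht, rfl⟩
    have hWT : W ≤ T := hTmax ⟨hXT.trans hTW, S'.2.map _, hWi⟩ hTW
    haveI : Group.IsNilpotent (Q : Subgroup M) := Q.2.isNilpotent
    have hlt : T.subgroupOf (Q : Subgroup M) < ⊤ := lt_top_iff_ne_top.2 fun e =>
      hne (le_antisymm hQ (Subgroup.subgroupOf_eq_top.1 e))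
    obtain ⟨y, hy, hyT⟩ := SetLike.exists_of_lt
      (Group.normalizerCondition_of_isNilpotent _ hlt)
    have hyN : (y : M) ∈ N := by
      refine Subgroup.mem_normalizer_iff.2 fun t => ?_
      constructor
      · intro ht
        exact (Subgroup.mem_normalizer_iff.1 hy ⟨t, hQ ht⟩).1 ht
      · intro ht
        have h2 := hQ ht
        have ht2 : t ∈ (Q : Subgroup M) := by
          have := mul_mem (mul_mem (inv_mem y.2) h2) y.2
          simpa [mul_assoc] using this
        exact (Subgroup.mem_normalizer_iff.1 hy ⟨t, ht2⟩).2 ht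
    -- an `r`-subgroup of the normalizer larger than `T`
    obtain ⟨S'', hS''⟩ := (show IsPGroup r ((Q : Subgroup M).subgroupOf N) from
      Q.2.comap_subtype).exists_le_sylow
    obtain ⟨c, hc⟩ := MulAction.exists_smul_eq N S'' S'
    have hmem : (c : M) * y * (c : M)⁻¹ ∈ W := by
      refine ⟨c * ⟨y, hyN⟩ * c⁻¹, ?_, rfl⟩
      rw [← hc, Sylow.coe_subgroup_smul]
      exact ⟨⟨y, hyN⟩, hS'' y.2, rfl⟩
    exact hyT ((Subgroup.mem_normalizer_iff.1 c.2 y).2 (hWT hmem))
  -- uniqueness
  obtain ⟨c, hc⟩ := MulAction.exists_smul_eq M R Q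
  suffices hRQ : R = Q by
    rw [hRQ]
    exact hXT.trans hTQ.le
  have hmem : ∀ x, x ∈ (Q : Subgroup M) ↔ c⁻¹ * x * c ∈ (R : Subgroup M) := fun x => by
    rw [← hc, Sylow.coe_subgroup_smul, Subgroup.mem_pointwise_smul_iff_inv_smul_mem,
      MulAut.inv_def, MulAut.smul_def, MulAut.conj_symm_apply]
  have hd : c⁻¹ * φ c ∈ Subgroup.normalizer ((R : Subgroup M) : Set M) := by
    refine CfsgLib.CoprimeAction.mem_normalizer_of_conj_mem fun x hx => ?_
    obtain ⟨y, hy, hyx⟩ := (map_eq hR).ge hx
    have h1 : c * y * c⁻¹ ∈ (Q : Subgroup M) := (hmem _).2 (by simp only [mul_assoc, inv_mul_cancel, mul_one, inv_mul_cancel_left]; exact hy)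
    have h2 : φ (c * y * c⁻¹) ∈ (Q : Subgroup M) := hTQ ▸ hTi _ (hTQ.symm ▸ h1)
    have h3 := (hmem _).1 h2
    rw [map_mul, map_mul, map_inv, show φ y = x from hyx] at h3
    simpa [mul_assoc] using h3
  have hNi : Invariant φ (Subgroup.normalizer ((R : Subgroup M) : Set M)) :=
    invariant_normalizer hR
  obtain ⟨⟨y, hy⟩, hy1⟩ := commutatorMap_surjective (isFPF_restr h hNi) ⟨_, hd⟩
  have hy2 : y * (φ y)⁻¹ = c⁻¹ * φ c := congrArg Subtype.val hy1
  have hcy : c * y = 1 := hfix _ (by
    rw [map_mul]
    calc φ c * φ y = c * (c⁻¹ * φ c) * φ y := by group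
      _ = c * y := by rw [← hy2]; group)
  have hcN : c ∈ Subgroup.normalizer ((R : Subgroup M) : Set M) := by
    rw [eq_inv_of_mul_eq_one_left hcy]
    exact inv_mem hy
  rw [← hc]
  exact (Sylow.smul_eq_iff_mem_normalizer.2 hcN).symm

/-- **Gorenstein–Herstein**. -/
theorem isSolvable_of_fpf_four (hfix : ∀ x, φ x = x → x = 1)
    (h4 : ∀ x, φ (φ (φ (φ x))) = x) : Group.IsSolvable M := by
  classical
  have h : IsFPF φ 4 := ⟨hfix, h4⟩
  have hodd : Odd (Nat.card M) :=
    Nat.odd_iff.2 (Nat.two_dvd_ne_zero.1 (not_two_dvd_card φ hfix h4))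
  set z : M ≃* M := φ.trans φ with hzdef
  have hz : ∀ x, z (z x) = x := h4
  set U := fixedSubgroup z with hU
  have hUi : Invariant φ U := fun x hx => by
    show φ (φ (φ x)) = φ x
    rw [show φ (φ x) = x from hx]
  have hUinv : ∀ u ∈ U, φ u = u⁻¹ := by
    intro u hu
    have h1 := norm_eq_one φ hfix h4 u
    rw [show φ (φ u) = u from hu, mul_assoc, ← sq] at h1
    obtain ⟨j, hj⟩ := hodd
    have h2 : u * φ u = 1 := by
      calc u * φ u = ((u * φ u) ^ 2) ^ (j + 1) := by
            rw [← pow_mul, show 2 * (j + 1) = Nat.card M + 1 by omega, pow_succ,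
              pow_card_eq_one', one_mul]
        _ = 1 := by rw [h1, one_pow]
    exact eq_inv_of_mul_eq_one_right h2
  haveI hUc : IsMulCommutative U := ⟨⟨fun a b => Subtype.ext (inv_injective (by
    show ((a : M) * b)⁻¹ = ((b : M) * a)⁻¹
    rw [← hUinv _ (mul_mem a.2 b.2), map_mul, hUinv _ a.2, hUinv _ b.2, mul_inv_rev]))⟩⟩
  -- the invariant Sylow subgroups
  let π := (Nat.card M).primeFactors
  have hπ : ∀ r : π, Fact (r : ℕ).Prime := fun r => ⟨Nat.prime_of_mem_primeFactors r.2⟩
  choose R hR using fun r : π => (haveI := hπ r; exists_invariant_sylow h (r : ℕ))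
  have hRle : ∀ (r : π) (X : Subgroup M), IsPGroup r X → Invariant φ X → X ≤ R r := by
    intro r X hX hXi
    haveI := hπ r
    exact le_invariant_sylow φ hfix h4 (hR r) hX hXi
  -- inverted elements of prime power order
  have hpart : ∀ (r : π) (w : M), z w = w⁻¹ →
      (haveI := hπ r; part (r : ℕ) w ∈ (R r : Subgroup M)) := by
    intro r w hw
    haveI := hπ r
    set v := part (r : ℕ) w with hv
    have hzv : φ (φ v) = v⁻¹ := by
      show z v = v⁻¹
      rw [hv, part, map_pow, hw, inv_pow]
    have hc := commute_image φ hfix h4 hzv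
    haveI : IsMulCommutative (Subgroup.closure ({v, φ v} : Set M)) :=
      Subgroup.isMulCommutative_closure fun a ha b hb => by
        rcases ha with rfl | rfl <;> rcases hb with rfl | rfl
        exacts [rfl, hc, hc.symm, rfl]
    refine hRle r (Subgroup.closure {v, φ v}) ?_ ?_
      (Subgroup.subset_closure (Set.mem_insert v _))
    · intro a
      refine ⟨(Nat.card M).factorization r, ?_⟩
      obtain ⟨a, ha⟩ := a
      refine Subtype.ext ?_
      show a ^ _ = 1
      induction ha using Subgroup.closure_induction with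
      | mem x hx =>
        rcases hx with rfl | rfl
        · exact part_pow_eq_one (r : ℕ) w
        · rw [← map_pow, part_pow_eq_one (r : ℕ) w, map_one]
      | one => exact one_pow _
      | mul x y hx hy ihx ihy =>
        have hxy : Commute x y :=
          congrArg Subtype.val (mul_comm' (⟨x, hx⟩ : Subgroup.closure ({v, φ v} : Set M)) ⟨y, hy⟩)
        rw [hxy.mul_pow, ihx, ihy, one_mul]
      | inv x hx ihx => rw [inv_pow, ihx, inv_one]
    · intro a ha
      induction ha using Subgroup.closure_induction with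
      | mem x hx =>
        rcases hx with rfl | rfl
        · exact Subgroup.subset_closure (Set.mem_insert_of_mem _ rfl)
        · rw [hzv]
          exact inv_mem (Subgroup.subset_closure (Set.mem_insert v _))
      | one => rw [map_one]; exact one_mem _
      | mul x y _ _ ihx ihy => rw [map_mul]; exact mul_mem ihx ihy
      | inv x _ ihx => rw [map_inv]; exact inv_mem ihx
  -- counting
  let I := fun r : π => {w : M // w ∈ (R r : Subgroup M) ∧ z w = w⁻¹}
  have hI : ∀ r : π, Nat.card (I r) * Nat.card ((R r : Subgroup M) ⊓ U : Subgroup M)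
      = (r : ℕ) ^ (Nat.card M).factorization r := by
    intro r
    haveI := hπ r
    set zr := (restr φ (hR r)).trans (restr φ (hR r)) with hzr
    have h1 := card_inverted_mul zr
      (hodd.of_dvd_nat (Subgroup.card_subgroup_dvd_card _))
      (fun x => Subtype.ext (h4 (x : M)))
    rw [← (R r).card_eq_multiplicity]
    refine Eq.trans ?_ h1
    congr 1
    · exact Nat.card_congr
        { toFun := fun w => ⟨⟨w.1, w.2.1⟩, Subtype.ext w.2.2⟩
          invFun := fun w => ⟨w.1.1, w.1.2, congrArg Subtype.val w.2⟩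
          left_inv := fun _ => rfl
          right_inv := fun _ => rfl }
    · exact Nat.card_congr
        { toFun := fun w => ⟨⟨w.1, w.2.1⟩, Subtype.ext w.2.2⟩
          invFun := fun w => ⟨w.1.1, w.1.2, congrArg Subtype.val w.2⟩
          left_inv := fun _ => rfl
          right_inv := fun _ => rfl }
  have hUr : ∀ r : π, Nat.card ((R r : Subgroup M) ⊓ U : Subgroup M)
      = (r : ℕ) ^ (Nat.card U).factorization r := by
    intro r
    haveI := hπ r
    obtain ⟨S⟩ := (inferInstance : Nonempty (Sylow r U))
    have hSR : (S : Subgroup U).map U.subtype ≤ R r := by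
      refine hRle r _ (S.2.map _) ?_
      rintro _ ⟨s, hs, rfl⟩
      exact ⟨s⁻¹, inv_mem hs, (hUinv _ s.2).symm⟩
    rw [← S.card_eq_multiplicity]
    refine Nat.dvd_antisymm ?_ ?_
    · obtain ⟨i, hi⟩ := IsPGroup.iff_card.1 ((R r).2.to_le
        (show (R r : Subgroup M) ⊓ U ≤ R r from inf_le_left))
      have hdvd := Subgroup.card_dvd_of_le (show (R r : Subgroup M) ⊓ U ≤ U from inf_le_right)
      rw [hi] at hdvd ⊢
      rw [S.card_eq_multiplicity]
      exact pow_dvd_pow _ (((Fact.out : (r : ℕ).Prime).pow_dvd_iff_le_factorization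
        Nat.card_pos.ne').1 hdvd)
    · rw [← Subgroup.card_map_of_injective U.subtype_injective (K := (S : Subgroup U))]
      exact Subgroup.card_dvd_of_le (le_inf hSR (Subgroup.map_subtype_le _))
  have hprodn : ∀ d : ℕ, d ≠ 0 → d ∣ Nat.card M → (∏ r : π, (r : ℕ) ^ d.factorization r) = d := by
    intro d hd hdM
    refine Eq.trans (Finset.prod_coe_sort π (fun r => r ^ d.factorization r)) ?_
    refine Eq.trans ?_ (Nat.prod_factorization_pow_eq_self hd)
    rw [Finsupp.prod, Nat.support_factorization]
    refine (Finset.prod_subset (Nat.primeFactors_mono hdM Nat.card_pos.ne') fun x _ hx => ?_).symm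
    rw [← Nat.support_factorization, Finsupp.notMem_support_iff] at hx
    rw [hx, pow_zero]
  let f : Inverted z → ∀ r : π, I r := fun w r =>
    ⟨(haveI := hπ r; part (r : ℕ) w.1), hpart r w.1 w.2, by
      haveI := hπ r
      rw [part, map_pow, w.2, inv_pow]⟩
  have hf : Function.Bijective f := by
    haveI : ∀ r, Fintype (I r) := fun r => Fintype.ofFinite _
    refine (Nat.bijective_iff_injective_and_card f).2 ⟨fun a b hab => Subtype.ext
      (eq_of_part_eq fun r hr _ => congrArg Subtype.val (congrFun hab ⟨r, hr⟩)), ?_⟩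
    refine Nat.eq_of_mul_eq_mul_right (Nat.card_pos (α := U)) ?_
    rw [card_inverted_mul z hodd hz, Nat.card_pi]
    conv_rhs => rw [← hprodn (Nat.card U) Nat.card_pos.ne' (Subgroup.card_subgroup_dvd_card _)]
    rw [← Finset.prod_mul_distrib]
    conv_lhs => rw [← hprodn (Nat.card M) Nat.card_pos.ne' dvd_rfl]
    exact Finset.prod_congr rfl fun r _ => by rw [← hUr r, hI r]
  have hcomm : ∀ r s : π, r ≠ s → ∀ (a : I r) (b : I s), Commute a.1 b.1 := by
    intro r s hrs a b
    let c : ∀ t : π, I t := Function.update (Function.update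
      (fun t => ⟨1, one_mem _, by rw [map_one, inv_one]⟩) r a) s b
    obtain ⟨w, hw⟩ := hf.2 c
    have ha : (haveI := hπ r; part (r : ℕ) w.1) = a.1 := by
      have := congrArg Subtype.val (congrFun hw r)
      simpa [c, Function.update_of_ne hrs] using this
    have hb : (haveI := hπ s; part (s : ℕ) w.1) = b.1 := by
      have := congrArg Subtype.val (congrFun hw s)
      simpa [c] using this
    rw [← ha, ← hb]
    exact (Commute.refl _).pow_pow _ _
  -- the subgroup generated by the inverted elements
  let L : π → Subgroup M := fun r => Subgroup.closure {w | w ∈ (R r : Subgroup M) ∧ z w = w⁻¹}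
  have hLc : ∀ r s : π, r ≠ s → L s ≤ Subgroup.centralizer (L r : Set M) := by
    intro r s hrs
    rw [Subgroup.closure_le]
    intro b hb
    rw [SetLike.mem_coe, Subgroup.mem_centralizer_iff]
    intro a ha
    induction ha using Subgroup.closure_induction with
    | mem x hx => exact hcomm r s hrs ⟨x, hx⟩ ⟨b, hb⟩
    | one => simp
    | mul x y _ _ ihx ihy =>
      exact ((show Commute x b from ihx).mul_left (show Commute y b from ihy))
    | inv x _ ihx => exact (show Commute x b from ihx).inv_left
  have hF : ∀ s : Finset π, Group.IsSolvable (s.sup L : Subgroup M) := by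
    intro s
    induction s using Finset.induction_on with
    | empty => rw [Finset.sup_empty]; infer_instance
    | insert a s ha ih =>
      rw [Finset.sup_insert]
      haveI := hπ a
      haveI : Group.IsSolvable (L a) := by
        haveI : Group.IsNilpotent (R a : Subgroup M) := (R a).2.isNilpotent
        exact Group.isSolvable_of_isSolvable_injective
          (Subgroup.inclusion_injective ((Subgroup.closure_le _).2 fun w hw => hw.1 :
            L a ≤ R a))
      exact isSolvable_sup this ih
        (Finset.sup_le fun b hb => hLc a b (fun e => ha (e ▸ hb)))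
  set F := (Finset.univ : Finset π).sup L with hFdef
  have hinvF : ∀ w, z w = w⁻¹ → w ∈ F := by
    intro w hw
    refine mem_of_part_mem fun r hr hp => ?_
    exact (Finset.le_sup (f := L) (Finset.mem_univ (⟨r, hr⟩ : π)))
      (Subgroup.subset_closure ⟨hpart ⟨r, hr⟩ w hw, by rw [part, map_pow, hw, inv_pow]⟩)
  have hUnorm : ∀ u, z u = u → u ∈ Subgroup.normalizer (F : Set M) := by
    intro u hu
    refine CfsgLib.CoprimeAction.mem_normalizer_of_conj_mem fun x hx => ?_
    have : F ≤ F.comap (MulAut.conj u).toMonoidHom := by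
      refine Finset.sup_le fun r _ => (Subgroup.closure_le _).2 fun w hw => hinvF _ ?_
      show z (u * w * u⁻¹) = (u * w * u⁻¹)⁻¹
      rw [map_mul, map_mul, map_inv, hu, hw.2]
      group
    exact this hx
  haveI hFn : F.Normal := by
    refine Subgroup.normalizer_eq_top_iff.1 (eq_top_iff.2 fun m _ => ?_)
    obtain ⟨v, u, hv, hu, rfl⟩ := decompose z hodd hz m
    exact mul_mem (Subgroup.le_normalizer (hinvF v hv)) (hUnorm u hu)
  haveI : Group.IsSolvable F := hF _
  haveI : Group.IsSolvable U := Group.isSolvable_of_comm fun a b => mul_comm' a b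
  haveI : Group.IsSolvable (M ⧸ F) := Group.isSolvable_of_surjective
    (f := (QuotientGroup.mk' F).comp U.subtype) (by
      intro q
      induction q using QuotientGroup.induction_on with | _ m => ?_
      obtain ⟨v, u, hv, hu, rfl⟩ := decompose z hodd hz m
      refine ⟨⟨u, hu⟩, ?_⟩
      show ((u : M) : M ⧸ F) = ((v * u : M) : M ⧸ F)
      rw [QuotientGroup.mk_mul, (QuotientGroup.eq_one_iff v).2 (hinvF v hv), one_mul])
  exact Group.isSolvable_of_ker_le_range F.subtype (QuotientGroup.mk' F) (by simp)

end main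

end CfsgLib.SeenOnce.FPFFour
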