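import Mathlib.FieldTheory.Finite.Basic
import Mathlib.FieldTheory.Finiteness
import Mathlib.GroupTheory.PGroup
import Mathlib.Algebra.CharP.Lemmas
import Mathlib.Algebra.Algebra.ZMod

/-!
# Forms on a finite field equivariant under its multiplicative group

If a biadditive map `β : F × F → U` into a group smaller than `F` is equivariant for the units of
`F`, then `|F| = q²` and `β (l a) b = β a (l^q b)`; a third layer over such a map vanishes.
-/

set_option autoImplicit false
set_option linter.style.haveILetI false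
set_option linter.unusedSectionVars false

namespace CfsgLib.SeenOnce.FieldForms

variable {F : Type*} [Field F] [Finite F] {p : ℕ} [Fact p.Prime] [CharP F p]

theorem exists_card : ∃ k, 0 < k ∧ Nat.card F = p ^ k := by
  haveI := Fintype.ofFinite F
  obtain ⟨⟨k, hk⟩, hp, hc⟩ := FiniteField.card F p
  exact ⟨k, hk, by rw [Nat.card_eq_fintype_card, hc]; rfl⟩

theorem pow_card (x : F) : x ^ Nat.card F = x := by
  haveI := Fintype.ofFinite F
  rw [Nat.card_eq_fintype_card, FiniteField.pow_card]

/-- A large set of units generates the field. -/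
theorem closure_eq_top {k g : ℕ} (hk : Nat.card F = p ^ k) (hg : 2 * g ≤ k) {C : Set Fˣ}
    (hC : p ^ k - 1 ≤ Nat.card C * (p ^ g - 1))  :
    Subring.closure (((↑) : Fˣ → F) '' C) = ⊤ := by
  set R := Subring.closure (((↑) : Fˣ → F) '' C) with hR
  let K : Subfield F :=
    { R with
      inv_mem' := fun x hx => by
        by_cases h0 : x = 0
        · subst h0; simp
        · have h2 : 2 ≤ Nat.card F := Finite.one_lt_card
          have h1 : x ^ (Nat.card F - 2) = x⁻¹ := by
            refine eq_inv_of_mul_eq_one_left (mul_right_cancel₀ h0 ?_)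
            rw [one_mul, mul_assoc, ← sq, ← pow_add, Nat.sub_add_cancel h2, pow_card]
          show x⁻¹ ∈ R
          rw [← h1]
          exact pow_mem hx _ }
  haveI : CharP K p := by infer_instance
  obtain ⟨j, hj0, hj⟩ := exists_card (F := K) (p := p)
  have hfin := Module.natCard_eq_pow_finrank (K := K) (V := F)
  rw [hk, hj, ← pow_mul] at hfin
  have hkj : k = j * Module.finrank K F := Nat.pow_right_injective (Fact.out : p.Prime).two_le hfin
  by_contra hne
  have hr : 2 ≤ Module.finrank K F := by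
    by_contra hlt
    have h1 : Module.finrank K F = 1 := by
      have := Module.finrank_pos (R := K) (M := F)
      omega
    rw [h1, mul_one] at hkj
    refine hne (eq_top_iff.2 fun x _ => ?_)
    have h2 : (Subtype.val : K → F).Surjective :=
      (Nat.bijective_iff_injective_and_card _ |>.2 ⟨Subtype.val_injective, by rw [hj, hk, hkj]⟩).2
    obtain ⟨y, hy⟩ := h2 x
    exact hy ▸ y.2
  have hjk : 2 * j ≤ k := by rw [hkj, mul_comm]; exact Nat.mul_le_mul_left j hr
  have hCj : Nat.card C ≤ p ^ j - 1 := by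
    rw [← hj]
    haveI := Fintype.ofFinite K
    rw [← Nat.card_units]
    refine Nat.card_le_card_of_injective (fun c : C => Units.mk0
      (⟨((c : Fˣ) : F), Subring.subset_closure ⟨c, c.2, rfl⟩⟩ : K)
      (fun e => (c : Fˣ).ne_zero (congrArg Subtype.val e))) ?_
    intro a b hab
    exact Subtype.ext (Units.ext (congrArg (fun u : Kˣ => ((u : K) : F)) hab))
  have h1 := hC.trans (Nat.mul_le_mul_right _ hCj)
  have hj1 : 2 ≤ p ^ j := hj ▸ Finite.one_lt_card
  have hg1 : 1 ≤ p ^ g := Nat.one_le_pow _ _ (Fact.out : p.Prime).pos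
  have h2 : p ^ j * p ^ g ≤ p ^ k := by
    rw [← pow_add]
    exact Nat.pow_le_pow_right (Fact.out : p.Prime).pos (by omega)
  obtain ⟨a, ha⟩ := Nat.exists_eq_add_of_le hj1
  obtain ⟨b, hb⟩ := Nat.exists_eq_add_of_le hg1
  rw [ha, hb] at h1 h2
  have h3 : (2 + a - 1) * (1 + b - 1) = (1 + a) * b := by
    rw [show 2 + a - 1 = 1 + a by omega, show 1 + b - 1 = b by omega]
  rw [h3] at h1
  have h4 : (2 + a) * (1 + b) = (1 + a) * b + (2 + a) + b := by ring
  omega

section projection

theorem mulApply {U : Type*} [AddCommGroup U] (f g : AddMonoid.End U) (x : U) :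
    (f * g) x = f (g x) := rfl

theorem subApply {U : Type*} [AddCommGroup U] (f g : AddMonoid.End U) (x : U) :
    (f - g) x = f x - g x := rfl

variable {U : Type*} [AddCommGroup U] [Finite U]

/-- **Projection to a field component.** For a representation of `Fˣ` on a small group and a
nonzero vector there are an endomorphism not killing it and a generating set of units that the
endomorphism does not see. -/
theorem exists_projection (hU : Nat.card U < Nat.card F) (hUp : ∀ u : U, p • u = 0)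
    (Γ : Fˣ →* AddMonoid.End U) {u0 : U} (hu0 : u0 ≠ 0) :
    ∃ (e : U →+ U) (C : Set Fˣ), e u0 ≠ 0 ∧ Subring.closure (((↑) : Fˣ → F) '' C) = ⊤ ∧
      (∀ c ∈ C, ∀ u, e (Γ c u) = e u) ∧ 3 ≤ Nat.card C := by
  classical
  have hp : p.Prime := Fact.out
  obtain ⟨k, hk0, hk⟩ := exists_card (F := F) (p := p)
  set N := Nat.card F with hN
  have hN2 : 2 ≤ N := Finite.one_lt_card
  haveI : Nontrivial U := ⟨⟨u0, 0, hu0⟩⟩
  haveI : CharP (AddMonoid.End U) p := by
    refine ⟨fun n => ⟨fun h => ?_, fun h => ?_⟩⟩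
    · by_contra hn
      have hcop : n.Coprime p := ((hp.coprime_iff_not_dvd.2 hn)).symm
      have h1 : n • u0 = 0 := by
        have := DFunLike.congr_fun h u0
        simpa using this
      refine hu0 (AddMonoid.addOrderOf_eq_one_iff.1 (Nat.eq_one_of_dvd_coprimes hcop
        (addOrderOf_dvd_of_nsmul_eq_zero h1) (addOrderOf_dvd_of_nsmul_eq_zero (hUp u0))))
    · obtain ⟨m, rfl⟩ := h
      ext u
      simp [mul_comm p m, hUp]
  set S := Subsemiring.closure (Set.range Γ) with hS
  have hΓS : ∀ l, Γ l ∈ S := fun l => Subsemiring.subset_closure ⟨l, rfl⟩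
  have hcomm : ∀ x ∈ S, ∀ y ∈ S, Commute x y := by
    intro x hx y hy
    induction hx, hy using Subsemiring.closure_induction₂ with
    | mem_mem a b ha hb =>
      obtain ⟨i, rfl⟩ := ha
      obtain ⟨j, rfl⟩ := hb
      rw [commute_iff_eq, ← map_mul, ← map_mul, mul_comm]
    | zero_left => exact Commute.zero_left _
    | zero_right => exact Commute.zero_right _
    | one_left => exact Commute.one_left _
    | one_right => exact Commute.one_right _
    | add_left _ _ _ _ _ _ h1 h2 => exact h1.add_left h2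
    | add_right _ _ _ _ _ _ h1 h2 => exact h1.add_right h2
    | mul_left _ _ _ _ _ _ h1 h2 => exact h1.mul_left h2
    | mul_right _ _ _ _ _ _ h1 h2 => exact h1.mul_right h2
  have hpow : ∀ x ∈ S, x ^ N = x := by
    intro x hx
    induction hx using Subsemiring.closure_induction with
    | mem a ha =>
      obtain ⟨l, rfl⟩ := ha
      rw [← map_pow]
      congr 1
      exact Units.ext (by rw [Units.val_pow_eq_pow_val]; exact pow_card _)
    | zero => exact zero_pow (by omega)
    | one => exact one_pow _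
    | add a b ha hb iha ihb =>
      rw [hk] at iha ihb ⊢
      rw [add_pow_char_pow_of_commute _ _ (hcomm a ha b hb), iha, ihb]
    | mul a b ha hb iha ihb => rw [(hcomm a ha b hb).mul_pow, iha, ihb]
  have hneg : ∀ x ∈ S, -x ∈ S := by
    intro x hx
    have h1 : (p - 1) • x = -x := by
      refine eq_neg_of_add_eq_zero_left ?_
      rw [← succ_nsmul, Nat.sub_add_cancel hp.one_le, nsmul_eq_mul, CharP.cast_eq_zero, zero_mul]
    exact h1 ▸ nsmul_mem hx _
  -- a smallest principal ideal not killing `u0`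
  haveI : Finite (AddMonoid.End U) := Finite.of_injective
    (fun f : AddMonoid.End U => (⇑f : U → U)) DFunLike.coe_injective
  let pr : AddMonoid.End U → Set (AddMonoid.End U) := fun r => (fun s => r * s) '' (S : Set _)
  obtain ⟨r, ⟨hr, hru⟩, hmin⟩ := Set.exists_min_image
    {x : AddMonoid.End U | x ∈ S ∧ x u0 ≠ 0} (fun x => (pr x).ncard) (Set.toFinite _)
    ⟨1, one_mem _, by simpa using hu0⟩
  set e := r ^ (N - 1) with he
  have heS : e ∈ S := pow_mem hr _
  have her : e * r = r := by rw [he, ← pow_succ, Nat.sub_add_cancel (by omega), hpow r hr]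
  have hre : r * e = r := (hcomm r hr e heS).eq.trans her
  have hee : e * e = e := by
    conv_lhs => rw [he]; lhs; rw [show N - 1 = N - 2 + 1 by omega, pow_succ]
    rw [mul_assoc, ← he, hre, ← pow_succ, show N - 2 + 1 = N - 1 by omega]
  have heu : e u0 ≠ 0 := fun h => hru (by
    have := DFunLike.congr_fun hre u0
    rw [mulApply, h, map_zero] at this
    exact this.symm)
  have hpre : pr e = pr r := by
    ext y
    constructor
    · rintro ⟨s, hs, rfl⟩
      refine ⟨r ^ (N - 2) * s, mul_mem (pow_mem hr _) hs, ?_⟩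
      show r * (r ^ (N - 2) * s) = e * s
      rw [← mul_assoc, ← pow_succ', show N - 2 + 1 = N - 1 by omega]
    · rintro ⟨s, hs, rfl⟩
      refine ⟨r * s, mul_mem hr hs, ?_⟩
      show e * (r * s) = r * s
      rw [← mul_assoc, her]
  -- `e S` is a field
  have hfield : ∀ a ∈ S, e * a = a → a ≠ 0 → a ^ (N - 1) = e := by
    intro a ha hea ha0
    have hmineq : ∀ x ∈ S, e * x = x → x * x = x → x u0 ≠ 0 → x = e := by
      intro x hx hex hxx hxu
      have hsub : pr x ⊆ pr e := by
        rintro _ ⟨s, hs, rfl⟩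
        exact ⟨x * s, mul_mem hx hs, by show e * (x * s) = x * s; rw [← mul_assoc, hex]⟩
      have heq : pr x = pr e := Set.eq_of_subset_of_ncard_le hsub
        (by rw [hpre]; exact hmin x ⟨hx, hxu⟩) (Set.toFinite _)
      obtain ⟨t, ht, hte⟩ : e ∈ pr x := heq ▸ ⟨1, one_mem _, mul_one e⟩
      have h1 : x * e = e := by
        show x * e = e
        rw [show e = x * t from hte.symm, ← mul_assoc, hxx]
      rw [← h1, (hcomm x hx e heS).eq, hex]
    set b := a ^ (N - 1) with hb
    have hbS : b ∈ S := pow_mem ha _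
    have hab : a * b = a := by rw [hb, ← pow_succ', Nat.sub_add_cancel (by omega), hpow a ha]
    have hbb : b * b = b := by
      conv_lhs => rw [hb]; lhs; rw [show N - 1 = N - 2 + 1 by omega, pow_succ]
      rw [mul_assoc, ← hb, hab, ← pow_succ, show N - 2 + 1 = N - 1 by omega]
    have heb : e * b = b := by
      rw [hb, show N - 1 = N - 2 + 1 by omega, pow_succ', ← mul_assoc, hea]
    by_cases hbu : b u0 = 0
    · exfalso
      have hbe : b * e = b := (hcomm b hbS e heS).eq.trans heb
      have hdS : e - b ∈ S := by rw [sub_eq_add_neg]; exact add_mem heS (hneg b hbS)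
      have h1 := hmineq (e - b) hdS (by rw [mul_sub, hee, heb])
        (by rw [mul_sub, sub_mul, sub_mul, hee, hbe, heb, hbb]; abel)
        (by rw [subApply, hbu, sub_zero]; exact heu)
      have hb0 : b = 0 := sub_eq_self.1 h1
      exact ha0 (by rw [← hab, hb0, mul_zero])
    · exact hmineq b hbS heb hbb hbu
  -- the image of the units
  let E : Type _ := {a : AddMonoid.End U // a ∈ S ∧ e * a = a}
  have hEU : Nat.card E ≤ Nat.card U := by
    refine Nat.card_le_card_of_injective (fun a : E => a.1 (e u0)) ?_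
    rintro ⟨a, ha, hea⟩ ⟨b, hb, heb⟩ hab
    refine Subtype.ext ?_
    by_contra hne
    have h1 := hfield (a - b) (by rw [sub_eq_add_neg]; exact add_mem ha (hneg b hb))
      (by rw [mul_sub, hea, heb]) (sub_ne_zero.2 hne)
    have hab' : (a - b) (e u0) = 0 := by
      rw [subApply, sub_eq_zero]
      exact hab
    refine heu ?_
    have h2 : e u0 = ((a - b) ^ (N - 2) * (a - b)) (e u0) := by
      rw [← pow_succ, show N - 2 + 1 = N - 1 by omega, h1]
      exact (DFunLike.congr_fun hee u0).symm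
    rw [h2, mulApply, hab', map_zero]
  let EA : AddSubgroup (AddMonoid.End U) :=
    { carrier := {a | a ∈ S ∧ e * a = a}
      add_mem' := fun {a b} ha hb => ⟨add_mem ha.1 hb.1, by rw [mul_add, ha.2, hb.2]⟩
      zero_mem' := ⟨zero_mem _, mul_zero _⟩
      neg_mem' := fun {a} ha => ⟨hneg a ha.1, by rw [mul_neg, ha.2]⟩ }
  obtain ⟨h, hh⟩ : ∃ h, Nat.card E = p ^ h := by
    show ∃ h, Nat.card EA = p ^ h
    have hpg : IsPGroup p (Multiplicative EA) := by
      intro x
      refine ⟨1, Multiplicative.toAdd.injective (Subtype.ext ?_)⟩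
      rw [pow_one, toAdd_pow, toAdd_one, AddSubgroup.coe_nsmul, nsmul_eq_mul, CharP.cast_eq_zero,
        zero_mul]
      rfl
    obtain ⟨h, hh⟩ := IsPGroup.iff_card.1 hpg
    exact ⟨h, (Nat.card_congr Multiplicative.ofAdd).trans hh⟩
  have hhk : h < k := (Nat.pow_lt_pow_iff_right hp.one_lt).1 (hk ▸ hh ▸ hEU.trans_lt hU)
  let X := {a : E // a.1 ≠ 0}
  letI act : MulAction Fˣ X :=
    { smul := fun l a => ⟨⟨Γ l * a.1.1, mul_mem (hΓS l) a.1.2.1, by
          rw [← mul_assoc, (hcomm e heS _ (hΓS l)).eq, mul_assoc, a.1.2.2]⟩, fun h0 => a.2 (by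
          have h0' : Γ l * a.1.1 = 0 := h0
          calc a.1.1 = Γ l⁻¹ * (Γ l * a.1.1) := by
                rw [← mul_assoc, ← map_mul, inv_mul_cancel, map_one, one_mul]
            _ = 0 := by rw [h0', mul_zero])⟩
      one_smul := fun a => Subtype.ext (Subtype.ext (by show Γ 1 * a.1.1 = a.1.1; simp))
      mul_smul := fun l m a => Subtype.ext (Subtype.ext (by
        show Γ (l * m) * a.1.1 = Γ l * (Γ m * a.1.1)
        rw [map_mul, mul_assoc])) }
  let C : Subgroup Fˣ :=
    { carrier := {l | e * Γ l = e}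
      one_mem' := by simp
      mul_mem' := fun {a b} ha hb => by
        show e * Γ (a * b) = e
        rw [map_mul, ← mul_assoc, ha, hb]
      inv_mem' := fun {a} ha => by
        show e * Γ a⁻¹ = e
        conv_lhs => rw [← show e * Γ a = e from ha]
        rw [mul_assoc, ← map_mul, mul_inv_cancel, map_one, mul_one] }
  have hstab : ∀ a : X, MulAction.stabilizer Fˣ a = C := by
    intro a
    ext l
    have ha := hfield a.1.1 a.1.2.1 a.1.2.2 a.2
    constructor
    · intro hl
      have h1 : Γ l * a.1.1 = a.1.1 := congrArg (fun x : X => x.1.1) hl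
      show e * Γ l = e
      rw [← (hcomm _ (hΓS l) e heS).eq, ← ha, show N - 1 = N - 2 + 1 by omega, pow_succ',
        ← mul_assoc, h1]
    · intro hl
      refine Subtype.ext (Subtype.ext ?_)
      show Γ l * a.1.1 = a.1.1
      conv_lhs => rw [← a.1.2.2]
      rw [← mul_assoc, (hcomm _ (hΓS l) e heS).eq, show e * Γ l = e from hl, a.1.2.2]
  have hdvd : C.index ∣ p ^ h - 1 := by
    have hX : Nat.card X = p ^ h - 1 := by
      rw [← hh]
      haveI : Finite E := inferInstanceAs (Finite {a : AddMonoid.End U // a ∈ S ∧ e * a = a})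
      let z : E := ⟨0, zero_mem _, mul_zero _⟩
      have h1 : Nat.card {a : E // a ≠ z} = Nat.card E - 1 := by
        haveI := Fintype.ofFinite E
        rw [Nat.card_eq_fintype_card, Fintype.card_subtype_compl, Fintype.card_subtype_eq,
          Nat.card_eq_fintype_card]
      rw [← h1]
      exact Nat.card_congr (Equiv.subtypeEquivRight fun a =>
        ⟨fun h1 h2 => h1 (congrArg Subtype.val h2), fun h1 h2 => h1 (Subtype.ext h2)⟩)
    haveI : Finite X := inferInstance
    haveI := Fintype.ofFinite (MulAction.orbitRel.Quotient Fˣ X)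
    rw [← hX, Nat.card_congr (MulAction.selfEquivSigmaOrbits Fˣ X), Nat.card_sigma]
    refine Finset.dvd_sum fun q _ => ?_
    rw [Nat.card_congr (MulAction.orbitEquivQuotientStabilizer Fˣ q.out), hstab,
      ← Subgroup.index_eq_card]
  have hunits : Nat.card Fˣ = p ^ k - 1 := by rw [Nat.card_units, ← hk]
  have hdvd2 : C.index ∣ p ^ k - 1 := hunits ▸ C.index_dvd_card
  set g := Nat.gcd h k with hgdef
  have hgd : C.index ∣ p ^ g - 1 := by
    rw [hgdef, ← Nat.pow_sub_one_gcd_pow_sub_one]
    exact Nat.dvd_gcd hdvd hdvd2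
  have hg2 : 2 * g ≤ k ∨ h = 0 := by
    rcases Nat.eq_zero_or_pos h with h0 | h0
    · exact Or.inr h0
    obtain ⟨c, hc⟩ := Nat.gcd_dvd_right h k
    have hgh : g ≤ h := Nat.le_of_dvd h0 (Nat.gcd_dvd_left h k)
    have hc2 : 2 ≤ c := by
      rcases c with _ | _ | c
      · omega
      · rw [zero_add, mul_one, ← hgdef] at hc; omega
      · omega
    exact Or.inl (hc ▸ (mul_comm 2 g).le.trans (Nat.mul_le_mul_left g hc2))
  have hh0 : h ≠ 0 := by
    intro h0
    rw [h0, pow_zero] at hh
    haveI := (Nat.card_eq_one_iff_unique.1 hh).1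
    have h1 : (⟨e, heS, hee⟩ : E) = ⟨0, zero_mem _, mul_zero _⟩ := Subsingleton.elim _ _
    exact heu (by rw [show e = 0 from congrArg Subtype.val h1]; rfl)
  have hg : 2 * g ≤ k := hg2.resolve_right hh0
  have hg0 : 0 < g := Nat.gcd_pos_of_pos_right _ hk0
  have hgpos : 0 < p ^ g - 1 := by
    have := Nat.one_lt_pow hg0.ne' hp.one_lt
    omega
  have hCbig : p ^ k - 1 ≤ Nat.card C * (p ^ g - 1) := by
    rw [← hunits, ← C.card_mul_index]
    exact Nat.mul_le_mul_left _ (Nat.le_of_dvd hgpos hgd)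
  refine ⟨e, C, heu, closure_eq_top hk hg hCbig, fun c hc u => ?_, ?_⟩
  · exact DFunLike.congr_fun (show e * Γ c = e from hc) u
  · by_contra hlt
    have h1 : p ^ k - 1 ≤ 2 * (p ^ g - 1) := hCbig.trans (Nat.mul_le_mul_right _
      (Nat.le_of_lt_succ (not_le.1 hlt)))
    have h2 : p ^ g * p ^ g ≤ p ^ k := by
      rw [← pow_add]
      exact Nat.pow_le_pow_right hp.pos (by omega)
    have h3 : 2 ≤ p ^ g := Nat.one_lt_pow hg0.ne' hp.one_lt
    have h4 : 2 * p ^ g ≤ p ^ g * p ^ g := Nat.mul_le_mul_right _ h3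
    omega

end projection

theorem units_pow_eq_card_le {m : ℕ} (hm : 0 < m) :
    Nat.card {x : Fˣ // x ^ m = 1} ≤ m := by
  classical
  haveI := Fintype.ofFinite Fˣ
  rw [Nat.card_eq_fintype_card, Fintype.card_subtype]
  exact IsCyclic.card_pow_eq_one_le hm

variable (F p) in
/-- The only nontrivial involutory automorphism. -/
theorem exists_halfFrobenius (σ : F ≃+* F) (h2 : ∀ x, σ (σ x) = x) (h1 : ∃ x, σ x ≠ x) :
    ∃ m, Nat.card F = p ^ (2 * m) ∧ ∀ x, σ x = x ^ p ^ m := by
  obtain ⟨k, hk0, hk⟩ := exists_card (F := F) (p := p)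
  letI : Algebra (ZMod p) F := ZMod.algebra F p
  haveI : Finite (ZMod p) := inferInstance
  let σ' : F ≃ₐ[ZMod p] F := AlgEquiv.ofRingEquiv (f := σ) fun x => by
    obtain ⟨n, rfl⟩ := ZMod.natCast_zmod_surjective (n := p) x
    simp
  obtain ⟨⟨n, hn⟩, hn'⟩ :=
    (FiniteField.bijective_frobeniusAlgEquivOfAlgebraic_pow (ZMod p) F).2 σ'
  have hσ : ∀ x, σ x = x ^ p ^ n := by
    intro x
    have := DFunLike.congr_fun hn' x
    simp only [AlgEquiv.coe_pow, FiniteField.coe_frobeniusAlgEquivOfAlgebraic_iterate,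
      ZMod.card] at this
    exact this.symm
  have hnk : n < k := by
    have h := Module.natCard_eq_pow_finrank (K := ZMod p) (V := F)
    rw [hk, Nat.card_zmod] at h
    exact (Nat.pow_right_injective (Fact.out : p.Prime).two_le h) ▸ hn
  have hn0 : n ≠ 0 := by
    rintro rfl
    obtain ⟨x, hx⟩ := h1
    exact hx (by rw [hσ]; simp)
  obtain ⟨ζ, hζ⟩ := IsCyclic.exists_generator (α := Fˣ)
  have hord : orderOf ζ = p ^ k - 1 := by
    rw [orderOf_eq_card_of_forall_mem_zpowers hζ, Nat.card_units, hk]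
  have h2n : (k : ℕ) ∣ 2 * n := by
    have hz : ζ ^ (p ^ (2 * n) - 1) = 1 := by
      refine Units.ext ?_
      rw [Units.val_pow_eq_pow_val, Units.val_one]
      refine mul_left_cancel₀ ζ.ne_zero ?_
      rw [← pow_succ', Nat.sub_add_cancel (Nat.one_le_pow _ _ (Fact.out : p.Prime).pos), mul_one,
        two_mul, pow_add, pow_mul, ← hσ, ← hσ, h2]
    have hd := orderOf_dvd_of_pow_eq_one hz
    rw [hord] at hd
    have h3 := Nat.gcd_eq_left hd
    rw [Nat.pow_sub_one_gcd_pow_sub_one] at h3
    have h5 : p ^ Nat.gcd k (2 * n) = p ^ k := by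
      have := Nat.one_le_pow (Nat.gcd k (2 * n)) p (Fact.out : p.Prime).pos
      have := Nat.one_le_pow k p (Fact.out : p.Prime).pos
      omega
    exact Nat.gcd_eq_left_iff_dvd.1 (Nat.pow_right_injective (Fact.out : p.Prime).two_le h5)
  obtain ⟨c, hc⟩ := h2n
  have hc1 : c = 1 := by
    rcases c with _ | _ | c
    · omega
    · rfl
    · nlinarith
  rw [hc1, mul_one] at hc
  exact ⟨n, hc ▸ hk, hσ⟩

section layers

variable {U : Type*} [AddCommGroup U] [Finite U]

theorem exists_hom {ι : Type*} (β : ι → U) (hspan : AddSubgroup.closure (Set.range β) = ⊤)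
    (act : Fˣ → ι → ι) (h1 : ∀ i, act 1 i = i) (hmul : ∀ l m i, act (l * m) i = act l (act m i))
    (heq : ∀ l, ∃ γ : U →+ U, ∀ i, β (act l i) = γ (β i)) :
    ∃ Γ : Fˣ →* AddMonoid.End U, ∀ l i, β (act l i) = Γ l (β i) := by
  choose γ hγ using heq
  have hext : ∀ f g : U →+ U, (∀ i, f (β i) = g (β i)) → f = g := fun f g h => by
    refine AddMonoidHom.eq_of_eqOn_dense hspan ?_
    rintro _ ⟨i, rfl⟩
    exact h i
  exact ⟨{ toFun := fun l => γ l
           map_one' := hext _ _ fun i => by rw [← hγ, h1]; rfl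
           map_mul' := fun l m => hext _ _ fun i => by
             rw [← hγ, hmul, hγ, hγ]; rfl }, hγ⟩

/-- **Second layer.** -/
theorem bilinear_eq (hU : Nat.card U < Nat.card F) (β : F →+ F →+ U)
    (hspan : AddSubgroup.closure (Set.range fun x : F × F => β x.1 x.2) = ⊤)
    (heq : ∀ l : Fˣ, ∃ γ : U →+ U, ∀ a b, β (l * a) (l * b) = γ (β a b)) (hne : β ≠ 0) :
    ∃ m, Nat.card F = p ^ (2 * m) ∧ ∀ l a b, β (l * a) b = β a (l ^ p ^ m * b) := by
  have hUp : ∀ u : U, p • u = 0 := by
    intro u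
    have hu : u ∈ AddSubgroup.closure (Set.range fun x : F × F => β x.1 x.2) := hspan ▸ trivial
    induction hu using AddSubgroup.closure_induction with
    | mem x hx =>
      obtain ⟨⟨a, b⟩, rfl⟩ := hx
      rw [← map_nsmul, nsmul_eq_mul, CharP.cast_eq_zero, zero_mul, map_zero]
    | zero => exact nsmul_zero p
    | add x y _ _ hx hy => rw [nsmul_add, hx, hy, add_zero]
    | neg x _ hx => rw [neg_nsmul, hx, neg_zero]
  obtain ⟨Γ, hΓ⟩ := exists_hom (F := F) (fun x : F × F => β x.1 x.2) hspan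
    (fun l x => ((l : F) * x.1, (l : F) * x.2)) (fun x => by simp)
    (fun l m x => by simp [mul_assoc]) (fun l => by
      obtain ⟨γ, hγ⟩ := heq l
      exact ⟨γ, fun x => hγ x.1 x.2⟩)
  have main : ∀ (e : U →+ U) (C : Set Fˣ), Subring.closure (((↑) : Fˣ → F) '' C) = ⊤ →
      (∀ c ∈ C, ∀ u, e (Γ c u) = e u) → 3 ≤ Nat.card C → (∃ a b, e (β a b) ≠ 0) →
      ∃ m, Nat.card F = p ^ (2 * m) ∧ ∀ l a b, e (β (l * a) b) = e (β a (l ^ p ^ m * b)) := by
    intro e C hC heC h3 hnz
    obtain ⟨a0, b0, hab⟩ := hnz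
    let S : Subring (F × F) :=
      { carrier := {x | ∀ a b, e (β (x.1 * a) b) = e (β a (x.2 * b))}
        zero_mem' := fun a b => by simp
        one_mem' := fun a b => by simp
        add_mem' := fun {x y} hx hy a b => by
          simp only [Prod.fst_add, Prod.snd_add, add_mul, map_add, AddMonoidHom.add_apply,
            hx a b, hy a b]
        neg_mem' := fun {x} hx a b => by
          simp only [Prod.fst_neg, Prod.snd_neg, neg_mul, map_neg, AddMonoidHom.neg_apply, hx a b]
        mul_mem' := fun {x y} hx hy a b => by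
          simp only [Prod.fst_mul, Prod.snd_mul]
          rw [mul_assoc, hx, hy, ← mul_assoc, mul_comm y.2 x.2] }
    have hl0 : ∀ l, (l, (0 : F)) ∈ S → l = 0 := by
      intro l hl
      by_contra hl0
      refine hab ?_
      have h := hl (l⁻¹ * a0) b0
      simpa [hl0] using h
    have h0m : ∀ m, ((0 : F), m) ∈ S → m = 0 := by
      intro m hm
      by_contra hm0
      refine hab ?_
      have h := hm a0 (m⁻¹ * b0)
      simpa [hm0] using h.symm
    have hcS : ∀ c ∈ C, (((c : Fˣ) : F), ((c⁻¹ : Fˣ) : F)) ∈ S := by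
      intro c hc a b
      calc e (β ((c : F) * a) b) = e (β ((c : F) * a) ((c : F) * (((c⁻¹ : Fˣ) : F) * b))) := by
            rw [← mul_assoc, Units.mul_inv, one_mul]
        _ = e (β a (((c⁻¹ : Fˣ) : F) * b)) := by
            rw [show β ((c : F) * a) ((c : F) * (((c⁻¹ : Fˣ) : F) * b))
              = Γ c (β a (((c⁻¹ : Fˣ) : F) * b)) from hΓ c (a, _)]
            exact heC c hc _
    have hsurj : ∀ l, ∃ m, (l, m) ∈ S := by
      intro l
      have hl : l ∈ S.map (RingHom.fst F F) :=
        (hC.ge.trans (Subring.closure_le.2 (by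
          rintro _ ⟨c, hc, rfl⟩
          exact ⟨_, hcS c hc, rfl⟩))) trivial
      obtain ⟨⟨l', m⟩, hm, rfl⟩ := hl
      exact ⟨m, hm⟩
    choose σ hσ using hsurj
    have huniq : ∀ l m, (l, m) ∈ S → m = σ l := fun l m hm =>
      sub_eq_zero.1 (h0m _ (by simpa using sub_mem hm (hσ l)))
    have hσinj : Function.Injective σ := fun l l' h =>
      sub_eq_zero.1 (hl0 _ (by simpa [h] using sub_mem (hσ l) (hσ l')))
    let σr : F →+* F :=
      { toFun := σ
        map_zero' := (huniq 0 0 S.zero_mem).symm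
        map_one' := (huniq 1 1 S.one_mem).symm
        map_add' := fun x y => (huniq _ _ (S.add_mem (hσ x) (hσ y))).symm
        map_mul' := fun x y => (huniq _ _ (S.mul_mem (hσ x) (hσ y))).symm }
    let σe : F ≃+* F := RingEquiv.ofBijective σr (Finite.injective_iff_bijective.1 hσinj)
    have hσc : ∀ c ∈ C, σe ((c : Fˣ) : F) = (((c : Fˣ) : F))⁻¹ := by
      intro c hc
      show σ _ = _
      rw [← huniq _ _ (hcS c hc), Units.val_inv_eq_inv_val]
    have hσ2 : ∀ x, σe (σe x) = x := by
      intro x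
      have : Set.EqOn (σe.toRingHom.comp σe.toRingHom) (RingHom.id F)
          (Subring.closure (((↑) : Fˣ → F) '' C) : Set F) := by
        refine RingHom.eqOn_set_closure ?_
        rintro _ ⟨c, hc, rfl⟩
        show σe (σe _) = _
        rw [hσc c hc, map_inv₀, hσc c hc, inv_inv]
        rfl
      exact this (hC ▸ trivial)
    have hσ1 : ∃ x, σe x ≠ x := by
      by_contra hall
      push Not at hall
      have hsq : ∀ c ∈ C, c ^ 2 = 1 := fun c hc => by
        refine Units.ext ?_
        have h := (hσc c hc).symm.trans (hall _)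
        rw [Units.val_pow_eq_pow_val, sq, Units.val_one]
        nth_rw 1 [← h]
        exact inv_mul_cancel₀ c.ne_zero
      have hle := h3.trans (Nat.card_le_card_of_injective
        (fun c : C => (⟨c.1, hsq c.1 c.2⟩ : {x : Fˣ // x ^ 2 = 1}))
        (fun a b h => Subtype.ext (congrArg (fun z : {x : Fˣ // x ^ 2 = 1} => (z : Fˣ)) h)))
      exact absurd (hle.trans (units_pow_eq_card_le two_pos)) (by norm_num)
    obtain ⟨m, hm, hm'⟩ := exists_halfFrobenius F p σe hσ2 hσ1
    exact ⟨m, hm, fun l a b => by rw [← hm' l]; exact hσ l a b⟩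
  obtain ⟨a0, b0, hab⟩ : ∃ a b, β a b ≠ 0 := by
    by_contra h
    push Not at h
    exact hne (AddMonoidHom.ext fun a => AddMonoidHom.ext fun b => h a b)
  obtain ⟨e, C, he, hC, heC, h3⟩ := exists_projection hU hUp Γ hab
  obtain ⟨m, hm, -⟩ := main e C hC heC h3 ⟨a0, b0, he⟩
  refine ⟨m, hm, fun l a b => ?_⟩
  by_contra hd
  obtain ⟨e, C, he, hC, heC, h3⟩ := exists_projection hU hUp Γ (sub_ne_zero.2 hd)
  rw [map_sub, sub_ne_zero] at he
  have hnz : ∃ a b, e (β a b) ≠ 0 := by
    by_contra h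
    push Not at h
    exact he (by rw [h, h])
  obtain ⟨m', hm', hid⟩ := main e C hC heC h3 hnz
  have hmm : m' = m := by
    have := Nat.pow_right_injective (Fact.out : p.Prime).two_le (hm'.symm.trans hm)
    omega
  exact he (hmm ▸ hid l a b)

/-- **Third layer.** -/
theorem trilinear_eq_zero {m : ℕ} (hm : Nat.card F = p ^ (2 * m)) (hU : Nat.card U < Nat.card F)
    (hUp : ∀ u : U, p • u = 0) (T : F →+ F →+ F →+ U)
    (hspan : AddSubgroup.closure (Set.range fun x : F × F × F => T x.1 x.2.1 x.2.2) = ⊤)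
    (heq : ∀ l : Fˣ, ∃ γ : U →+ U, ∀ a b z, T (l * a) (l * b) (l * z) = γ (T a b z))
    (hmid : ∀ l a b z, T (l * a) b z = T a (l ^ p ^ m * b) z) : T = 0 := by
  by_contra hne
  obtain ⟨a0, b0, z0, hnz⟩ : ∃ a b z, T a b z ≠ 0 := by
    by_contra h
    push Not at h
    exact hne (AddMonoidHom.ext fun a => AddMonoidHom.ext fun b => AddMonoidHom.ext fun z => h a b z)
  obtain ⟨Γ, hΓ⟩ := exists_hom (F := F) (fun x : F × F × F => T x.1 x.2.1 x.2.2) hspan
    (fun l x => ((l : F) * x.1, (l : F) * x.2.1, (l : F) * x.2.2)) (fun x => by simp)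
    (fun l m x => by simp [mul_assoc]) (fun l => by
      obtain ⟨γ, hγ⟩ := heq l
      exact ⟨γ, fun x => hγ x.1 x.2.1 x.2.2⟩)
  obtain ⟨e, C, he, hC, heC, -⟩ := exists_projection hU hUp Γ hnz
  set q := p ^ m with hq
  have hq2 : q * q = Nat.card F := by rw [hm, hq, ← pow_add, two_mul]
  let S : Subring (F × F) :=
    { carrier := {x | x.1 ^ q = x.1 ∧ ∀ a b z, e (T a (x.1 * b) z) = e (T a b (x.2 * z))}
      zero_mem' := ⟨zero_pow (by rw [hq]; exact (pow_pos (Fact.out : p.Prime).pos _).ne'),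
        fun a b z => by simp⟩
      one_mem' := ⟨one_pow _, fun a b z => by simp⟩
      add_mem' := fun {x y} hx hy => ⟨by
          simp only [Prod.fst_add, hq] at *
          rw [add_pow_char_pow, hx.1, hy.1], fun a b z => by
          simp only [Prod.fst_add, Prod.snd_add, add_mul, map_add, AddMonoidHom.add_apply,
            hx.2 a b z, hy.2 a b z]⟩
      neg_mem' := fun {x} hx => ⟨by
          simp only [Prod.fst_neg, hq] at *
          rw [← iterateFrobenius_def p, map_neg, iterateFrobenius_def, hx.1], fun a b z => by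
          simp only [Prod.fst_neg, Prod.snd_neg, neg_mul, map_neg, AddMonoidHom.neg_apply,
            hx.2 a b z]⟩
      mul_mem' := fun {x y} hx hy => ⟨by rw [Prod.fst_mul, mul_pow, hx.1, hy.1], fun a b z => by
          simp only [Prod.fst_mul, Prod.snd_mul]
          rw [mul_assoc, hx.2, hy.2, ← mul_assoc, mul_comm y.2 x.2]⟩ }
  have h0m : ∀ ν, ((0 : F), ν) ∈ S → ν = 0 := by
    intro ν hν
    by_contra hν0
    refine he ?_
    have h := hν.2 a0 b0 (ν⁻¹ * z0)
    simpa [hν0] using h.symm
  have hcS : ∀ c ∈ C, (((c : Fˣ) : F) ^ (q + 1), ((c⁻¹ : Fˣ) : F)) ∈ S := by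
    intro c hc
    refine ⟨?_, fun a b z => ?_⟩
    · show (((c : Fˣ) : F) ^ (q + 1)) ^ q = _
      rw [← pow_mul, add_mul, one_mul, hq2, pow_add, pow_card, ← pow_succ']
    · show e (T a (((c : Fˣ) : F) ^ (q + 1) * b) z) = e (T a b (((c⁻¹ : Fˣ) : F) * z))
      calc e (T a (((c : Fˣ) : F) ^ (q + 1) * b) z)
          = e (T ((c : F) * a) ((c : F) * b) ((c : F) * (((c⁻¹ : Fˣ) : F) * z))) := by
            rw [hmid, ← mul_assoc, ← pow_succ, ← mul_assoc, Units.mul_inv, one_mul]
        _ = e (Γ c (T a b (((c⁻¹ : Fˣ) : F) * z))) := by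
            rw [← hΓ c (a, b, ((c⁻¹ : Fˣ) : F) * z)]
        _ = _ := heC c hc _
  have hsurj : ∀ ν, ∃ μ, (μ, ν) ∈ S := by
    intro ν
    have hν : ν ∈ S.map (RingHom.snd F F) :=
      (hC.ge.trans (Subring.closure_le.2 (by
        rintro _ ⟨c, hc, rfl⟩
        have h1 : ((c⁻¹ : Fˣ) : F) ∈ S.map (RingHom.snd F F) := ⟨_, hcS c hc, rfl⟩
        have h2 : (((c⁻¹ : Fˣ) : F)) ^ (Nat.card F - 2) = ((c : Fˣ) : F) := by
          refine mul_right_cancel₀ (c⁻¹).ne_zero (mul_right_cancel₀ (c⁻¹).ne_zero ?_)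
          rw [mul_assoc, ← sq, ← pow_add, Nat.sub_add_cancel Finite.one_lt_card, pow_card,
            Units.mul_inv, one_mul]
        exact h2 ▸ pow_mem h1 _))) trivial
    obtain ⟨⟨μ, ν'⟩, hμ, rfl⟩ := hν
    exact ⟨μ, hμ⟩
  choose μ hμ using hsurj
  have hμinj : Function.Injective μ := fun ν ν' h =>
    sub_eq_zero.1 (h0m _ (by simpa [h] using sub_mem (hμ ν) (hμ ν')))
  have hm0 : m ≠ 0 := by
    rintro rfl
    rw [mul_zero, pow_zero] at hm
    exact absurd hm (Finite.one_lt_card (α := F)).ne'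
  have hq1 : 1 < q := Nat.one_lt_pow hm0 (Fact.out : p.Prime).one_lt
  have hμ0 : μ 0 = 0 := by
    by_contra hmu
    refine he ?_
    have h := (hμ 0).2 a0 ((μ 0)⁻¹ * b0) z0
    simpa [hmu] using h
  let g : {ν : F // ν ≠ 0} → {x : Fˣ // x ^ (q - 1) = 1} := fun ν =>
    ⟨Units.mk0 (μ ν) (fun h => ν.2 (hμinj (h.trans hμ0.symm))), Units.ext (by
      rw [Units.val_pow_eq_pow_val, Units.val_one, Units.val_mk0]
      refine mul_right_cancel₀ (show μ ν ≠ 0 from fun h => ν.2 (hμinj (h.trans hμ0.symm))) ?_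
      rw [← pow_succ, Nat.sub_add_cancel hq1.le, one_mul]
      exact (hμ ν).1)⟩
  have hg : Function.Injective g := fun a b h =>
    Subtype.ext (hμinj (congrArg (fun x : {x : Fˣ // x ^ (q - 1) = 1} => ((x : Fˣ) : F)) h))
  have hle := (Nat.card_le_card_of_injective g hg).trans
    (units_pow_eq_card_le (Nat.sub_pos_of_lt hq1))
  have hcard : Nat.card {ν : F // ν ≠ 0} = Nat.card F - 1 := by
    rw [← Nat.card_units]
    exact Nat.card_congr unitsEquivNeZero.symm
  rw [hcard, ← hq2] at hle
  have : 2 * q ≤ q * q := Nat.mul_le_mul_right _ hq1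
  omega

end layers

/-- An alternating form with the half Frobenius symmetry and kernel a line lives on `|F| = p²`. -/
theorem eq_one_of_alternating {U : Type*} [AddCommGroup U] {m : ℕ}
    (hm : Nat.card F = p ^ (2 * m)) (β : F →+ F →+ U) (halt : ∀ a, β a a = 0)
    (hmid : ∀ l a b, β (l * a) b = β a (l ^ p ^ m * b))
    (hline : ∀ l, β 1 l = 0 → l ^ p = l) : m = 1 := by
  have hp : p.Prime := Fact.out
  set q := p ^ m with hq
  have hq2 : q * q = Nat.card F := by rw [hm, hq, ← pow_add, two_mul]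
  obtain ⟨ζ, hζ⟩ := IsCyclic.exists_generator (α := Fˣ)
  have hord : orderOf ζ = q * q - 1 := by
    rw [orderOf_eq_card_of_forall_mem_zpowers hζ, Nat.card_units, hq2]
  have hζn : β 1 ((ζ : F) ^ (q + 1)) = 0 := by
    have h := halt (ζ : F)
    conv_lhs at h => lhs; rw [← mul_one (ζ : F)]
    rwa [hmid, ← pow_succ] at h
  have h1 := hline _ hζn
  have h2 : ζ ^ ((q + 1) * (p - 1)) = 1 := by
    refine Units.ext ?_
    rw [Units.val_pow_eq_pow_val, Units.val_one, pow_mul]
    refine mul_right_cancel₀ (pow_ne_zero (q + 1) ζ.ne_zero) ?_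
    rw [← pow_succ, Nat.sub_add_cancel hp.one_le, h1, one_mul]
  have h3 := orderOf_dvd_of_pow_eq_one h2
  rw [hord, show q * q - 1 = (q + 1) * (q - 1) by
    rw [show q * q - 1 = q * q - 1 * 1 by simp, Nat.mul_self_sub_mul_self_eq]] at h3
  have h4 := Nat.le_of_dvd (by have := hp.two_le; omega) (Nat.dvd_of_mul_dvd_mul_left (by omega) h3)
  have hm0 : m ≠ 0 := by
    rintro rfl
    rw [mul_zero, pow_zero] at hm
    exact absurd hm (Finite.one_lt_card (α := F)).ne'
  have h5 : p ^ m ≤ p ^ 1 := by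
    rw [pow_one]
    have := hp.two_le
    omega
  have := (Nat.pow_le_pow_iff_right hp.one_lt).1 h5
  omega

end CfsgLib.SeenOnce.FieldForms
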