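import Cfsg.Agent.Lib.SeenOnce.Solvable
import Cfsg.Agent.Lib.CharTheory.Orthogonality

/-!
# Group theory behind one nonlinear character seen at an element

`G' ∖ K` is one class, elements central modulo `K` lie in `G'`, and the orders match: `G` is
solvable.
-/

set_option autoImplicit false
set_option linter.style.haveILetI false
set_option linter.unusedSectionVars false

namespace CfsgLib.SeenOnce

open Subgroup
open scoped commutatorElement

variable {G : Type*} [Group G] [Finite G]

/-- A normal subgroup whose nonidentity elements form one class is elementary abelian. -/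
theorem elementary_of_isConj {Q : Type*} [Group Q] [Finite Q] {V : Subgroup Q} [V.Normal]
    (hV : ∀ u ∈ V, u ≠ 1 → ∀ v ∈ V, v ≠ 1 → IsConj u v) (hne : V ≠ ⊥) :
    ∃ p k : ℕ, p.Prime ∧ 0 < k ∧ Nat.card V = p ^ k ∧ (∀ v ∈ V, v ^ p = 1) ∧
      ∀ u ∈ V, ∀ v ∈ V, Commute u v := by
  have h1 : 1 < Nat.card V := (V.one_lt_card_iff_ne_bot).2 hne
  set p := (Nat.card V).minFac
  have hp : p.Prime := Nat.minFac_prime h1.ne'
  haveI := Fact.mk hp
  obtain ⟨w, hw⟩ := exists_prime_orderOf_dvd_card' (G := V) p (Nat.minFac_dvd _)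
  have hw' : orderOf (w : Q) = p := by rw [Subgroup.orderOf_coe, hw]
  have hexp : ∀ v ∈ V, v ^ p = 1 := by
    intro v hv
    by_cases hv1 : v = 1
    · rw [hv1, one_pow]
    obtain ⟨y, rfl⟩ := isConj_iff.1 (hV w w.2 (fun h => by
      rw [h, orderOf_one] at hw'; exact hp.ne_one hw'.symm) v hv hv1)
    rw [conj_pow, ← hw', pow_orderOf_eq_one, mul_one, mul_inv_cancel]
  have hpg : IsPGroup p V := fun v => ⟨1, Subtype.ext (by simpa using hexp v v.2)⟩
  obtain ⟨k, hk⟩ := IsPGroup.iff_card.1 hpg
  have hk0 : 0 < k := Nat.pos_of_ne_zero fun h => by rw [hk, h, pow_zero] at h1; omega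
  refine ⟨p, k, hp, hk0, hk, hexp, ?_⟩
  haveI : Nontrivial V := Finite.one_lt_card_iff_nontrivial.1 h1
  haveI := hpg.center_nontrivial
  obtain ⟨z, hz⟩ := exists_ne (1 : center V)
  have hz1 : ((z : V) : Q) ≠ 1 := fun h => hz (Subtype.ext (Subtype.ext h))
  intro u hu v hv
  by_cases hu1 : u = 1
  · rw [hu1]; exact Commute.one_left v
  obtain ⟨y, rfl⟩ := isConj_iff.1 (hV _ (z : V).2 hz1 u hu hu1)
  have hv' : y⁻¹ * v * y ∈ V := by
    simpa using (inferInstance : V.Normal).conj_mem v hv y⁻¹
  have hc : Commute ((z : V) : Q) (y⁻¹ * v * y) :=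
    (congrArg Subtype.val (mem_center_iff.1 z.2 ⟨_, hv'⟩)).symm
  have h2 := hc.map (MulAut.conj y).toMonoidHom
  simpa [mul_assoc] using h2

/-- An abelian quotient acting transitively on more than one nonidentity element. -/
theorem card_centralizer_eq {Q : Type*} [Group Q] [Finite Q] {V : Subgroup Q} [V.Normal]
    (hV : ∀ u ∈ V, u ≠ 1 → ∀ v ∈ V, v ≠ 1 → IsConj u v)
    (hab : ∀ u ∈ V, ∀ v ∈ V, Commute u v) (hcomm : ∀ a b : Q, ⁅a, b⁆ ∈ V)
    (hcen : ∀ a : Q, (∀ y, Commute a y) → a ∈ V) (h3 : 2 < Nat.card V) {v : Q} (hv : v ∈ V)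
    (hv1 : v ≠ 1) : centralizer ({v} : Set Q) = V := by
  classical
  have hnc : ∀ u ∈ V, u ≠ 1 → ∃ y, ¬ Commute u y := by
    intro u hu hu1
    by_contra h
    push Not at h
    haveI := Fintype.ofFinite V
    have : Nat.card V ≤ 2 := by
      rw [Nat.card_eq_fintype_card, ← Finset.card_univ,
        ← Finset.card_map ⟨Subtype.val, Subtype.val_injective⟩]
      refine (Finset.card_le_card (t := {1, u}) fun w hw => ?_).trans Finset.card_le_two
      obtain ⟨⟨w, hwV⟩, -, rfl⟩ := Finset.mem_map.1 hw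
      rw [Finset.mem_insert, Finset.mem_singleton]
      by_cases hw1 : w = 1
      · exact Or.inl hw1
      · obtain ⟨y, hy⟩ := isConj_iff.1 (hV u hu hu1 w hwV hw1)
        rw [(h y).symm.eq, mul_inv_cancel_right] at hy
        exact Or.inr hy.symm
    omega
  set C := centralizer ({v} : Set Q)
  have hVC : V ≤ C := fun u hu => mem_centralizer_singleton_iff.2 (hab u hu v hv).eq
  have hCn : C.Normal := ⟨fun c hc y => by
    rw [show y * c * y⁻¹ = ⁅y, c⁆ * c by rw [commutatorElement_def]; group]
    exact mul_mem (hVC (hcomm y c)) hc⟩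
  have hall : ∀ c ∈ C, ∀ u ∈ V, Commute c u := by
    intro c hc u hu
    by_cases hu1 : u = 1
    · rw [hu1]; exact Commute.one_right c
    obtain ⟨y, rfl⟩ := isConj_iff.1 (hV v hv hv1 u hu hu1)
    have h1 : Commute (y⁻¹ * c * y) v := mem_centralizer_singleton_iff.1 (by
      simpa using hCn.conj_mem c hc y⁻¹)
    have h2 := h1.map (MulAut.conj y).toMonoidHom
    simpa [mul_assoc] using h2
  refine le_antisymm (fun c hc => ?_) hVC
  obtain ⟨a, ha⟩ := hnc v hv hv1
  let f : V → V := fun u => ⟨⁅a, (u : Q)⁆, hcomm a u⟩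
  have hf : Function.Injective f := by
    rintro ⟨u, hu⟩ ⟨u', hu'⟩ h
    have h1 : ⁅a, u⁆ = ⁅a, u'⁆ := congrArg Subtype.val h
    refine Subtype.ext ?_
    by_contra hne
    have hw : u'⁻¹ * u ∈ V := mul_mem (inv_mem hu') hu
    have hw1 : u'⁻¹ * u ≠ 1 := fun h => hne (inv_mul_eq_one.1 h).symm
    have hca : Commute a (u'⁻¹ * u) := by
      have e1 : a * u * a⁻¹ * u⁻¹ = a * u' * a⁻¹ * u'⁻¹ := by simpa [commutatorElement_def] using h1
      have e2 : u' * u⁻¹ = u⁻¹ * u' := (hab u' hu' u⁻¹ (inv_mem hu)).eq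
      have e3 : a * (u'⁻¹ * u) * a⁻¹ = u'⁻¹ * u := by
        calc a * (u'⁻¹ * u) * a⁻¹ = (a * u' * a⁻¹)⁻¹ * (a * u * a⁻¹ * u⁻¹) * u := by group
          _ = (a * u' * a⁻¹)⁻¹ * (a * u' * a⁻¹ * u'⁻¹) * u := by rw [e1]
          _ = u'⁻¹ * u := by group
      exact mul_inv_eq_iff_eq_mul.1 e3
    obtain ⟨y, hy⟩ := isConj_iff.1 (hV _ hw hw1 v hv hv1)
    refine ha ?_
    have hya : Commute (⁅a, y⁆) (u'⁻¹ * u) := hab _ (hcomm a y) _ hw
    have h2 : a * v * a⁻¹ = v := by
      rw [← hy]
      calc a * (y * (u'⁻¹ * u) * y⁻¹) * a⁻¹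
          = ⁅a, y⁆ * (y * (a * (u'⁻¹ * u) * a⁻¹) * y⁻¹) * (⁅a, y⁆)⁻¹ := by
            rw [commutatorElement_def]; group
        _ = ⁅a, y⁆ * (y * (u'⁻¹ * u) * y⁻¹) * (⁅a, y⁆)⁻¹ := by
            rw [hca.eq, mul_inv_cancel_right]
        _ = y * (u'⁻¹ * u) * y⁻¹ := by
            rw [(hab _ (hcomm a y) _ ((inferInstance : V.Normal).conj_mem _ hw y)).eq,
              mul_inv_cancel_right]
    exact (mul_inv_eq_iff_eq_mul.1 h2 : a * v = v * a).symm
  obtain ⟨⟨u, hu⟩, he⟩ := (Finite.injective_iff_surjective.1 hf) ⟨⁅a, c⁆, hcomm a c⟩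
  have he' : ⁅a, u⁆ = ⁅a, c⁆ := congrArg Subtype.val he
  set w := u⁻¹ * c
  have hwC : w ∈ C := mul_mem (inv_mem (hVC hu)) hc
  have hwa : a * w * a⁻¹ = w := by
    calc a * (u⁻¹ * c) * a⁻¹ = (⁅a, u⁆ * u)⁻¹ * (⁅a, c⁆ * c) := by
          simp only [commutatorElement_def]; group
      _ = u⁻¹ * c := by rw [he']; group
  have hw1 : ∀ x, Commute w x := by
    intro x
    set t := ⁅w, x⁆
    have ht : a * t * a⁻¹ = t := by
      have h1 : ⁅a, x⁆ ∈ V := hcomm a x
      calc a * ⁅w, x⁆ * a⁻¹ = ⁅a * w * a⁻¹, ⁅a, x⁆ * x⁆ := by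
            simp only [commutatorElement_def]; group
        _ = w * ⁅a, x⁆ * w⁻¹ * ⁅w, x⁆ * (⁅a, x⁆)⁻¹ := by
            rw [hwa]; simp only [commutatorElement_def]; group
        _ = ⁅w, x⁆ := by
            rw [(hall w hwC _ h1).eq, mul_inv_cancel_right,
              (hab _ h1 _ (hcomm w x)).eq, mul_inv_cancel_right]
    refine commutatorElement_eq_one_iff_commute.1 ?_
    by_contra ht1
    obtain ⟨y, hy⟩ := isConj_iff.1 (hV t (hcomm w x) ht1 v hv hv1)
    refine ha ?_
    have h2 : a * v * a⁻¹ = v := by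
      rw [← hy]
      calc a * (y * t * y⁻¹) * a⁻¹
          = ⁅a, y⁆ * (y * (a * t * a⁻¹) * y⁻¹) * (⁅a, y⁆)⁻¹ := by
            rw [commutatorElement_def]; group
        _ = y * t * y⁻¹ := by
            rw [ht, (hab _ (hcomm a y) _
              ((inferInstance : V.Normal).conj_mem _ (hcomm w x) y)).eq, mul_inv_cancel_right]
    exact (mul_inv_eq_iff_eq_mul.1 h2 : a * v = v * a).symm
  have hwV := hcen w hw1
  simpa [w] using mul_mem hu hwV

/-- **The group statement.** -/
theorem isSolvable_main {K : Subgroup G} [K.Normal] (hKL : K ≤ commutator G) {g : G}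
    (hgL : g ∈ commutator G) (hgK : g ∉ K)
    (hclass : ∀ x ∈ commutator G, x ∉ K → IsConj g x)
    (hcent : ∀ a : G, (∀ y, ⁅a, y⁆ ∈ K) → a ∈ commutator G)
    {t : ℕ} (hL : Nat.card (commutator G) = (t + 1) * Nat.card K)
    (hcg : Nat.card (centralizer ({g} : Set G)) * t = (commutator G).index * (t + 1))
    {d : ℕ} (hd : t * (commutator G).index = d ^ 2) (hd1 : d ≠ 1) : Group.IsSolvable G := by
  classical
  set L := commutator G
  have hGL : ∀ a b : G, ⁅a, b⁆ ∈ L := fun a b =>
    commutator_mem_commutator (mem_top a) (mem_top b)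
  set π := QuotientGroup.mk' K
  have hπ1 : ∀ {w : G}, π w = 1 ↔ w ∈ K := fun {w} => QuotientGroup.eq_one_iff w
  set V := L.map π
  haveI : V.Normal := (inferInstance : L.Normal).map π (QuotientGroup.mk'_surjective K)
  have hVconj : ∀ u ∈ V, u ≠ 1 → ∀ v ∈ V, v ≠ 1 → IsConj u v := by
    rintro _ ⟨x, hx, rfl⟩ hx1 _ ⟨y, hy, rfl⟩ hy1
    exact π.map_isConj ((hclass x hx fun h => hx1 (hπ1.2 h)).symm.trans
      (hclass y hy fun h => hy1 (hπ1.2 h)))
  have hVne : V ≠ ⊥ := fun h => hgK (hπ1.1 ((Subgroup.eq_bot_iff_forall _).1 h _ ⟨g, hgL, rfl⟩))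
  have hVcard : Nat.card V = t + 1 := by
    have h1 : Nat.card V = K.relIndex L := by
      rw [← relIndex_bot_left, ← relIndex_comap, MonoidHom.comap_bot, QuotientGroup.ker_mk']
    have h2 := relIndex_mul_relIndex ⊥ K L bot_le hKL
    rw [relIndex_bot_left, relIndex_bot_left, hL, mul_comm (t + 1)] at h2
    rw [h1]
    exact Nat.eq_of_mul_eq_mul_left Nat.card_pos h2
  have hKLi : K.relIndex L = t + 1 := by
    rw [← hVcard, ← relIndex_bot_left, ← relIndex_comap, MonoidHom.comap_bot,
      QuotientGroup.ker_mk']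
  have hKi : K.index = (t + 1) * L.index := by
    rw [← relIndex_mul_index hKL, hKLi]
  obtain ⟨p, k, hp, hk, hcard, hexp, hab⟩ := elementary_of_isConj hVconj hVne
  haveI := Fact.mk hp
  have hcentQ : ∀ q : G ⧸ K, (∀ y, Commute q y) → q ∈ V := by
    intro q hq
    obtain ⟨a, rfl⟩ := QuotientGroup.mk'_surjective K q
    refine mem_map_of_mem π (hcent a fun y => hπ1.1 ?_)
    rw [map_commutatorElement]
    exact commutatorElement_eq_one_iff_commute.2 (hq _)
  have hcommQ : ∀ a b : G ⧸ K, ⁅a, b⁆ ∈ V := by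
    intro a b
    obtain ⟨a, rfl⟩ := QuotientGroup.mk'_surjective K a
    obtain ⟨b, rfl⟩ := QuotientGroup.mk'_surjective K b
    rw [← map_commutatorElement]
    exact mem_map_of_mem π (hGL a b)
  have hKs : Group.IsSolvable K := by
    by_cases ht : t = 1
    · subst ht
      set e := π g
      have he1 : e ≠ 1 := fun h => hgK (hπ1.1 h)
      have hV2 : ∀ u ∈ V, u = 1 ∨ u = e := by
        intro u hu
        haveI := Fintype.ofFinite V
        have h1 := Finset.card_le_univ
          ({⟨1, one_mem V⟩, ⟨e, mem_map_of_mem π hgL⟩, ⟨u, hu⟩} : Finset V)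
        rw [← Nat.card_eq_fintype_card, hVcard] at h1
        by_contra h
        push Not at h
        rw [Finset.card_insert_of_notMem (by simp [Subtype.ext_iff, he1.symm, Ne.symm h.1]),
          Finset.card_insert_of_notMem (by simp [Subtype.ext_iff, Ne.symm h.2]),
          Finset.card_singleton] at h1
        omega
      have hee : e * e = 1 := by
        rcases hV2 (e * e) (mul_mem (mem_map_of_mem π hgL) (mem_map_of_mem π hgL)) with h | h
        · exact h
        · exact absurd (mul_left_cancel (h.trans (mul_one e).symm)) he1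
      have hec : ∀ y, Commute e y := fun y => by
        refine (mul_inv_eq_iff_eq_mul.1 ?_).symm
        rcases hV2 _ ((inferInstance : V.Normal).conj_mem e (mem_map_of_mem π hgL) y) with h | h
        · exact absurd (conj_eq_one_iff.1 h) he1
        · exact h
      have hsq : ∀ q : G ⧸ K, q * q ∈ V := fun q => hcentQ _ fun y => by
        refine (mul_inv_eq_iff_eq_mul.1 ?_).symm
        have h0 : y * q * y⁻¹ = ⁅y, q⁆ * q := by rw [commutatorElement_def]; group
        rw [show y * (q * q) * y⁻¹ = (y * q * y⁻¹) * (y * q * y⁻¹) by group, h0]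
        rcases hV2 _ (hcommQ y q) with h | h <;> rw [h]
        · rw [one_mul]
        · rw [(hec q).eq, mul_assoc, ← mul_assoc e, (hec q).eq, mul_assoc, hee, mul_one]
      have hGK : IsPGroup 2 (G ⧸ K) := fun q => ⟨2, by
        show q ^ 4 = 1
        rw [show (4 : ℕ) = 2 * 2 by rfl, pow_mul, sq, sq]
        rcases hV2 _ (hsq q) with h | h <;> rw [h]
        · rw [one_mul]
        · exact hee⟩
      rw [one_mul] at hd
      rw [mul_one] at hcg
      have hd2 : 2 ≤ d := by
        have : L.index ≠ 0 := index_ne_zero_of_finite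
        rcases d with _ | _ | d
        · simp at hd; omega
        · exact absurd rfl hd1
        · omega
      exact Solvable.isSolvable_of_index_two L K hKLi hgL hgK hGK
        (by rw [hcg, hKi, mul_comm]) hGL hcent (by
          rw [hKi, hd]
          have := Nat.pow_le_pow_left hd2 2
          omega)
    · have h3 : 2 < Nat.card V := by
        have := (V.one_lt_card_iff_ne_bot).2 hVne
        omega
      have he1 : π g ≠ 1 := fun h => hgK (hπ1.1 h)
      have hCV := card_centralizer_eq hVconj hab hcommQ hcentQ h3 (mem_map_of_mem π hgL) he1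
      have hnt : L.index = t := by
        have h1 := CharTheory.card_isConj (π g)
        have h2 : Nat.card {x : G ⧸ K // IsConj (π g) x} = t := by
          haveI := Fintype.ofFinite V
          have h4 : Nat.card {x : V // x ≠ 1} = t := by
            rw [Nat.card_eq_fintype_card, Fintype.card_subtype_compl, Fintype.card_subtype_eq,
              ← Nat.card_eq_fintype_card, hVcard]
            omega
          rw [← h4]
          exact Nat.card_congr
            { toFun := fun x => ⟨⟨x.1, by
                obtain ⟨y, hy⟩ := isConj_iff.1 x.2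
                exact hy ▸ (inferInstance : V.Normal).conj_mem _ (mem_map_of_mem π hgL) y⟩,
                fun h => he1 (by
                  obtain ⟨y, hy⟩ := isConj_iff.1 x.2
                  rw [show x.1 = 1 from congrArg Subtype.val h] at hy
                  exact conj_eq_one_iff.1 hy)⟩
              invFun := fun x => ⟨x.1.1, hVconj _ (mem_map_of_mem π hgL) he1 _ x.1.2
                fun h => x.2 (Subtype.ext h)⟩
              left_inv := fun _ => rfl
              right_inv := fun _ => rfl }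
        have h5 := (centralizer ({π g} : Set (G ⧸ K))).card_mul_index
        rw [← h1, h2, hCV, hVcard, ← index_eq_card, hKi] at h5
        exact (Nat.eq_of_mul_eq_mul_left t.succ_pos h5).symm
      have hc : Nat.card (centralizer ({g} : Set G)) = p ^ k := by
        rw [← hcard, hVcard]
        rw [hnt, mul_comm t] at hcg
        exact Nat.eq_of_mul_eq_mul_right (by omega) hcg
      refine Solvable.isSolvable_of_small_centralizer (p := p) L K hk (by rw [hKLi, ← hVcard, hcard])
        (fun x hx y hy => hπ1.1 ?_) (fun x hx => hπ1.1 ?_) hKL (fun x hx hxK => ?_)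
        (fun x hx hxK y hy hyK => (hclass x hx hxK).symm.trans (hclass y hy hyK)) hGL
      · rw [map_commutatorElement]
        exact commutatorElement_eq_one_iff_commute.2
          (hab _ (mem_map_of_mem π hx) _ (mem_map_of_mem π hy))
      · rw [map_pow]; exact hexp _ (mem_map_of_mem π hx)
      · rw [← hc]
        obtain ⟨y, rfl⟩ := isConj_iff.1 (hclass x hx hxK)
        refine Nat.card_congr
          { toFun := fun a => ⟨y⁻¹ * a.1 * y, mem_centralizer_singleton_iff.2 ?_⟩
            invFun := fun a => ⟨y * a.1 * y⁻¹, mem_centralizer_singleton_iff.2 ?_⟩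
            left_inv := fun a => Subtype.ext (by simp [mul_assoc])
            right_inv := fun a => Subtype.ext (by simp [mul_assoc]) }
        · have h : Commute a.1 (y * g * y⁻¹) := mem_centralizer_singleton_iff.1 a.2
          have h2 := h.map (MulAut.conj y⁻¹).toMonoidHom
          simpa [mul_assoc] using h2.eq
        · have h : Commute a.1 g := mem_centralizer_singleton_iff.1 a.2
          have h2 := h.map (MulAut.conj y).toMonoidHom
          simpa [mul_assoc] using h2.eq
  haveI := hKs
  haveI : Group.IsSolvable V := Group.isSolvable_of_comm fun a b => Subtype.ext (hab _ a.2 _ b.2)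
  haveI : Group.IsSolvable L := Group.isSolvable_of_ker_le_range (inclusion hKL)
    (π.subgroupMap L) fun x hx => ⟨⟨x, hπ1.1 (congrArg Subtype.val hx)⟩, rfl⟩
  haveI : Group.IsSolvable (G ⧸ L) := Group.isSolvable_of_comm fun a b => by
    induction a using QuotientGroup.induction_on with | _ a => ?_
    induction b using QuotientGroup.induction_on with | _ b => ?_
    refine QuotientGroup.eq.2 ?_
    rw [show (a * b)⁻¹ * (b * a) = ⁅b⁻¹, a⁻¹⁆ by rw [commutatorElement_def]; group]
    exact hGL _ _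
  exact Group.isSolvable_of_ker_le_range L.subtype (QuotientGroup.mk' L) (by simp)

end CfsgLib.SeenOnce
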