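import Cfsg.Agent.Lib.SeenOnce.FieldForms
import Cfsg.Agent.Lib.HallClasses.Camina
import Mathlib.GroupTheory.GroupAction.Quotient

/-!
# A `p`-group with a transitive abelian automorphism group on a Camina quotient

If every element outside `B` has the whole coset as class, commutes modulo `B` only with its own
powers, and an abelian group of automorphisms is transitive on `(P/B)#`, then `B` is central of
order at most `p`.
-/

set_option autoImplicit false
set_option linter.style.haveILetI false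
set_option linter.unusedSectionVars false

namespace CfsgLib.SeenOnce.PLayers

open Subgroup
open scoped commutatorElement

variable {P : Type*} [Group P] [Finite P]

/-- A central layer below `B` is smaller than `P/B`. -/
theorem relIndex_lt {B D N : Subgroup P} [B.Normal] [N.Normal] (hDB : D ≤ B) (hNB : N ≤ B)
    (hND : ⁅D, (⊤ : Subgroup P)⁆ ≤ N) {x : P} (hx : x ∉ B)
    (hclass : ∀ b ∈ B, ∃ y, y * x * y⁻¹ = x * b) : N.relIndex D < B.index := by
  classical
  set π := QuotientGroup.mk' N with hπ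
  set B' := B.map π with hB'
  set D' := D.map π with hD'
  set C := centralizer ({π x} : Set (P ⧸ N)) with hC
  have hxB : π x ∉ B' := by
    rintro ⟨b, hb, he⟩
    have h1 : b⁻¹ * x ∈ N := QuotientGroup.eq.1 he
    exact hx (by simpa using mul_mem hb (hNB h1))
  have hDC : D' ≤ C := by
    rintro _ ⟨d, hd, rfl⟩
    refine mem_centralizer_singleton_iff.2 ?_
    rw [← map_mul, ← map_mul]
    have h1 : ⁅d⁻¹, x⁻¹⁆ ∈ N := hND (commutator_mem_commutator (inv_mem hd) (mem_top _))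
    refine QuotientGroup.eq.2 ?_
    have : (d * x)⁻¹ * (x * d) = ⁅x⁻¹, d⁻¹⁆ := by rw [commutatorElement_def]; group
    rw [this, ← commutatorElement_inv]
    exact inv_mem h1
  have hlt : Nat.card D' < Nat.card C := by
    by_contra hge
    have h1 : D' = C := eq_of_le_of_card_ge hDC (not_lt.1 hge)
    exact hxB (map_mono hDB (h1.ge (mem_centralizer_singleton_iff.2 rfl)))
  have hinj : Nat.card B' ≤ Nat.card ((P ⧸ N) ⧸ C) := by
    choose y hy using fun b : B' => (show ∃ y : P ⧸ N, y * π x * y⁻¹ = π x * b from by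
      obtain ⟨_, b, hb, rfl⟩ := b
      obtain ⟨y, hy⟩ := hclass b hb
      exact ⟨π y, by rw [← map_inv, ← map_mul, ← map_mul, hy, map_mul]⟩)
    refine Nat.card_le_card_of_injective (fun b => ((y b : P ⧸ N) : (P ⧸ N) ⧸ C)) fun a b hab => ?_
    have h1 := mem_centralizer_singleton_iff.1 (QuotientGroup.eq.1 hab)
    refine Subtype.ext (mul_left_cancel (a := π x) ?_)
    rw [← hy a, ← hy b]
    calc y a * π x * (y a)⁻¹ = y a * (π x * ((y a)⁻¹ * y b)) * (y b)⁻¹ := by group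
      _ = y a * (((y a)⁻¹ * y b) * π x) * (y b)⁻¹ := by rw [h1]
      _ = y b * π x * (y b)⁻¹ := by group
  have h3 := C.card_eq_card_quotient_mul_card_subgroup
  have h4 : Nat.card (P ⧸ N) = Nat.card B' * B.index := by
    rw [hB', ← Subgroup.card_mul_index (B.map π), index_map_eq B (QuotientGroup.mk'_surjective N)
      (by rw [QuotientGroup.ker_mk']; exact hNB)]
  have h5 : Nat.card D' = N.relIndex D := by
    rw [hD', ← relIndex_bot_left, ← relIndex_comap, MonoidHom.comap_bot, QuotientGroup.ker_mk']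
  rw [← h5]
  have h6 : Nat.card C * Nat.card B' ≤ B.index * Nat.card B' := by
    rw [mul_comm B.index, ← h4, h3, mul_comm (Nat.card C)]
    exact Nat.mul_le_mul_right _ hinj
  exact hlt.trans_le (Nat.le_of_mul_le_mul_right h6 Nat.card_pos)

/-- The commutative group structure on a quotient containing all commutators. -/
@[reducible] def quotientCommGroup {X : Type*} [Group X] (H : Subgroup X) [H.Normal]
    (h : ∀ a b : X, ⁅a, b⁆ ∈ H) : CommGroup (X ⧸ H) :=
  { (inferInstance : Group (X ⧸ H)) with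
    mul_comm := by
      intro a b
      induction a using QuotientGroup.induction_on with | _ a => ?_
      induction b using QuotientGroup.induction_on with | _ b => ?_
      refine QuotientGroup.eq.2 ?_
      rw [show (a * b)⁻¹ * (b * a) = ⁅b⁻¹, a⁻¹⁆ by rw [commutatorElement_def]; group]
      exact h _ _ }

/-- Elements modulo `N` commute with `D` when `⁅D, P⁆ ≤ N`. -/
theorem conj_eq_mul {D N : Subgroup P} (hND : ⁅D, (⊤ : Subgroup P)⁆ ≤ N) {d : P} (hd : d ∈ D)
    (x : P) : d⁻¹ * (x * d * x⁻¹) ∈ N := by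
  have h1 := hND (commutator_mem_commutator (inv_mem hd) (mem_top x))
  rwa [commutatorElement_def, inv_inv, show d⁻¹ * x * d * x⁻¹ = d⁻¹ * (x * d * x⁻¹) by group] at h1

/-- **The structure theorem.** -/
theorem pgroup_structure {A : Type*} [Group A] (ψ : A →* MulAut P) {p k : ℕ} [Fact p.Prime]
    (hP : IsPGroup p P) (B : Subgroup P) [B.Normal] (hBi : ∀ a, ∀ b ∈ B, ψ a b ∈ B)
    (hidx : B.index = p ^ k) (hk : 0 < k) (hexp : ∀ x : P, x ^ p ∈ B)
    (hab : ∀ x y : P, ⁅x, y⁆ ∈ B)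
    (hclass : ∀ x ∉ B, ∀ b ∈ B, ∃ y, y * x * y⁻¹ = x * b)
    (hline : ∀ x ∉ B, ∀ y, Commute x y → ∃ i : ℕ, (x ^ i)⁻¹ * y ∈ B)
    (htrans : ∀ x ∉ B, ∀ y ∉ B, ∃ a, (ψ a x)⁻¹ * y ∈ B)
    (hcomm : ∀ a a' x, (ψ a (ψ a' x))⁻¹ * ψ a' (ψ a x) ∈ B) :
    B ≤ center P ∧ Nat.card B ∣ p := by
  classical
  have hp : p.Prime := Fact.out
  haveI : Group.IsNilpotent P := hP.isNilpotent
  obtain ⟨x0, hx0⟩ : ∃ x0, x0 ∉ B := by
    by_contra h
    push Not at h
    rw [show B = ⊤ from eq_top_iff.2 fun x _ => h x, index_top] at hidx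
    exact absurd hidx.symm (Nat.one_lt_pow hk.ne' hp.one_lt).ne'
  -- `V = P ⧸ B`
  letI : CommGroup (P ⧸ B) := quotientCommGroup B hab
  let V := Additive (P ⧸ B)
  let mkV : P → V := fun x => Additive.ofMul (x : P ⧸ B)
  have hmkV : ∀ {x y : P}, mkV x = mkV y ↔ x⁻¹ * y ∈ B := fun {x y} =>
    Additive.ofMul.injective.eq_iff.trans QuotientGroup.eq
  have hmkV0 : ∀ {x : P}, mkV x = 0 ↔ x ∈ B := fun {x} =>
    (Additive.ofMul.injective.eq_iff (b := 1)).trans (QuotientGroup.eq_one_iff x)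
  let out : V → P := fun v => Quotient.out (Additive.toMul v)
  have hout : ∀ v, mkV (out v) = v := fun v =>
    Additive.toMul.injective (Quotient.out_eq (Additive.toMul v))
  have hmk_mul : ∀ x y, mkV (x * y) = mkV x + mkV y := fun x y => rfl
  let ρ : A → AddMonoid.End V := fun a => AddMonoidHom.mk'
    (fun v => mkV (ψ a (out v))) fun u v => by
      rw [← hmk_mul, ← map_mul, hmkV, ← map_inv, ← map_mul]
      refine hBi a _ (hmkV.1 ?_)
      rw [hout, hmk_mul, hout, hout]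
  have hρ : ∀ a x, ρ a (mkV x) = mkV (ψ a x) := fun a x => by
    show mkV (ψ a (out (mkV x))) = _
    rw [hmkV, ← map_inv, ← map_mul]
    exact hBi a _ (hmkV.1 (hout _))
  have hρc : ∀ a a' v, ρ a (ρ a' v) = ρ a' (ρ a v) := fun a a' v => by
    rw [← hout v, hρ, hρ, hρ, hρ, hmkV]
    exact hcomm a a' _
  set v0 := mkV x0
  have hv0 : v0 ≠ 0 := fun h => hx0 (hmkV0.1 h)
  have horb : ∀ v : V, v ≠ 0 → ∃ a, ρ a v0 = v := by
    intro v hv
    obtain ⟨a, ha⟩ := htrans x0 hx0 (out v) (fun h => hv ((hout v).symm.trans (hmkV0.2 h)))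
    exact ⟨a, by rw [hρ, ← hout v, hmkV]; exact ha⟩
  -- the field
  let F := Subring.centralizer (Set.range ρ)
  have hρF : ∀ a, ρ a ∈ F := by
    intro a
    refine Subring.mem_centralizer_iff.2 ?_
    rintro _ ⟨a', rfl⟩
    exact AddMonoidHom.ext fun v => hρc a' a v
  have hdet : ∀ f g : F, (f : AddMonoid.End V) v0 = (g : AddMonoid.End V) v0 → f = g := by
    intro f g hfg
    refine Subtype.ext (AddMonoidHom.ext fun v => ?_)
    by_cases hv : v = 0
    · rw [hv]
      exact (map_zero (f.1 : V →+ V)).trans (map_zero (g.1 : V →+ V)).symm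
    obtain ⟨a, rfl⟩ := horb v hv
    have h1 := DFunLike.congr_fun (Subring.mem_centralizer_iff.1 f.2 (ρ a) ⟨a, rfl⟩) v0
    have h2 := DFunLike.congr_fun (Subring.mem_centralizer_iff.1 g.2 (ρ a) ⟨a, rfl⟩) v0
    exact (h1.symm.trans ((congrArg (ρ a) hfg))).trans h2
  have hunit : ∀ f : F, f ≠ 0 → ∃ a, f = ⟨ρ a, hρF a⟩ := by
    intro f hf
    obtain ⟨a, ha⟩ := horb ((f : AddMonoid.End V) v0) (fun h => hf (hdet f 0 (by simpa using h)))
    exact ⟨a, hdet _ _ ha.symm⟩
  have hmulc : ∀ f g : F, f * g = g * f := by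
    intro f g
    by_cases hf : f = 0
    · rw [hf, zero_mul, mul_zero]
    obtain ⟨a, rfl⟩ := hunit f hf
    exact Subtype.ext (Subring.mem_centralizer_iff.1 g.2 (ρ a) ⟨a, rfl⟩)
  have hρ1 : ρ 1 = 1 := AddMonoidHom.ext fun v => by
    show mkV (ψ 1 (out v)) = v
    rw [map_one]
    exact hout v
  have hρm : ∀ a b, ρ (a * b) = ρ a * ρ b := fun a b => AddMonoidHom.ext fun v => by
    show _ = ρ a (ρ b v)
    rw [← hout v]
    exact (hρ (a * b) _).trans ((congrArg mkV (by rw [map_mul]; rfl)).trans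
      ((congrArg (fun w => ρ a w) (hρ b _)).trans (hρ a _)).symm)
  haveI : Nontrivial F := ⟨0, 1, fun h => hv0 (by
    have := congrArg (fun f : F => (f : AddMonoid.End V) v0) h
    exact this.symm)⟩
  have hfield : IsField F :=
    { exists_pair_ne := exists_pair_ne F
      mul_comm := hmulc
      mul_inv_cancel := fun {f} hf => by
        obtain ⟨a, rfl⟩ := hunit f hf
        exact ⟨⟨ρ a⁻¹, hρF _⟩, Subtype.ext (by
          show ρ a * ρ a⁻¹ = 1
          rw [← hρm, mul_inv_cancel, hρ1])⟩ }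
  letI : Field F := hfield.toField
  let ev : F →+ V := AddMonoidHom.mk' (fun f => (f : AddMonoid.End V) v0) fun _ _ => rfl
  have hev : Function.Bijective ev := ⟨fun f g h => hdet f g h, fun v => by
    by_cases hv : v = 0
    · exact ⟨0, hv ▸ rfl⟩
    obtain ⟨a, ha⟩ := horb v hv
    exact ⟨⟨ρ a, hρF a⟩, ha⟩⟩
  haveI : Finite F := Finite.of_injective ev hev.1
  have hcardF : Nat.card F = p ^ k := by
    rw [Nat.card_eq_of_bijective ev hev, ← hidx, Subgroup.index_eq_card]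
    exact (Nat.card_congr Additive.toMul)
  have hpV : ∀ v : V, p • v = 0 := fun v => by
    rw [← hout v]
    exact (Additive.toMul.injective ((toMul_nsmul _ _).trans
      ((QuotientGroup.mk_pow B _ p).symm.trans ((QuotientGroup.eq_one_iff _).2 (hexp _)))))
  haveI : CharP F p := by
    refine (CharP.charP_iff_prime_eq_zero hp).2 ?_
    refine hev.1 ?_
    rw [map_zero, show (p : F) = p • (1 : F) by rw [nsmul_one], map_nsmul]
    exact hpV _
  let rep : F → P := fun f => out (ev f)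
  have hrep_add : ∀ f g, (rep f * rep g)⁻¹ * rep (f + g) ∈ B := fun f g =>
    hmkV.1 (by rw [hmk_mul, hout, hout, hout, map_add])
  -- the lower central layers
  set B3 := ⁅B, (⊤ : Subgroup P)⁆ with hB3
  set B4 := ⁅B3, (⊤ : Subgroup P)⁆ with hB4
  haveI : B3.Normal := by rw [hB3]; infer_instance
  haveI : B4.Normal := by rw [hB4]; infer_instance
  have h3B : B3 ≤ B := commutator_le_left _ _
  have h43 : B4 ≤ B3 := commutator_le_left _ _
  have hTT : ⁅(⊤ : Subgroup P), (⊤ : Subgroup P)⁆ = B := by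
    refine le_antisymm (commutator_le.2 fun a _ b _ => hab a b) fun b hb => ?_
    obtain ⟨y, hy⟩ := hclass x0 hx0 b hb
    rw [show b = ⁅x0⁻¹, y⁆ by rw [commutatorElement_def, inv_inv]
                              calc b = x0⁻¹ * (x0 * b) := by group
                                _ = _ := by rw [← hy]; group]
    exact commutator_mem_commutator (mem_top _) (mem_top _)
  have hBB : ⁅B, B⁆ ≤ B4 := by
    nth_rw 1 [← hTT]
    set π := QuotientGroup.mk' B4
    rw [← QuotientGroup.ker_mk' B4, ← Subgroup.map_eq_bot_iff, map_commutator, map_commutator]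
    refine commutator_commutator_eq_bot_of_rotate ?_ ?_
    · rw [← map_commutator, ← map_commutator, Subgroup.map_eq_bot_iff, QuotientGroup.ker_mk',
        commutator_comm (⊤ : Subgroup P) B]
    · rw [← map_commutator, ← map_commutator, Subgroup.map_eq_bot_iff, QuotientGroup.ker_mk']
  -- second layer
  let B3' := B3.subgroupOf B
  letI : CommGroup (B ⧸ B3') := quotientCommGroup B3' fun a b =>
    mem_subgroupOf.2 (h43 (hBB (commutator_mem_commutator a.2 b.2)))
  let U2 := Additive (B ⧸ B3')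
  let c2 : P → P → U2 := fun x y =>
    Additive.ofMul (((⟨⁅x, y⁆, hab x y⟩ : B) : B ⧸ B3'))
  have hmk2 : ∀ {a b : B}, (Additive.ofMul ((a : B ⧸ B3')) : U2) = Additive.ofMul ((b : B ⧸ B3'))
      ↔ (a : P)⁻¹ * b ∈ B3 := fun {a b} =>
    Additive.ofMul.injective.eq_iff.trans (QuotientGroup.eq.trans mem_subgroupOf)
  have hc2add : ∀ x x' y, c2 (x * x') y = c2 x' y + c2 x y := fun x x' y => by
    show _ = Additive.ofMul ((((⟨⁅x', y⁆, hab x' y⟩ * ⟨⁅x, y⁆, hab x y⟩ : B)) : B ⧸ B3'))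
    refine (hmk2.2 ?_).symm
    have h1 := conj_eq_mul (N := B3) le_rfl (hab x' y) x
    have h2 : (⁅x', y⁆ * ⁅x, y⁆)⁻¹ * ⁅x * x', y⁆
        = (⁅x, y⁆)⁻¹ * ((⁅x', y⁆)⁻¹ * (x * ⁅x', y⁆ * x⁻¹)) * ⁅x, y⁆ := by
      simp only [commutatorElement_def]; group
    show (⁅x', y⁆ * ⁅x, y⁆)⁻¹ * ⁅x * x', y⁆ ∈ B3
    rw [h2]
    simpa using (inferInstance : B3.Normal).conj_mem _ h1 (⁅x, y⁆)⁻¹
  have hc2anti : ∀ x y, c2 y x = -c2 x y := fun x y => by
    show _ = Additive.ofMul (((((⟨⁅x, y⁆, hab x y⟩ : B))⁻¹ : B) : B ⧸ B3'))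
    refine hmk2.2 ?_
    show (⁅y, x⁆)⁻¹ * (⁅x, y⁆)⁻¹ ∈ B3
    rw [← commutatorElement_inv x y, inv_inv, mul_inv_cancel]
    exact one_mem _
  have hc2B : ∀ b ∈ B, ∀ y, c2 b y = 0 := fun b hb y => by
    show _ = Additive.ofMul ((((1 : B)) : B ⧸ B3'))
    refine hmk2.2 ?_
    show (⁅b, y⁆)⁻¹ * 1 ∈ B3
    rw [mul_one]
    exact inv_mem (commutator_mem_commutator hb (mem_top y))
  have hc2congr : ∀ x x' y y', x⁻¹ * x' ∈ B → y⁻¹ * y' ∈ B → c2 x y = c2 x' y' := by
    have h : ∀ x x' y, x⁻¹ * x' ∈ B → c2 x y = c2 x' y := fun x x' y hx => by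
      rw [show x' = x * (x⁻¹ * x') by group, hc2add, hc2B _ hx, zero_add]
    intro x x' y y' hx hy
    rw [h x x' y hx, ← neg_neg (c2 x' y), ← hc2anti, h y y' x' hy, hc2anti, neg_neg]
  let β : F →+ F →+ U2 := AddMonoidHom.mk'
    (fun f => AddMonoidHom.mk' (fun g => c2 (rep f) (rep g)) fun g g' => by
      rw [← hc2congr _ _ _ _ (show (rep f)⁻¹ * rep f ∈ B by simp) (hrep_add g g'),
        ← neg_neg (c2 (rep f) (rep g * rep g')), ← hc2anti, hc2add, neg_add, ← hc2anti,
        ← hc2anti, add_comm])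
    fun f f' => AddMonoidHom.ext fun g => by
      show c2 _ _ = c2 _ _ + c2 _ _
      rw [← hc2congr _ _ _ _ (hrep_add f f') (show (rep g)⁻¹ * rep g ∈ B by simp), hc2add,
        add_comm]
  have hevsurj : ∀ x : P, ∃ f : F, (rep f)⁻¹ * x ∈ B := fun x => by
    obtain ⟨f, hf⟩ := hev.2 (mkV x)
    exact ⟨f, hmkV.1 (by rw [hout, hf])⟩
  have hβspan : AddSubgroup.closure (Set.range fun x : F × F => β x.1 x.2) = ⊤ := by
    refine eq_top_iff.2 fun u hu => ?_
    clear hu
    obtain ⟨q, rfl⟩ := Additive.ofMul.surjective u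
    induction q using QuotientGroup.induction_on with | _ b => ?_
    obtain ⟨b, hb⟩ := b
    have hb' : b ∈ Subgroup.closure {g | ∃ a ∈ (⊤ : Subgroup P), ∃ c ∈ (⊤ : Subgroup P), ⁅a, c⁆ = g} := by
      rw [← Subgroup.commutator_def, hTT]; exact hb
    suffices key : ∃ hb : b ∈ B, (Additive.ofMul (((⟨b, hb⟩ : B)) : B ⧸ B3') : U2)
        ∈ AddSubgroup.closure (Set.range fun x : F × F => β x.1 x.2) from key.2
    clear hb
    induction hb' using Subgroup.closure_induction with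
    | mem g hg =>
      obtain ⟨a, -, c, -, rfl⟩ := hg
      obtain ⟨f, hf⟩ := hevsurj a
      obtain ⟨f', hf'⟩ := hevsurj c
      exact ⟨hab a c, AddSubgroup.subset_closure ⟨(f, f'), hc2congr _ _ _ _ hf hf'⟩⟩
    | one => exact ⟨one_mem _, zero_mem _⟩
    | mul g g' _ _ ih ih' =>
      obtain ⟨h1, h2⟩ := ih
      obtain ⟨h1', h2'⟩ := ih'
      exact ⟨mul_mem h1 h1', add_mem h2 h2'⟩
    | inv g _ ih =>
      obtain ⟨h1, h2⟩ := ih
      exact ⟨inv_mem h1, neg_mem h2⟩
  have hψF : ∀ l : Fˣ, ∃ a, ∀ f : F, (ψ a (rep f))⁻¹ * rep ((l : F) * f) ∈ B := fun l => by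
    obtain ⟨a, ha⟩ := hunit (l : F) l.ne_zero
    refine ⟨a, fun f => hmkV.1 ?_⟩
    rw [hout, ← hρ, hout]
    show ρ a (ev f) = _
    rw [ha]
    rfl
  have hψ3 : ∀ a, ∀ b ∈ B3, ψ a b ∈ B3 := by
    intro a b hb
    have : B3 ≤ B3.comap (ψ a).toMonoidHom := commutator_le.2 fun x hx y _ => by
      show ψ a ⁅x, y⁆ ∈ B3
      rw [map_commutatorElement]
      exact commutator_mem_commutator (hBi a x hx) (mem_top _)
    exact this hb
  let ψB : A → B →* B := fun a => ((ψ a).toMonoidHom.comp B.subtype).codRestrict B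
    fun b => hBi a b b.2
  have hβeq : ∀ l : Fˣ, ∃ γ : U2 →+ U2, ∀ f g, β ((l : F) * f) ((l : F) * g) = γ (β f g) := by
    intro l
    obtain ⟨a, ha⟩ := hψF l
    refine ⟨MonoidHom.toAdditive (QuotientGroup.map B3' B3' (ψB a) fun b hb =>
      show ψ a (b : P) ∈ B3 from hψ3 a _ (mem_subgroupOf.1 hb)), fun f g => ?_⟩
    show c2 _ _ = Additive.ofMul (((ψB a ⟨⁅rep f, rep g⁆, hab _ _⟩ : B)) : B ⧸ B3')
    rw [← hc2congr _ _ _ _ (ha f) (ha g)]
    refine hmk2.2 ?_
    show (⁅ψ a (rep f), ψ a (rep g)⁆)⁻¹ * ψ a ⁅rep f, rep g⁆ ∈ B3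
    rw [map_commutatorElement, inv_mul_cancel]
    exact one_mem _
  have hU2 : Nat.card U2 < Nat.card F := by
    rw [hcardF, ← hidx, Nat.card_congr Additive.toMul, ← Subgroup.index_eq_card]
    exact relIndex_lt (D := B) le_rfl h3B le_rfl hx0 (hclass x0 hx0)
  have hbot : ∀ {D : Subgroup P} [D.Normal], D ≤ ⁅D, (⊤ : Subgroup P)⁆ → D = ⊥ := fun {D} _ h => by
    by_contra hD
    exact HallClasses.Camina.commutator_top_ne hD (le_antisymm (commutator_le_left _ _) h)
  by_cases hβ0 : β = 0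
  · have hB : B = ⊥ := hbot fun b hb => by
      have hz : (Additive.ofMul (((⟨b, hb⟩ : B)) : B ⧸ B3') : U2) ∈ (⊥ : AddSubgroup U2) := by
        have h1 : AddSubgroup.closure (Set.range fun x : F × F => β x.1 x.2) ≤ ⊥ := by
          rw [AddSubgroup.closure_le]
          rintro _ ⟨x, rfl⟩
          simp [hβ0]
        exact h1 (hβspan ▸ trivial)
      have h2 := Additive.ofMul.injective ((AddSubgroup.mem_bot.1 hz).trans ofMul_one.symm)
      exact mem_subgroupOf.1 ((QuotientGroup.eq_one_iff _).1 h2)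
    exact ⟨hB ▸ bot_le, by rw [hB, card_bot]; exact one_dvd _⟩
  obtain ⟨m, hm, hmid⟩ := FieldForms.bilinear_eq (p := p) hU2 β hβspan hβeq hβ0
  -- third layer
  let B4' := B4.subgroupOf B3
  letI : CommGroup (B3 ⧸ B4') := quotientCommGroup B4' fun a b =>
    mem_subgroupOf.2 (hBB (commutator_mem_commutator (h3B a.2) (h3B b.2)))
  let U3 := Additive (B3 ⧸ B4')
  let t : B → P → U3 := fun b z => Additive.ofMul
    (((⟨⁅(b : P), z⁆, commutator_mem_commutator b.2 (mem_top z)⟩ : B3)) : B3 ⧸ B4')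
  have hmk3 : ∀ {a b : B3}, (Additive.ofMul ((a : B3 ⧸ B4')) : U3) = Additive.ofMul ((b : B3 ⧸ B4'))
      ↔ (a : P)⁻¹ * b ∈ B4 := fun {a b} =>
    Additive.ofMul.injective.eq_iff.trans (QuotientGroup.eq.trans mem_subgroupOf)
  have ht0 : ∀ (b : B) z, ⁅(b : P), z⁆ ∈ B4 → t b z = 0 := fun b z h => by
    show _ = Additive.ofMul ((((1 : B3)) : B3 ⧸ B4'))
    refine hmk3.2 ?_
    show (⁅(b : P), z⁆)⁻¹ * 1 ∈ B4
    rw [mul_one]
    exact inv_mem h
  have ht1 : ∀ b b' z, t (b * b') z = t b' z + t b z := fun b b' z => by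
    refine (hmk3.2 ?_).symm
    have h1 := conj_eq_mul (N := B4) le_rfl
      (commutator_mem_commutator b'.2 (mem_top z) : ⁅(b' : P), z⁆ ∈ B3) (b : P)
    show (⁅(b' : P), z⁆ * ⁅(b : P), z⁆)⁻¹ * ⁅(b : P) * b', z⁆ ∈ B4
    rw [show (⁅(b' : P), z⁆ * ⁅(b : P), z⁆)⁻¹ * ⁅(b : P) * b', z⁆
        = (⁅(b : P), z⁆)⁻¹ * ((⁅(b' : P), z⁆)⁻¹ * ((b : P) * ⁅(b' : P), z⁆ * (b : P)⁻¹)) * ⁅(b : P), z⁆ by
      simp only [commutatorElement_def]; group]
    simpa using (inferInstance : B4.Normal).conj_mem _ h1 (⁅(b : P), z⁆)⁻¹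
  have ht2 : ∀ b z z', t b (z * z') = t b z + t b z' := fun b z z' => by
    refine (hmk3.2 ?_).symm
    show (⁅(b : P), z⁆ * ⁅(b : P), z'⁆)⁻¹ * ⁅(b : P), z * z'⁆ ∈ B4
    rw [show (⁅(b : P), z⁆ * ⁅(b : P), z'⁆)⁻¹ * ⁅(b : P), z * z'⁆
        = (⁅(b : P), z'⁆)⁻¹ * (z * ⁅(b : P), z'⁆ * z⁻¹) by
      simp only [commutatorElement_def]; group]
    exact conj_eq_mul le_rfl (commutator_mem_commutator b.2 (mem_top z')) z
  have htz : ∀ b z z', z⁻¹ * z' ∈ B → t b z = t b z' := fun b z z' h => by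
    rw [show z' = z * (z⁻¹ * z') by group, ht2,
      ht0 b _ (hBB (commutator_mem_commutator b.2 h)), add_zero]
  let τ' : Additive B →+ (F →+ U3) := AddMonoidHom.mk'
    (fun b => AddMonoidHom.mk' (fun f => t (Additive.toMul b) (rep f)) fun f f' => by
      rw [← htz _ _ _ (hrep_add f f'), ht2])
    fun b b' => AddMonoidHom.ext fun f => (ht1 _ _ _).trans (add_comm _ _)
  let τ : U2 →+ (F →+ U3) := MonoidHom.toAdditiveLeft
    (QuotientGroup.lift B3' (AddMonoidHom.toMultiplicativeRight τ') fun b hb => by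
      refine Multiplicative.toAdd.injective (AddMonoidHom.ext fun f => ?_)
      exact ht0 b _ (commutator_mem_commutator (mem_subgroupOf.1 hb) (mem_top _)))
  let T : F →+ F →+ F →+ U3 := (AddMonoidHom.compHom τ).comp β
  have hT : ∀ f g h, T f g h = t ⟨⁅rep f, rep g⁆, hab _ _⟩ (rep h) := fun f g h => rfl
  have hTspan : AddSubgroup.closure (Set.range fun x : F × F × F => T x.1 x.2.1 x.2.2) = ⊤ := by
    refine eq_top_iff.2 fun u hu => ?_
    clear hu
    obtain ⟨q, rfl⟩ := Additive.ofMul.surjective u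
    induction q using QuotientGroup.induction_on with | _ c => ?_
    obtain ⟨c, hc⟩ := c
    have hc' : c ∈ Subgroup.closure {g | ∃ a ∈ B, ∃ z ∈ (⊤ : Subgroup P), ⁅a, z⁆ = g} := by
      rw [← Subgroup.commutator_def]; exact hc
    suffices key : ∃ hc : c ∈ B3, (Additive.ofMul (((⟨c, hc⟩ : B3)) : B3 ⧸ B4') : U3)
        ∈ AddSubgroup.closure (Set.range fun x : F × F × F => T x.1 x.2.1 x.2.2) from key.2
    clear hc
    induction hc' using Subgroup.closure_induction with
    | mem g hg =>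
      obtain ⟨a, ha, z, -, rfl⟩ := hg
      obtain ⟨h, hh⟩ := hevsurj z
      refine ⟨commutator_mem_commutator ha (mem_top z), ?_⟩
      show t ⟨a, ha⟩ z ∈ _
      rw [← htz _ _ _ hh]
      show τ (Additive.ofMul (((⟨a, ha⟩ : B)) : B ⧸ B3')) h ∈ _
      have h1 : (Additive.ofMul (((⟨a, ha⟩ : B)) : B ⧸ B3') : U2) ∈
          AddSubgroup.closure (Set.range fun x : F × F => β x.1 x.2) := hβspan ▸ trivial
      generalize (Additive.ofMul (((⟨a, ha⟩ : B)) : B ⧸ B3') : U2) = u at h1 ⊢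
      induction h1 using AddSubgroup.closure_induction with
      | mem u hu =>
        obtain ⟨⟨f, g⟩, rfl⟩ := hu
        exact AddSubgroup.subset_closure ⟨(f, g, h), rfl⟩
      | zero => rw [map_zero, AddMonoidHom.zero_apply]; exact zero_mem _
      | add u v _ _ iu iv => rw [map_add, AddMonoidHom.add_apply]; exact add_mem iu iv
      | neg u _ iu => rw [map_neg, AddMonoidHom.neg_apply]; exact neg_mem iu
    | one => exact ⟨one_mem _, zero_mem _⟩
    | mul g g' _ _ ih ih' =>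
      obtain ⟨h1, h2⟩ := ih
      obtain ⟨h1', h2'⟩ := ih'
      exact ⟨mul_mem h1 h1', add_mem h2 h2'⟩
    | inv g _ ih =>
      obtain ⟨h1, h2⟩ := ih
      exact ⟨inv_mem h1, neg_mem h2⟩
  have hψ4 : ∀ a, ∀ b ∈ B4, ψ a b ∈ B4 := by
    intro a b hb
    have : B4 ≤ B4.comap (ψ a).toMonoidHom := commutator_le.2 fun x hx y _ => by
      show ψ a ⁅x, y⁆ ∈ B4
      rw [map_commutatorElement]
      exact commutator_mem_commutator (hψ3 a x hx) (mem_top _)
    exact this hb
  let ψC : A → B3 →* B3 := fun a => ((ψ a).toMonoidHom.comp B3.subtype).codRestrict B3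
    fun b => hψ3 a b b.2
  have hTeq : ∀ l : Fˣ, ∃ γ : U3 →+ U3,
      ∀ f g h, T ((l : F) * f) ((l : F) * g) ((l : F) * h) = γ (T f g h) := by
    intro l
    obtain ⟨a, ha⟩ := hψF l
    refine ⟨MonoidHom.toAdditive (QuotientGroup.map B4' B4' (ψC a) fun b hb =>
      show ψ a (b : P) ∈ B4 from hψ4 a _ (mem_subgroupOf.1 hb)), fun f g h => ?_⟩
    have h1 : β ((l : F) * f) ((l : F) * g) = Additive.ofMul
        ((((⟨⁅ψ a (rep f), ψ a (rep g)⁆, hab _ _⟩ : B))) : B ⧸ B3') :=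
      (hc2congr _ _ _ _ (ha f) (ha g)).symm
    show τ (β ((l : F) * f) ((l : F) * g)) ((l : F) * h) = _
    rw [h1]
    show t ⟨⁅ψ a (rep f), ψ a (rep g)⁆, hab _ _⟩ (rep ((l : F) * h)) =
      Additive.ofMul ((((ψC a ⟨⁅⁅rep f, rep g⁆, rep h⁆,
        commutator_mem_commutator (hab _ _) (mem_top _)⟩ : B3))) : B3 ⧸ B4')
    rw [← htz _ _ _ (ha h)]
    refine hmk3.2 ?_
    show (⁅⁅ψ a (rep f), ψ a (rep g)⁆, ψ a (rep h)⁆)⁻¹ * ψ a ⁅⁅rep f, rep g⁆, rep h⁆ ∈ B4
    rw [map_commutatorElement, map_commutatorElement, inv_mul_cancel]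
    exact one_mem _
  have hU3p : ∀ u : U3, p • u = 0 := by
    intro u
    have hu : u ∈ AddSubgroup.closure (Set.range fun x : F × F × F => T x.1 x.2.1 x.2.2) :=
      hTspan ▸ trivial
    induction hu using AddSubgroup.closure_induction with
    | mem x hx =>
      obtain ⟨⟨f, g, h⟩, rfl⟩ := hx
      rw [← map_nsmul, nsmul_eq_mul, CharP.cast_eq_zero, zero_mul, map_zero]
    | zero => exact nsmul_zero p
    | add x y _ _ hx hy => rw [nsmul_add, hx, hy, add_zero]
    | neg x _ hx => rw [neg_nsmul, hx, neg_zero]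
  have hU3 : Nat.card U3 < Nat.card F := by
    rw [hcardF, ← hidx, Nat.card_congr Additive.toMul, ← Subgroup.index_eq_card]
    exact relIndex_lt (D := B3) h3B (h43.trans h3B) le_rfl hx0 (hclass x0 hx0)
  have hT0 := FieldForms.trilinear_eq_zero hm hU3 hU3p T hTspan hTeq fun l f g h =>
    DFunLike.congr_fun (congrArg τ (hmid l f g)) h
  have hB3bot : B3 = ⊥ := hbot fun b hb => by
    have hz : (Additive.ofMul (((⟨b, hb⟩ : B3)) : B3 ⧸ B4') : U3) ∈ (⊥ : AddSubgroup U3) := by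
      have h1 : AddSubgroup.closure (Set.range fun x : F × F × F => T x.1 x.2.1 x.2.2) ≤ ⊥ := by
        rw [AddSubgroup.closure_le]
        rintro _ ⟨x, rfl⟩
        simp [hT0]
      exact h1 (hTspan ▸ trivial)
    have h2 := Additive.ofMul.injective ((AddSubgroup.mem_bot.1 hz).trans ofMul_one.symm)
    exact mem_subgroupOf.1 ((QuotientGroup.eq_one_iff _).1 h2)
  have hcen : B ≤ center P := fun b hb => mem_center_iff.2 fun y => by
    have h1 : ⁅b, y⁆ = 1 := (Subgroup.eq_bot_iff_forall _).1 hB3bot _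
      (commutator_mem_commutator hb (mem_top y))
    exact (commutatorElement_eq_one_iff_mul_comm.1 h1).symm
  refine ⟨hcen, ?_⟩
  have halt : ∀ f, β f f = 0 := fun f => by
    show _ = Additive.ofMul ((((1 : B)) : B ⧸ B3'))
    refine hmk2.2 ?_
    show (⁅rep f, rep f⁆)⁻¹ * 1 ∈ B3
    simp
  have hm1 : m = 1 := by
    refine FieldForms.eq_one_of_alternating hm β halt hmid fun l hl => ?_
    have h1 : ⁅rep 1, rep l⁆ ∈ B3 := by
      have h2 := Additive.ofMul.injective (hl.trans ofMul_one.symm)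
      exact mem_subgroupOf.1 ((QuotientGroup.eq_one_iff _).1 h2)
    rw [hB3bot, mem_bot] at h1
    have h11 : mkV (rep 1) = ev 1 := hout _
    have hrep1 : rep 1 ∉ B := fun h => hv0 (by
      have := h11.symm.trans (hmkV0.2 h)
      exact this)
    obtain ⟨i, hi⟩ := hline _ hrep1 _ (commutatorElement_eq_one_iff_commute.1 h1)
    have h2 : ev l = ev (i : F) := by
      rw [show (i : F) = i • (1 : F) by rw [nsmul_one], map_nsmul, ← h11, ← hout (ev l)]
      exact ((hmkV.2 hi).symm.trans rfl)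
    rw [hev.1 h2, ← frobenius_def, map_natCast]
  have hk2 : k = 2 := by
    have := Nat.pow_right_injective hp.two_le (hcardF.symm.trans hm)
    omega
  have h5 : Nat.card B = Nat.card U2 := by
    rw [Nat.card_congr Additive.toMul, ← Subgroup.index_eq_card]
    show _ = B3.relIndex B
    rw [hB3bot, relIndex_bot_left]
  obtain ⟨i, hi⟩ := IsPGroup.iff_card.1 (hP.to_subgroup B)
  rw [hi]
  have h6 : p ^ i < p ^ k := by
    rw [← hi, h5, ← hcardF]
    exact hU2
  have h7 : i ≤ 1 := by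
    have := (Nat.pow_lt_pow_iff_right hp.one_lt).1 h6
    omega
  exact (pow_dvd_pow p h7).trans (by rw [pow_one])

end CfsgLib.SeenOnce.PLayers
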