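import Cfsg.Agent.Lib.HallClasses.Camina
import Cfsg.Agent.Lib.PSolvable.FrattiniFacts

/-!
# A `2`-group over an extraspecial quotient

If `g` is the central involution of `P/B`, every nontrivial commutator modulo `B` lies in `gB`
and `gB` is the class of `g`, then `|B| ≤ 2`.
-/

set_option autoImplicit false
set_option linter.style.haveILetI false
set_option linter.unusedSectionVars false

namespace CfsgLib.SeenOnce.TwoLayers

open Subgroup
open scoped commutatorElement

universe u

variable {P : Type u} [Group P] [Finite P]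

/-- A class of the largest possible size inside a coset is the coset. -/
theorem class_eq_coset {B : Subgroup P} [B.Normal] {x : P} (hB : ∀ y, x⁻¹ * (y * x * y⁻¹) ∈ B)
    (hC : Nat.card (centralizer ({x} : Set P)) ≤ B.index) {b : P} (hb : b ∈ B) :
    ∃ y, y * x * y⁻¹ = x * b := by
  classical
  set C := centralizer ({x} : Set P)
  let f : P ⧸ C → B := Quotient.lift (fun y => ⟨x⁻¹ * (y * x * y⁻¹), hB y⟩) fun a c hac => by
    have h2 := mem_centralizer_singleton_iff.1 (QuotientGroup.leftRel_apply.1 hac)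
    refine Subtype.ext (mul_left_cancel_iff.2 ?_)
    calc a * x * a⁻¹ = a * (x * (a⁻¹ * c)) * c⁻¹ := by group
      _ = a * ((a⁻¹ * c) * x) * c⁻¹ := by rw [h2]
      _ = c * x * c⁻¹ := by group
  have hinj : Function.Injective f := by
    intro q₁ q₂ he
    induction q₁ using QuotientGroup.induction_on with | _ a => ?_
    induction q₂ using QuotientGroup.induction_on with | _ c => ?_
    have h1 : a * x * a⁻¹ = c * x * c⁻¹ := mul_left_cancel (congrArg Subtype.val he)
    refine QuotientGroup.eq.2 (mem_centralizer_singleton_iff.2 ?_)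
    calc a⁻¹ * c * x = a⁻¹ * (c * x * c⁻¹) * c := by group
      _ = a⁻¹ * (a * x * a⁻¹) * c := by rw [h1]
      _ = x * (a⁻¹ * c) := by group
  have hcard : Nat.card B ≤ Nat.card (P ⧸ C) := by
    refine Nat.le_of_mul_le_mul_right (c := Nat.card C) ?_ Nat.card_pos
    rw [← C.card_eq_card_quotient_mul_card_subgroup, ← B.card_mul_index]
    exact Nat.mul_le_mul_left _ hC
  have hbij := (Nat.bijective_iff_injective_and_card f).2
    ⟨hinj, le_antisymm (Nat.card_le_card_of_injective f hinj) hcard⟩
  obtain ⟨q, hq⟩ := hbij.2 ⟨b, hb⟩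
  induction q using QuotientGroup.induction_on with | _ y => ?_
  refine ⟨y, ?_⟩
  rw [← show x⁻¹ * (y * x * y⁻¹) = b from congrArg Subtype.val hq]
  group

/-- Two elements moving `u` by the same central involution multiply to an element fixing it. -/
theorem commute_mul {Q : Type*} [Group Q] {e u v w : Q} (hee : e * e = 1)
    (hec : ∀ a, Commute e a) (hv : v * u * v⁻¹ = u * e) (hw : w * u * w⁻¹ = u * e) :
    Commute (v * w) u := by
  have h : v * w * u * (v * w)⁻¹ = u := by
    calc v * w * u * (v * w)⁻¹ = v * (w * u * w⁻¹) * v⁻¹ := by group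
      _ = (v * u * v⁻¹) * (v * e * v⁻¹) := by rw [hw]; group
      _ = u * e * e := by rw [hv, (hec v).eq.symm]; group
      _ = u := by rw [mul_assoc, hee, mul_one]
  exact mul_inv_eq_iff_eq_mul.1 h

/-- A centraliser in a group whose commutators lie in `{1, e}` has index at most two. -/
theorem index_centralizer_le {Q : Type*} [Group Q] [Finite Q] {e : Q}
    (hQ : ∀ u v : Q, v * u * v⁻¹ = u ∨ v * u * v⁻¹ = u * e) (u : Q) :
    (centralizer ({u} : Set Q)).index ≤ 2 := by
  classical
  set C := centralizer ({u} : Set Q)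
  let f : Q ⧸ C → Bool := fun q => decide (q.out * u * q.out⁻¹ = u)
  have hinj : Function.Injective f := by
    intro a b hab
    rw [← QuotientGroup.out_eq' a, ← QuotientGroup.out_eq' b]
    refine QuotientGroup.eq.2 (mem_centralizer_singleton_iff.2 ?_)
    have h1 : a.out * u * a.out⁻¹ = b.out * u * b.out⁻¹ := by
      rcases hQ u a.out with h | h <;> rcases hQ u b.out with h' | h'
      · rw [h, h']
      · have := (decide_eq_decide.1 hab).1 h
        rw [h, this]
      · have := (decide_eq_decide.1 hab).2 h'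
        rw [h', this]
      · rw [h, h']
    calc a.out⁻¹ * b.out * u = a.out⁻¹ * (b.out * u * b.out⁻¹) * b.out := by group
      _ = a.out⁻¹ * (a.out * u * a.out⁻¹) * b.out := by rw [h1]
      _ = u * (a.out⁻¹ * b.out) := by group
  have := Nat.card_le_card_of_injective f hinj
  rwa [← index_eq_card, Nat.card_eq_fintype_card, Fintype.card_bool] at this

/-- In an extraspecial-like group of order more than eight the central involution is a commutator
of two elements commuting with any given one. -/
theorem exists_pair {Q : Type*} [Group Q] [Finite Q] {e : Q} (hee : e * e = 1)     (hec : ∀ a, Commute e a) (hQ : ∀ u v : Q, v * u * v⁻¹ = u ∨ v * u * v⁻¹ = u * e)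
    (hZ : ∀ u, (∀ v, Commute u v) → u = 1 ∨ u = e) (hcard : 8 < Nat.card Q) (a : Q) :
    ∃ x y, Commute x a ∧ Commute y a ∧ y * x * y⁻¹ = x * e := by
  classical
  have hne : ∀ {u v : Q}, ¬ Commute u v → v * u * v⁻¹ = u * e := fun {u v} h =>
    (hQ u v).resolve_left fun h' => h (mul_inv_eq_iff_eq_mul.1 h').symm
  have hex : ∀ u, u ≠ 1 → u ≠ e → ∃ v, ¬ Commute u v := fun u h1 h2 => by
    by_contra h
    push Not at h
    exact (hZ u h).elim h1 h2
  by_cases hcen : ∀ v, Commute a v
  · obtain ⟨u, hu⟩ : ∃ u : Q, u ≠ 1 ∧ u ≠ e := by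
      by_contra h
      push Not at h
      have : Nat.card Q ≤ 2 := by
        haveI := Fintype.ofFinite Q
        rw [Nat.card_eq_fintype_card, ← Finset.card_univ]
        refine (Finset.card_le_card (t := {1, e}) fun u _ => ?_).trans (Finset.card_le_two)
        rw [Finset.mem_insert, Finset.mem_singleton]
        exact (em (u = 1)).imp id (h u)
      omega
    obtain ⟨v, hv⟩ := hex u hu.1 hu.2
    exact ⟨u, v, (hcen u).symm, (hcen v).symm, hne hv⟩
  push Not at hcen
  obtain ⟨b, hb⟩ := hcen
  set H := centralizer ({a} : Set Q) ⊓ centralizer ({b} : Set Q)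
  have hH : 2 < Nat.card H := by
    by_contra hle
    have h1 := index_inf_le (H := centralizer ({a} : Set Q)) (K := centralizer ({b} : Set Q))
    have h2 := index_centralizer_le hQ a
    have h3 := index_centralizer_le hQ b
    have h4 : H.index ≤ 4 := h1.trans (Nat.mul_le_mul h2 h3)
    have h5 := H.card_mul_index
    have h6 := Nat.mul_le_mul (not_lt.1 hle) h4
    omega
  obtain ⟨x, hxH, hx1, hxe⟩ : ∃ x ∈ H, x ≠ 1 ∧ x ≠ e := by
    by_contra h
    push Not at h
    haveI := Fintype.ofFinite H
    have : Nat.card H ≤ 2 := by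
      rw [Nat.card_eq_fintype_card, ← Finset.card_univ,
        ← Finset.card_map ⟨Subtype.val, Subtype.val_injective⟩]
      refine (Finset.card_le_card (t := {1, e}) fun u hu => ?_).trans (Finset.card_le_two)
      obtain ⟨⟨u, hu'⟩, -, rfl⟩ := Finset.mem_map.1 hu
      rw [Finset.mem_insert, Finset.mem_singleton]
      exact (em (u = 1)).imp id (h u hu')
    omega
  have hxa : Commute x a := mem_centralizer_singleton_iff.1 hxH.1
  have hxb : Commute x b := mem_centralizer_singleton_iff.1 hxH.2
  obtain ⟨y, hy⟩ := hex x hx1 hxe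
  obtain ⟨y1, hy1a, hy1x⟩ : ∃ y1, Commute y1 a ∧ ¬ Commute x y1 := by
    by_cases hya : Commute y a
    · exact ⟨y, hya, hy⟩
    · refine ⟨y * b, commute_mul hee hec (hne fun h => hya h.symm) (hne hb), fun h => hy ?_⟩
      simpa using h.mul_right (hxb.inv_right)
  exact ⟨x, y1, hxa, hy1a, hne hy1x⟩

/-- **The bound.** -/
theorem card_dvd_two (hP : IsPGroup 2 P) (B : Subgroup P) [B.Normal] {g : P} (hg : g ∉ B)
    (hg2 : g * g ∈ B) (hgc : ∀ y, g⁻¹ * (y * g * y⁻¹) ∈ B)
    (hQ : ∀ x y : P, ⁅x, y⁆ ∈ B ∨ g⁻¹ * ⁅x, y⁆ ∈ B)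
    (hZ : ∀ a : P, (∀ y : P, ⁅a, y⁆ ∈ B) → a ∈ B ∨ g⁻¹ * a ∈ B) (hidx : 8 ≤ B.index)
    (hC : Nat.card (centralizer ({g} : Set P)) ≤ B.index) : Nat.card B ∣ 2 := by
  classical
  haveI : Group.IsNilpotent P := hP.isNilpotent
  have hclass : ∀ b ∈ B, ∃ y, y * g * y⁻¹ = g * b := fun b hb => class_eq_coset hgc hC hb
  set π := QuotientGroup.mk' B with hπ
  have hπ1 : ∀ {x : P}, π x = 1 ↔ x ∈ B := fun {x} => QuotientGroup.eq_one_iff x
  set e := π g with he'
  have he : e ≠ 1 := fun h => hg (hπ1.1 h)
  have hee : e * e = 1 := by rw [he', ← map_mul]; exact hπ1.2 hg2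
  have hec : ∀ a, Commute e a := by
    intro a
    obtain ⟨y, rfl⟩ := QuotientGroup.mk'_surjective B a
    have h1 : e⁻¹ * (π y * e * (π y)⁻¹) = 1 := by
      rw [he', ← map_inv, ← map_inv, ← map_mul, ← map_mul, ← map_mul]; exact hπ1.2 (hgc y)
    exact (mul_inv_eq_iff_eq_mul.1 (inv_mul_eq_one.1 h1).symm).symm
  have hQ' : ∀ u v : P ⧸ B, v * u * v⁻¹ = u ∨ v * u * v⁻¹ = u * e := by
    intro u v
    obtain ⟨x, rfl⟩ := QuotientGroup.mk'_surjective B u
    obtain ⟨y, rfl⟩ := QuotientGroup.mk'_surjective B v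
    rcases hQ y x with h | h
    · left
      have h1 := hπ1.2 h
      rw [map_commutatorElement, commutatorElement_eq_one_iff_commute] at h1
      exact mul_inv_eq_iff_eq_mul.2 h1
    · right
      have h1 : π ⁅y, x⁆ = e := (inv_mul_eq_one.1 (by
        rw [he', ← map_inv, ← map_mul]; exact hπ1.2 h)).symm
      rw [map_commutatorElement, commutatorElement_def] at h1
      calc π y * π x * (π y)⁻¹ = (π y * π x * (π y)⁻¹ * (π x)⁻¹) * π x := by group
        _ = π x * e := by rw [h1]; exact (hec _).eq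
  have hZ' : ∀ u : P ⧸ B, (∀ v, Commute u v) → u = 1 ∨ u = e := by
    intro u hu
    obtain ⟨x, rfl⟩ := QuotientGroup.mk'_surjective B u
    refine (hZ x fun y => hπ1.1 ?_).imp hπ1.2 fun h => ?_
    · rw [map_commutatorElement, commutatorElement_eq_one_iff_commute]
      exact hu _
    · exact (inv_mul_eq_one.1 (by rw [he', ← map_inv, ← map_mul]; exact hπ1.2 h)).symm
  set D := ⁅(⊤ : Subgroup P), (⊤ : Subgroup P)⁆ with hD
  set B4 := ⁅B, (⊤ : Subgroup P)⁆ with hB4
  haveI : B4.Normal := by rw [hB4]; infer_instance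
  -- `g B` lies in the derived subgroup
  have hgD : ∀ b ∈ B, g * b ∈ D := by
    obtain ⟨x, y, hxy⟩ : ∃ x y, ⁅x, y⁆ ∉ B := by
      by_contra h
      push Not at h
      have hsub : ∀ u : P ⧸ B, u = 1 ∨ u = e := fun u => by
        obtain ⟨x, rfl⟩ := QuotientGroup.mk'_surjective B u
        refine (hZ x (h x)).imp hπ1.2 fun h => ?_
        exact (inv_mul_eq_one.1 (by rw [he', ← map_inv, ← map_mul]; exact hπ1.2 h)).symm
      haveI := Fintype.ofFinite (P ⧸ B)
      have : Nat.card (P ⧸ B) ≤ 2 := by
        rw [Nat.card_eq_fintype_card, ← Finset.card_univ]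
        refine (Finset.card_le_card (t := {1, e}) fun u _ => ?_).trans (Finset.card_le_two)
        rw [Finset.mem_insert, Finset.mem_singleton]
        exact hsub u
      rw [← index_eq_card] at this
      omega
    have hmem : ⁅x, y⁆ ∈ D := commutator_mem_commutator (mem_top _) (mem_top _)
    intro b hb
    obtain ⟨c, hc⟩ := hclass _ ((hQ x y).resolve_left hxy)
    obtain ⟨d, hd⟩ := hclass b hb
    rw [mul_inv_cancel_left] at hc
    rw [← hd, show d * g * d⁻¹ = (d * c⁻¹) * ⁅x, y⁆ * (d * c⁻¹)⁻¹ by rw [← hc]; group]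
    exact (inferInstance : D.Normal).conj_mem _ hmem _
  have hDg : g ∈ D := by simpa using hgD 1 (one_mem B)
  by_cases hbig : 8 < B.index
  · -- all of `g B` is central modulo `B4`
    have hgcen : ∀ a : P, ⁅g, a⁆ ∈ B4 := by
      intro a
      obtain ⟨x, y, hxa, hya, hxy⟩ := exists_pair hee hec hQ' hZ'
        (by rw [← index_eq_card]; exact hbig) (π a)
      obtain ⟨x, rfl⟩ := QuotientGroup.mk'_surjective B x
      obtain ⟨y, rfl⟩ := QuotientGroup.mk'_surjective B y
      set τ := QuotientGroup.mk' B4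
      have hBc : ∀ b ∈ B, ∀ q : P ⧸ B4, Commute (τ b) q := by
        intro b hb q
        obtain ⟨z, rfl⟩ := QuotientGroup.mk'_surjective B4 q
        rw [← commutatorElement_eq_one_iff_commute, ← map_commutatorElement]
        exact (QuotientGroup.eq_one_iff _).2 (commutator_mem_commutator hb (mem_top z))
      have hmove : ∀ z, Commute (π z) (π a) → ∃ c ∈ B, a * z * a⁻¹ = z * c := fun z hz => by
        refine ⟨z⁻¹ * (a * z * a⁻¹), hπ1.1 ?_, by group⟩
        rw [map_mul, map_mul, map_mul, map_inv, map_inv,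
          show π a * π z = π z * π a from hz.eq.symm]
        group
      obtain ⟨c, hc, hc'⟩ := hmove x hxa
      obtain ⟨d, hd, hd'⟩ := hmove y hya
      have hfix : Commute (τ a) (τ ⁅y, x⁆) := by
        refine mul_inv_eq_iff_eq_mul.1 ?_
        rw [← map_inv, ← map_mul, ← map_mul,
          show a * ⁅y, x⁆ * a⁻¹ = ⁅a * y * a⁻¹, a * x * a⁻¹⁆ by
            simp only [commutatorElement_def]; group,
          hc', hd', map_commutatorElement, map_commutatorElement, map_mul, map_mul]
        have h1 := hBc c hc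
        have h2 := hBc d hd
        simp only [commutatorElement_def, mul_inv_rev]
        calc τ y * τ d * (τ x * τ c) * ((τ d)⁻¹ * (τ y)⁻¹) * ((τ c)⁻¹ * (τ x)⁻¹)
            = τ y * (τ d * (τ x * τ c) * (τ d)⁻¹) * ((τ y)⁻¹ * (τ c)⁻¹) * (τ x)⁻¹ := by group
          _ = τ y * (τ x * τ c) * ((τ c)⁻¹ * (τ y)⁻¹) * (τ x)⁻¹ := by
              rw [(h2 _).eq, mul_inv_cancel_right, ((h1 (τ y)⁻¹).inv_left).eq]
          _ = τ y * τ x * (τ y)⁻¹ * (τ x)⁻¹ := by group
      obtain ⟨b, hb, hgb⟩ : ∃ b ∈ B, ⁅y, x⁆ = g * b := by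
        refine ⟨g⁻¹ * ⁅y, x⁆, hπ1.1 ?_, by group⟩
        rw [map_mul, map_inv, map_commutatorElement, commutatorElement_def, hxy,
          ← (hec (π x)).eq, he']
        group
      have h2 : Commute (τ a) (τ g) := by
        have := hfix.mul_right ((hBc b hb (τ a)).symm.inv_right)
        rwa [hgb, map_mul, mul_inv_cancel_right] at this
      refine (QuotientGroup.eq_one_iff _).1 ?_
      show τ _ = 1
      rw [map_commutatorElement, commutatorElement_eq_one_iff_commute]
      exact h2.symm
    have hle : B ≤ B4 := by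
      intro b hb
      obtain ⟨y, hy⟩ := hclass b hb
      have h1 : b = g⁻¹ * (⁅g, y⁆)⁻¹ * g := by
        rw [show b = g⁻¹ * (g * b) by group, ← hy, commutatorElement_def]; group
      rw [h1]
      simpa using (inferInstance : B4.Normal).conj_mem _ (inv_mem (hgcen y)) g⁻¹
    have hB : B = ⊥ := by
      by_contra hB
      exact HallClasses.Camina.commutator_top_ne hB
        (le_antisymm (commutator_le_left _ _) hle)
    rw [hB, card_bot]
    exact one_dvd _
  · have h8 : B.index = 8 := by omega
    by_cases hB : B = ⊥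
    · rw [hB, card_bot]; exact one_dvd _
    -- `D` centralises a subgroup of order four inside `B ∪ g B`
    set R := B ⊔ zpowers g with hR
    haveI hRn : R.Normal := by
      refine ⟨fun r hr y => ?_⟩
      have h1 : (zpowers g).map (MulAut.conj y).toMonoidHom ≤ R := by
        rw [MonoidHom.map_zpowers, zpowers_le]
        show y * g * y⁻¹ ∈ R
        rw [show y * g * y⁻¹ = g * (g⁻¹ * (y * g * y⁻¹)) by group]
        exact mul_mem (mem_sup_right (mem_zpowers g)) (mem_sup_left (hgc y))
      have h2 : R.map (MulAut.conj y).toMonoidHom ≤ R := by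
        rw [hR, Subgroup.map_sup]
        refine sup_le ?_ h1
        rintro _ ⟨b, hb, rfl⟩
        exact mem_sup_left ((inferInstance : B.Normal).conj_mem b hb y)
      exact h2 (mem_map_of_mem _ hr)
    have hRD : R ≤ D := by
      refine sup_le (fun b hb => ?_) (zpowers_le.2 hDg)
      simpa using mul_mem (inv_mem hDg) (hgD b hb)
    have hRB : ∀ r ∈ R, r ∈ B ∨ g⁻¹ * r ∈ B := by
      intro r hr
      obtain ⟨b, hb, _, ⟨i, rfl⟩, rfl⟩ := mem_sup_of_normal_left.1 hr
      have h1 : π (b * g ^ i) = e ^ i := by rw [map_mul, hπ1.2 hb, one_mul, map_zpow]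
      rcases Int.even_or_odd' i with ⟨j, rfl | rfl⟩
      · left
        refine hπ1.1 ?_
        rw [h1, zpow_mul, zpow_two, hee, one_zpow]
      · right
        refine hπ1.1 ?_
        rw [map_mul, h1, map_inv, zpow_add_one, zpow_mul, zpow_two, hee, one_zpow, one_mul,
          inv_mul_cancel]
    haveI := Fact.mk Nat.prime_two
    have hstep : ∀ {X : Type u} [Group X] [Finite X], IsPGroup 2 X → ∀ N : Subgroup X, N.Normal →
        N ≠ ⊥ → ∃ z ∈ N, z ∈ center X ∧ z * z = 1 ∧ z ≠ 1 := by
      intro X _ _ hX N hNn hN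
      haveI := hNn
      haveI : Group.IsNilpotent X := hX.isNilpotent
      have h1 : N ⊓ center X ≠ ⊥ := CfsgLib.PSolvable.inf_center_ne_bot hN
      obtain ⟨i, hi⟩ := IsPGroup.iff_card.1 (hX.to_subgroup (N ⊓ center X))
      have hi0 : i ≠ 0 := fun h0 => h1 (Subgroup.card_eq_one.1 (by rw [hi, h0, pow_zero]))
      obtain ⟨x, hx⟩ := exists_prime_orderOf_dvd_card' (G := (N ⊓ center X : Subgroup X)) 2
        (hi ▸ dvd_pow_self 2 hi0)
      rw [← Subgroup.orderOf_coe] at hx
      refine ⟨x, x.2.1, x.2.2, ?_, fun h => by rw [h, orderOf_one] at hx; omega⟩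
      rw [← sq, ← hx, pow_orderOf_eq_one]
    obtain ⟨z, hzB, hzc, hzz, hz1⟩ := hstep hP B inferInstance hB
    haveI hZn : (zpowers z).Normal := ⟨fun w hw y => by
      obtain ⟨i, rfl⟩ := hw
      show y * z ^ i * y⁻¹ ∈ zpowers z
      rw [mem_center_iff.1 (zpow_mem hzc i) y, mul_inv_cancel_right]
      exact zpow_mem (mem_zpowers z) i⟩
    set σ := QuotientGroup.mk' (zpowers z)
    obtain ⟨q, hqR, hqc, hqq, hq1⟩ := hstep (hP.of_surjective σ (QuotientGroup.mk'_surjective _))
      (R.map σ) (hRn.map _ (QuotientGroup.mk'_surjective _)) (fun h => hg (by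
        rw [Subgroup.map_eq_bot_iff, QuotientGroup.ker_mk'] at h
        exact zpowers_le.2 hzB (h (mem_sup_right (mem_zpowers g)))))
    obtain ⟨r, hrR, rfl⟩ := hqR
    have hrz : r ∉ zpowers z := fun h => hq1 ((QuotientGroup.eq_one_iff r).2 h)
    have hrconj : ∀ y, ∃ w ∈ zpowers z, y * r * y⁻¹ = r * w := fun y => by
      refine ⟨r⁻¹ * (y * r * y⁻¹), (QuotientGroup.eq_one_iff _).1 ?_, by group⟩
      show σ _ = 1
      rw [map_mul, map_mul, map_mul, map_inv, map_inv, mem_center_iff.1 hqc (σ y)]
      group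
    have hcomm2 : ∀ u v : P, u * v * r * (u * v)⁻¹ = v * u * r * (v * u)⁻¹ := by
      intro u v
      obtain ⟨w, hw, hu⟩ := hrconj u
      obtain ⟨w', hw', hv⟩ := hrconj v
      have hwc := mem_center_iff.1 ((zpowers_le.2 hzc) hw)
      have hwc' := mem_center_iff.1 ((zpowers_le.2 hzc) hw')
      calc u * v * r * (u * v)⁻¹ = u * (v * r * v⁻¹) * u⁻¹ := by group
        _ = (u * r * u⁻¹) * (u * w' * u⁻¹) := by rw [hv]; group
        _ = r * (w * w') := by rw [hu, hwc' u, mul_inv_cancel_right, mul_assoc]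
        _ = r * (w' * w) := by rw [hwc w']
        _ = (v * r * v⁻¹) * (v * w * v⁻¹) := by rw [hv, hwc v, mul_inv_cancel_right, mul_assoc]
        _ = v * (u * r * u⁻¹) * v⁻¹ := by rw [hu]; group
        _ = v * u * r * (v * u)⁻¹ := by group
    have hrD : D ≤ centralizer {r} := commutator_le.2 fun u _ v _ => by
      refine mem_centralizer_singleton_iff.2 ?_
      calc ⁅u, v⁆ * r = u * v * (u⁻¹ * v⁻¹ * r * (u⁻¹ * v⁻¹)⁻¹) * (u⁻¹ * v⁻¹) := by
            rw [commutatorElement_def]; group
        _ = u * v * (v⁻¹ * u⁻¹ * r * (v⁻¹ * u⁻¹)⁻¹) * (u⁻¹ * v⁻¹) := by rw [hcomm2]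
        _ = r * ⁅u, v⁆ := by rw [commutatorElement_def]; group
    -- a square root of `g`
    obtain ⟨a, haR, hag⟩ : ∃ a, a ∉ R ∧ Commute a g := by
      obtain ⟨x, hx⟩ : ∃ x, x * x ∉ B := by
        by_contra h
        push Not at h
        have hab : ∀ u v : P ⧸ B, Commute u v := by
          intro u v
          have h2 : ∀ w : P ⧸ B, w * w = 1 := fun w => by
            obtain ⟨x, rfl⟩ := QuotientGroup.mk'_surjective B w
            rw [← map_mul]; exact hπ1.2 (h x)
          have := h2 (u * v)
          calc u * v = (u * v)⁻¹ := eq_inv_of_mul_eq_one_left this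
            _ = v⁻¹ * u⁻¹ := mul_inv_rev u v
            _ = v * u := by rw [inv_eq_of_mul_eq_one_left (h2 v), inv_eq_of_mul_eq_one_left (h2 u)]
        haveI := Fintype.ofFinite (P ⧸ B)
        have : Nat.card (P ⧸ B) ≤ 2 := by
          rw [Nat.card_eq_fintype_card, ← Finset.card_univ]
          refine (Finset.card_le_card (t := {1, e}) fun u _ => ?_).trans (Finset.card_le_two)
          rw [Finset.mem_insert, Finset.mem_singleton]
          exact hZ' u (hab u)
        rw [← index_eq_card] at this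
        omega
      have hxx : g⁻¹ * (x * x) ∈ B := by
        have hcen : ∀ v, Commute (π x * π x) v := fun v => by
          refine (mul_inv_eq_iff_eq_mul.1 ?_).symm
          rcases hQ' (π x) v with h | h
          · calc v * (π x * π x) * v⁻¹ = (v * π x * v⁻¹) * (v * π x * v⁻¹) := by group
              _ = π x * π x := by rw [h]
          · calc v * (π x * π x) * v⁻¹ = (v * π x * v⁻¹) * (v * π x * v⁻¹) := by group
              _ = π x * (e * π x) * e := by rw [h]; group
              _ = π x * π x := by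
                  rw [(hec _).eq, mul_assoc, mul_assoc, hee, mul_one]
        rcases hZ' _ hcen with h | h
        · exact absurd (hπ1.1 (by rw [map_mul]; exact h)) hx
        · refine hπ1.1 ?_
          rw [map_mul, map_inv, map_mul, h, inv_mul_cancel]
      obtain ⟨y, hy⟩ := hclass _ hxx
      rw [mul_inv_cancel_left] at hy
      have hsq : (y⁻¹ * x * y) * (y⁻¹ * x * y) = g := by
        calc (y⁻¹ * x * y) * (y⁻¹ * x * y) = y⁻¹ * (x * x) * y := by group
          _ = g := by rw [← hy]; group
      refine ⟨y⁻¹ * x * y, fun hm => hg ?_, ?_⟩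
      · rw [← hsq]
        rcases hRB _ hm with h | h
        · exact mul_mem h h
        · refine hπ1.1 ?_
          have h1 : π (y⁻¹ * x * y) = e := (inv_mul_eq_one.1 (by
            rw [he', ← map_inv, ← map_mul]; exact hπ1.2 h)).symm
          rw [map_mul, h1, hee]
      · rw [← hsq]
        exact Commute.mul_right (Commute.refl _) (Commute.refl _)
    set CR := R ⊓ centralizer ({g} : Set P) with hCR
    have hCR4 : Nat.card CR ≤ 4 := by
      obtain ⟨c, hc⟩ := card_dvd_of_le (inf_le_right : CR ≤ centralizer ({g} : Set P))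
      have hne : CR ≠ centralizer ({g} : Set P) := fun h =>
        haR ((h.ge (mem_centralizer_singleton_iff.2 hag)).1)
      have hc2 : 2 ≤ c := by
        by_contra hlt
        refine hne (eq_of_le_of_card_ge inf_le_right ?_)
        rw [hc]
        exact (Nat.mul_le_mul_left _ (Nat.le_of_lt_succ (not_le.1 hlt))).trans (mul_one _).le
      have h1 : Nat.card CR * 2 ≤ 8 := (Nat.mul_le_mul_left _ hc2).trans (hc ▸ h8 ▸ hC)
      omega
    have hgR : g ∈ R := mem_sup_right (mem_zpowers g)
    have hzR : z ∈ R := mem_sup_left hzB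
    have hrcomm : ∀ d ∈ R, Commute r d := fun d hd =>
      (show Commute d r from mem_centralizer_singleton_iff.1 (hrD (hRD hd))).symm
    have hzcomm : ∀ d : P, Commute z d := fun d => (mem_center_iff.1 hzc d).symm
    have hcz : z ∈ CR := ⟨hzR, mem_centralizer_singleton_iff.2 (hzcomm g)⟩
    have hcr : r ∈ CR := ⟨hrR, mem_centralizer_singleton_iff.2 (hrcomm g hgR)⟩
    have hall : ∀ u ∈ CR, u = 1 ∨ u = z ∨ u = r ∨ u = r * z := by
      intro u hu
      haveI := Fintype.ofFinite CR
      by_contra hno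
      push Not at hno
      obtain ⟨n1, nz, nr, nrz⟩ := hno
      have hd1 : r ≠ 1 := fun h => hrz (h ▸ one_mem _)
      have hd2 : r ≠ z := fun h => hrz (h ▸ mem_zpowers z)
      have hd3 : r * z ≠ 1 := fun h => hrz (by
        rw [eq_inv_of_mul_eq_one_left h]; exact inv_mem (mem_zpowers z))
      have hd4 : r * z ≠ z := fun h => hd1 (mul_right_cancel (h.trans (one_mul z).symm))
      have hd5 : r * z ≠ r := fun h => hz1 (mul_left_cancel (h.trans (mul_one r).symm))
      have hsub : ({1, z, r, r * z, u} : Finset P) ⊆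
          (Finset.univ : Finset CR).map ⟨Subtype.val, Subtype.val_injective⟩ := by
        intro w hw
        simp only [Finset.mem_insert, Finset.mem_singleton] at hw
        refine Finset.mem_map.2 ⟨⟨w, ?_⟩, Finset.mem_univ _, rfl⟩
        rcases hw with rfl | rfl | rfl | rfl | rfl
        exacts [one_mem _, hcz, hcr, mul_mem hcr hcz, hu]
      have hle := Finset.card_le_card hsub
      rw [Finset.card_map, Finset.card_univ, ← Nat.card_eq_fintype_card] at hle
      simp [hd1.symm, hd2.symm, hd3.symm, hd4.symm, hd5.symm, hz1.symm, Ne.symm n1, Ne.symm nz,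
        Ne.symm nr, Ne.symm nrz] at hle
      rw [← Nat.card_eq_fintype_card] at hle
      omega
    have hRle : R ≤ CR := by
      intro d hd
      refine ⟨hd, mem_centralizer_singleton_iff.2 ?_⟩
      rcases hall g ⟨hgR, mem_centralizer_singleton_iff.2 rfl⟩ with h | h | h | h
      · exact absurd (h ▸ one_mem B) hg
      · exact absurd (h ▸ hzB) hg
      · exact h ▸ (hrcomm d hd).symm.eq
      · exact h ▸ ((hrcomm d hd).mul_left (hzcomm d)).symm.eq
    obtain ⟨c, hc⟩ := card_dvd_of_le (le_sup_left : B ≤ R)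
    have hc2 : 2 ≤ c := by
      by_contra hlt
      have : B = R := eq_of_le_of_card_ge le_sup_left (by
        rw [hc]
        exact (Nat.mul_le_mul_left _ (Nat.le_of_lt_succ (not_le.1 hlt))).trans (mul_one _).le)
      exact hg (this.ge hgR)
    have h2 : Nat.card B * 2 ≤ 4 :=
      ((Nat.mul_le_mul_left _ hc2).trans (hc ▸ card_le_of_le hRle)).trans hCR4
    have h3 : Nat.card B ≤ 2 := by omega
    obtain ⟨i, hi⟩ := IsPGroup.iff_card.1 (hP.to_subgroup B)
    rw [hi] at h3 ⊢
    exact (pow_dvd_pow 2 ((Nat.pow_le_pow_iff_right (by norm_num)).1 (h3.trans (pow_one 2).ge))).trans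
      (pow_one 2).dvd

end CfsgLib.SeenOnce.TwoLayers
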