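import Cfsg.Agent.Lib.SeenOnce.FPFFour
import Cfsg.Agent.Lib.SeenOnce.FPFAbelian
import Cfsg.Agent.Lib.SeenOnce.PLayers
import Cfsg.Agent.Lib.SeenOnce.TwoLayers
import Cfsg.Agent.Lib.Transfer.Tate
import Cfsg.Agent.Lib.PGroups.Frattini
import Cfsg.Agent.Lib.NormalPComplement.FixedPointFree

/-!
# Solvability when `L ∖ K` is a single class with small centralisers

`L` contains the derived group and `L/K` is elementary abelian.  Either `|C(x)| = |L/K|` for
`x ∈ L ∖ K`, or `|L/K| = 2` and `|C(g)| = |G/K|` with `G/K` extraspecial.  Then `K` is solvable.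
-/

set_option autoImplicit false
set_option linter.style.haveILetI false
set_option linter.unusedSectionVars false

namespace CfsgLib.SeenOnce.Solvable

open Subgroup
open scoped commutatorElement

variable {G : Type*} [Group G] [Finite G]

/-- Transfer: a normal `p'`-subgroup whose solvability makes `K` solvable. -/
theorem exists_core {p : ℕ} [Fact p.Prime] (K : Subgroup G) [K.Normal] (P : Sylow p G)
    (hXK : IsPGroup p (G ⧸ K))
    (hinf : K.subgroupOf (P : Subgroup G) ≤ commutator (P : Subgroup G)) :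
    ∃ R : Subgroup G, R.Normal ∧ R ≤ K ∧ ¬ p ∣ Nat.card R ∧
      (Group.IsSolvable R → Group.IsSolvable K) := by
  have hres : (P : Subgroup G) ⊓ Cfsg.pResidual p G ≤
      (frattini (P : Subgroup G)).map (P : Subgroup G).subtype := fun x hx =>
    ⟨⟨x, hx.1⟩, CfsgLib.PGroups.commutator_le_frattini P.2 (hinf
      (mem_subgroupOf.2 (CfsgLib.Transfer.pResidual_le_of_isPGroup hXK hx.2))), rfl⟩
  obtain ⟨P₂, N, hNn, hNc⟩ := CfsgLib.Transfer.hasNormalPComplement_of_inf_le_frattini P hres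
  haveI := hNn
  have hNp : ¬ p ∣ Nat.card N := by
    rw [← hNc.index_eq_card]
    exact P₂.not_dvd_index
  have hNK : N ≤ K := fun x hx => (QuotientGroup.eq_one_iff x).1 (orderOf_eq_one_iff.1 (by
    obtain ⟨j, hj⟩ := IsPGroup.iff_orderOf.1 hXK (x : G ⧸ K)
    exact Nat.eq_one_of_dvd_coprimes (((Fact.out : p.Prime).coprime_iff_not_dvd.2 hNp).pow_left j)
      (hj ▸ dvd_rfl) ((orderOf_map_dvd (QuotientGroup.mk' K) x).trans (N.orderOf_dvd_natCard hx))))
  refine ⟨N, hNn, hNK, hNp, fun hs => ?_⟩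
  have hq : IsPGroup p (G ⧸ N) := by
    obtain ⟨i, hi⟩ := IsPGroup.iff_card.1 P₂.2
    refine IsPGroup.of_card (n := i) ?_
    rw [← index_eq_card, hNc.symm.index_eq_card, hi]
  haveI := hq.isNilpotent
  haveI := hs
  exact Group.isSolvable_of_ker_le_range (inclusion hNK)
    ((QuotientGroup.mk' N).comp K.subtype) fun x hx =>
      ⟨⟨x, (QuotientGroup.eq_one_iff _).1 hx⟩, rfl⟩

/-- A Sylow subgroup covers a `p`-quotient. -/
theorem sup_sylow_eq_top {p : ℕ} [Fact p.Prime] {K : Subgroup G} [K.Normal] (P : Sylow p G)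
    (hXK : IsPGroup p (G ⧸ K)) : (P : Subgroup G) ⊔ K = ⊤ := by
  obtain ⟨i, hi⟩ := IsPGroup.iff_card.1 hXK
  rw [← index_eq_card] at hi
  obtain ⟨j, -, hj⟩ := (Nat.dvd_prime_pow (Fact.out : p.Prime)).1
    (hi ▸ index_dvd_of_le (le_sup_right : K ≤ (P : Subgroup G) ⊔ K))
  refine index_eq_one.1 ?_
  rw [hj]
  rcases j with _ | j
  · simp
  · exact absurd ((dvd_pow_self p j.succ_ne_zero).trans
      (hj ▸ index_dvd_of_le (le_sup_left : (P : Subgroup G) ≤ (P : Subgroup G) ⊔ K))) P.not_dvd_index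

/-- Conjugation by an element of small centraliser reaches the whole coset. -/
theorem le_commutator_of_class {X : Type*} [Group X] [Finite X] {B : Subgroup X} [B.Normal] {x : X}
    (hB : ∀ y, x⁻¹ * (y * x * y⁻¹) ∈ B)
    (hC : Nat.card (centralizer ({x} : Set X)) ≤ B.index) : B ≤ commutator X := fun b hb => by
  obtain ⟨y, hy⟩ := TwoLayers.class_eq_coset hB hC hb
  have h1 : b = ⁅x⁻¹, y⁆ := by
    rw [commutatorElement_def, inv_inv]
    calc b = x⁻¹ * (x * b) := by group
      _ = _ := by rw [← hy]; group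
  rw [h1]
  exact commutator_mem_commutator (mem_top _) (mem_top _)

/-- **Centralisers of order `|L/K|`.** -/
theorem isSolvable_of_small_centralizer {p k : ℕ} [Fact p.Prime] (L K : Subgroup G) [L.Normal]
    [K.Normal] (hk : 0 < k) (hidx : K.relIndex L = p ^ k)
    (hLK : ∀ x ∈ L, ∀ y ∈ L, ⁅x, y⁆ ∈ K) (hexp : ∀ x ∈ L, x ^ p ∈ K) (hKL : K ≤ L)
    (hC : ∀ x ∈ L, x ∉ K → Nat.card (centralizer ({x} : Set G)) = p ^ k)
    (htrans : ∀ x ∈ L, x ∉ K → ∀ y ∈ L, y ∉ K → IsConj x y)
    (hGL : ∀ a b : G, ⁅a, b⁆ ∈ L) : Group.IsSolvable K := by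
  classical
  have hp : p.Prime := Fact.out
  obtain ⟨P⟩ := (inferInstance : Nonempty (Sylow p L))
  set Pg := (P : Subgroup L).map L.subtype with hPg
  have hPL : Pg ≤ L := map_subtype_le _
  have hPgp : IsPGroup p Pg := P.2.map _
  set K' := K.subgroupOf L with hK'
  have hK'p : IsPGroup p (L ⧸ K') := IsPGroup.of_card (n := k) (by rw [← index_eq_card]; exact hidx)
  have hsup : (P : Subgroup L) ⊔ K' = ⊤ := sup_sylow_eq_top P hK'p
  set B := K.subgroupOf Pg with hB
  have hBidx : B.index = p ^ k := by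
    show K.relIndex Pg = p ^ k
    rw [← hidx]
    refine (relIndex_sup_right (H := Pg) (K := K)).symm.trans ?_
    congr 1
    have := congrArg (Subgroup.map L.subtype) hsup
    rw [Subgroup.map_sup, ← MonoidHom.range_eq_map, range_subtype, hK', subgroupOf_map_subtype,
      inf_of_le_left hKL] at this
    exact this
  have hmemB : ∀ x : Pg, x ∈ B ↔ (x : G) ∈ K := fun x => mem_subgroupOf
  have hconjB : ∀ x y : Pg, x⁻¹ * (y * x * y⁻¹) ∈ B := fun x y => (hmemB _).2 (by
    have := hLK (x : G)⁻¹ (inv_mem (hPL x.2)) y (hPL y.2)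
    simpa [commutatorElement_def, mul_assoc] using this)
  have hCP : ∀ x : Pg, x ∉ B → Nat.card (centralizer ({x} : Set Pg)) ≤ B.index := by
    intro x hx
    rw [hBidx, ← hC x (hPL x.2) (fun h => hx ((hmemB x).2 h))]
    refine Nat.card_le_card_of_injective (fun c => ⟨((c : Pg) : G), mem_centralizer_singleton_iff.2
      (congrArg Subtype.val (mem_centralizer_singleton_iff.1 c.2))⟩) fun a b h => ?_
    exact Subtype.ext (Subtype.ext (congrArg
      (fun z : centralizer ({(x : G)} : Set G) => (z : G)) h))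
  obtain ⟨x0, hx0⟩ : ∃ x0 : Pg, x0 ∉ B := by
    by_contra h
    push Not at h
    rw [show B = ⊤ from eq_top_iff.2 fun x _ => h x, index_top] at hBidx
    exact absurd hBidx.symm (Nat.one_lt_pow hk.ne' hp.one_lt).ne'
  by_cases hk1 : k = 1
  · -- Thompson
    subst hk1
    set x := (x0 : G)
    have hxK : x ∉ K := fun h => hx0 ((hmemB x0).2 h)
    have hcard := hC x (hPL x0.2) hxK
    rw [pow_one] at hcard
    have hxC : x ∈ centralizer ({x} : Set G) := mem_centralizer_singleton_iff.2 rfl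
    have hx1 : x ≠ 1 := fun h => hxK (h ▸ one_mem K)
    have hord : orderOf x = p :=
      ((Nat.dvd_prime hp).1 (hcard ▸ (centralizer ({x} : Set G)).orderOf_dvd_natCard hxC)).resolve_left
        fun h => hx1 (orderOf_eq_one_iff.1 h)
    haveI : Group.IsNilpotent K := by
      refine CfsgLib.NormalPComplement.isNilpotent_of_fpf_element
        (le_normalizer_of_normal (K := ⊤) (mem_top x)) hp hord fun n hn hc => ?_
      have hCz : zpowers x = centralizer ({x} : Set G) :=
        eq_of_le_of_card_ge (zpowers_le.2 hxC) (by rw [Nat.card_zpowers, hord, hcard])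
      have hnC : n ∈ zpowers x := hCz ▸ mem_centralizer_singleton_iff.2 hc.symm
      by_contra hn1
      have h1 : zpowers n = zpowers x := eq_of_le_of_card_ge (zpowers_le.2 hnC) (by
        rw [Nat.card_zpowers, Nat.card_zpowers, hord]
        refine le_of_eq ((((Nat.dvd_prime hp).1 ?_).resolve_left
          fun h => hn1 (orderOf_eq_one_iff.1 h))).symm
        rw [← hord, ← Nat.card_zpowers x]
        exact (zpowers x).orderOf_dvd_natCard hnC)
      exact hxK (zpowers_le.2 hn (h1 ▸ mem_zpowers x))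
    infer_instance
  -- the core
  have hinf : K'.subgroupOf (P : Subgroup L) ≤ commutator (P : Subgroup L) := by
    intro z hz
    let e : (P : Subgroup L) ≃* Pg := (P : Subgroup L).equivMapOfInjective _ L.subtype_injective
    have h1 : e z ∈ commutator Pg :=
      le_commutator_of_class (hconjB x0) (hCP x0 hx0) ((hmemB _).2 (mem_subgroupOf.1 hz))
    have h2 := mem_map_of_mem e.symm.toMonoidHom h1
    rw [MulEquiv.coe_toMonoidHom, e.symm_apply_apply, _root_.commutator_def,
      Subgroup.map_commutator] at h2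
    exact commutator_mono le_top le_top h2
  obtain ⟨R', hR'n, hR'K, hR'p, hsolv⟩ := exists_core K' P hK'p hinf
  suffices hR : Group.IsSolvable R' by
    haveI := hsolv hR
    exact Group.isSolvable_of_isSolvable_injective
      (f := (subgroupOfEquivOfLe hKL).symm.toMonoidHom) (MulEquiv.injective _)
  set R := R'.map L.subtype with hR
  have hRK : R ≤ K := fun r ⟨r', hr', he⟩ => he ▸ mem_subgroupOf.1 (hR'K hr')
  have hRcard : Nat.card R = Nat.card R' := card_map_of_injective L.subtype_injective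
  have hRp : ¬ p ∣ Nat.card R := hRcard ▸ hR'p
  have hPR : Pg ≤ Subgroup.normalizer (R : Set G) := fun x hx => by
    refine CfsgLib.CoprimeAction.mem_normalizer_of_conj_mem fun r hr => ?_
    obtain ⟨r', hr', rfl⟩ := hr
    exact ⟨⟨x, hPL hx⟩ * r' * ⟨x, hPL hx⟩⁻¹, hR'n.conj_mem r' hr' _, rfl⟩
  have hfpf : ∀ x ∈ L, x ∉ K → ∀ r ∈ R, Commute x r → r = 1 := by
    intro x hxL hxK r hr hc
    have hCx : IsPGroup p (centralizer ({x} : Set G)) := IsPGroup.of_card (hC x hxL hxK)
    exact FPFAbelian.eq_one_of_mem hCx hRp (mem_centralizer_singleton_iff.2 hc.symm) hr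
  suffices hRs : Group.IsSolvable R by
    haveI := hRs
    exact Group.isSolvable_of_isSolvable_injective
      (f := (R'.equivMapOfInjective _ L.subtype_injective).toMonoidHom) (MulEquiv.injective _)
  by_cases hR1 : R = ⊥
  · rw [hR1]; infer_instance
  set π := QuotientGroup.mk' K
  have hπ1 : ∀ {w : G}, π w = 1 ↔ w ∈ K := fun {w} => QuotientGroup.eq_one_iff w
  have hline : ∀ x : Pg, x ∉ B → ∀ y, Commute x y → ∃ i : ℕ, (x ^ i)⁻¹ * y ∈ B := by
    intro x hx y hc
    by_contra hno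
    push Not at hno
    have hxy : Commute (x : G) y := congrArg Subtype.val hc
    set A := Subgroup.closure ({(x : G), (y : G)} : Set G)
    have hAP : A ≤ Pg := (Subgroup.closure_le _).2 (by
      rintro w (rfl | rfl)
      · exact x.2
      · exact y.2)
    haveI : IsMulCommutative A := Subgroup.isMulCommutative_closure fun a ha b hb => by
      rcases ha with rfl | rfl <;> rcases hb with rfl | rfl
      exacts [rfl, hxy, hxy.symm, rfl]
    refine hR1 (FPFAbelian.eq_bot (A := A) (B := A ⊓ K) (hPgp.to_le hAP) inf_le_left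
      (hAP.trans hPR) hRp (fun w hw hwB => hfpf w (hPL (hAP hw)) fun h => hwB ⟨hw, h⟩) ?_)
    intro w hw hle
    have hform : ∀ u ∈ A, ∃ i : ℤ, π u = π w ^ i := by
      intro u hu
      have h1 : π u ∈ ((zpowers w ⊔ (A ⊓ K)).map π) := mem_map_of_mem π (hle hu)
      rw [Subgroup.map_sup, show (A ⊓ K).map π = ⊥ from (Subgroup.map_eq_bot_iff _).2 (by
        rw [QuotientGroup.ker_mk']; exact inf_le_right), sup_bot_eq, MonoidHom.map_zpowers] at h1
      obtain ⟨i, hi⟩ := h1
      exact ⟨i, hi.symm⟩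
    obtain ⟨i, hi⟩ := hform x (Subgroup.subset_closure (Set.mem_insert _ _))
    obtain ⟨j, hj⟩ := hform y (Subgroup.subset_closure (Set.mem_insert_of_mem _ rfl))
    have hwp : π w ^ (p : ℤ) = 1 := by
      rw [zpow_natCast, ← map_pow]
      exact hπ1.2 (hexp w (hPL (hAP hw)))
    have hip : ¬ (p : ℤ) ∣ i := fun ⟨c, hc'⟩ => hx ((hmemB x).2 (hπ1.1 (by
      rw [hi, hc', zpow_mul, hwp, one_zpow])))
    obtain ⟨a, b, hab⟩ : IsCoprime i (p : ℤ) :=
      ((Nat.prime_iff_prime_int.1 hp).coprime_iff_not_dvd.2 hip).symm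
    have hwx : π w = π x ^ a := by
      rw [hi, ← zpow_mul, show i * a = 1 + (p : ℤ) * (-b) by linear_combination hab, zpow_add,
        zpow_mul (π w) (p : ℤ), hwp, one_zpow, mul_one, zpow_one]
    refine hno ((a * j % (p : ℤ)).toNat) ((hmemB _).2 (hπ1.1 ?_))
    have hxp : π x ^ (p : ℤ) = 1 := by
      rw [zpow_natCast, ← map_pow]
      exact hπ1.2 (hexp x (hPL x.2))
    rw [coe_mul, coe_inv, SubmonoidClass.coe_pow, map_mul, map_inv, map_pow, ← zpow_natCast,
      Int.toNat_of_nonneg (Int.emod_nonneg _ (by exact_mod_cast hp.ne_zero)), hj, hwx, ← zpow_mul,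
      inv_mul_eq_one]
    nth_rw 2 [← Int.emod_add_mul_ediv (a * j) p]
    rw [zpow_add, zpow_mul _ (p : ℤ), hxp, one_zpow, mul_one]
  set NP := Subgroup.normalizer (Pg : Set G)
  have hfrat : NP ⊔ L = ⊤ := P.normalizer_sup_eq_top
  obtain ⟨hcen, hBp⟩ := PLayers.pgroup_structure (normalizerMonoidHom Pg) (p := p) (k := k) hPgp B
    (fun a b hb => (hmemB _).2 (Normal.conj_mem inferInstance _ ((hmemB b).1 hb) (a : G)))
    hBidx hk (fun x => (hmemB _).2 (by simpa using hexp x (hPL x.2)))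
    (fun x y => (hmemB _).2 (hLK _ (hPL x.2) _ (hPL y.2)))
    (fun x hx b hb => TwoLayers.class_eq_coset (hconjB x) (hCP x hx) hb) hline
    (fun x hx y hy => by
      obtain ⟨c, hc⟩ := isConj_iff.1 (htrans x (hPL x.2) (fun h => hx ((hmemB x).2 h)) y (hPL y.2)
        (fun h => hy ((hmemB y).2 h)))
      obtain ⟨n, hn, l, hl, rfl⟩ := mem_sup_of_normal_right.1 (hfrat.ge (mem_top c))
      refine ⟨⟨n, hn⟩, (hmemB _).2 ?_⟩
      show (n * (x : G) * n⁻¹)⁻¹ * (y : G) ∈ K
      rw [← hc]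
      have h1 := (inferInstance : K.Normal).conj_mem _ (hLK _ (inv_mem (hPL x.2)) _ hl) n
      have h2 : (n * (x : G) * n⁻¹)⁻¹ * (n * l * (x : G) * (n * l)⁻¹)
          = n * ⁅(x : G)⁻¹, l⁆ * n⁻¹ := by
        rw [commutatorElement_def]; group
      rwa [h2])
    (fun a a' x => (hmemB _).2 (by
      show ((a : G) * ((a' : G) * x * (a' : G)⁻¹) * (a : G)⁻¹)⁻¹
        * ((a' : G) * ((a : G) * x * (a : G)⁻¹) * (a' : G)⁻¹) ∈ K
      set w := (a : G) * ((a' : G) * x * (a' : G)⁻¹) * (a : G)⁻¹ with hw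
      have hwL : w ∈ L := (inferInstance : L.Normal).conj_mem _
        ((inferInstance : L.Normal).conj_mem _ (hPL x.2) _) _
      rw [show (a' : G) * ((a : G) * x * (a : G)⁻¹) * (a' : G)⁻¹
          = ⁅(a' : G), (a : G)⁆ * w * ⁅(a' : G), (a : G)⁆⁻¹ by
        rw [hw]; simp only [commutatorElement_def]; group]
      have h1 := hLK _ (inv_mem hwL) _ (hGL a' a)
      simpa [commutatorElement_def, mul_assoc] using h1))
  have hbig : ∀ w ∈ Pg, ¬ Pg ≤ zpowers w ⊔ Pg ⊓ K := by
    intro w hw hle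
    have hsub : Pg.map π ≤ zpowers (π w) := by
      refine (map_mono hle).trans ?_
      rw [Subgroup.map_sup, MonoidHom.map_zpowers]
      refine sup_le le_rfl ?_
      rw [show (Pg ⊓ K).map π = ⊥ from (Subgroup.map_eq_bot_iff _).2 (by
        rw [QuotientGroup.ker_mk']; exact inf_le_right)]
      exact bot_le
    have h1 : Nat.card (Pg.map π) = p ^ k := by
      rw [← hBidx, ← relIndex_bot_left, ← relIndex_comap, MonoidHom.comap_bot,
        QuotientGroup.ker_mk']
      rfl
    have h2 := (card_le_of_le hsub)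
    rw [h1, Nat.card_zpowers] at h2
    have h3 := h2.trans (Nat.le_of_dvd hp.pos (orderOf_dvd_of_pow_eq_one
      (show π w ^ p = 1 by rw [← map_pow]; exact hπ1.2 (hexp w (hPL hw)))))
    exact absurd h3 (not_le.2 (lt_self_pow₀ hp.one_lt (by omega)))
  have hBne : B ≠ ⊥ := by
    intro hbot
    refine hbig x0 x0.2 fun y hy => ?_
    have hc : Commute x0 ⟨y, hy⟩ := by
      have h1 : ⁅x0, (⟨y, hy⟩ : Pg)⁆ ∈ B := (hmemB _).2 (hLK _ (hPL x0.2) _ (hPL hy))
      rw [hbot, mem_bot] at h1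
      exact commutatorElement_eq_one_iff_commute.1 h1
    obtain ⟨i, hi⟩ := hline x0 hx0 _ hc
    have h2 : y = (x0 : G) ^ i * (((x0 ^ i)⁻¹ * ⟨y, hy⟩ : Pg) : G) := by simp
    rw [h2]
    exact mul_mem_sup (npow_mem_zpowers _ _) ⟨((x0 ^ i)⁻¹ * ⟨y, hy⟩ : Pg).2, (hmemB _).1 hi⟩
  have hBcard : Nat.card B = p := ((Nat.dvd_prime hp).1 hBp).resolve_left fun h =>
    hBne (card_eq_one.1 h)
  obtain ⟨z, hz⟩ := exists_prime_orderOf_dvd_card' (G := B) p (hBcard ▸ dvd_rfl)
  set z' : G := ((z : Pg) : G) with hz'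
  have hordz : orderOf z' = p := by rw [hz', Subgroup.orderOf_coe, Subgroup.orderOf_coe, hz]
  have hBz : Pg ⊓ K = zpowers z' := by
    refine (eq_of_le_of_card_ge (zpowers_le.2 (show z' ∈ Pg ⊓ K from ⟨(z : Pg).2, (hmemB _).1 z.2⟩)) ?_).symm
    rw [Nat.card_zpowers, hordz, ← hBcard]
    refine Nat.card_le_card_of_injective
      (fun w : (Pg ⊓ K : Subgroup G) => (⟨⟨w, w.2.1⟩, (hmemB _).2 w.2.2⟩ : B)) fun a b h => ?_
    exact Subtype.ext (congrArg (fun w : B => ((w : Pg) : G)) h)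
  have hPz : Pg ≤ centralizer {z'} := fun w hw => mem_centralizer_singleton_iff.2
    (congrArg Subtype.val (mem_center_iff.1 (hcen z.2) ⟨w, hw⟩))
  set U := R ⊓ centralizer ({z'} : Set G) with hU
  have hU1 : U = ⊥ := by
    have hPU : Pg ≤ Subgroup.normalizer (U : Set G) := fun x hx => by
      refine CfsgLib.CoprimeAction.mem_normalizer_of_conj_mem fun r hr =>
        ⟨(mem_normalizer_iff.1 (hPR hx) r).1 hr.1, mem_centralizer_singleton_iff.2 ?_⟩
      have h1 : Commute x z' := mem_centralizer_singleton_iff.1 (hPz hx)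
      exact ((h1.mul_left (mem_centralizer_singleton_iff.1 hr.2)).mul_left h1.inv_left).eq
    refine FPFAbelian.eq_bot_step (A := Pg) (B := Pg ⊓ K) (a := z') hPgp (z : Pg).2
      ⟨(z : Pg).2, (hmemB _).1 z.2⟩ hPz inf_le_right inf_le_left hPU
      (fun h => hRp (h.trans (card_dvd_of_le inf_le_left)))
      (fun w hw hwB r hr => hfpf w (hPL hw) (fun h => hwB ⟨hw, h⟩) r hr.1) hbig
      fun {_} A' B' R'' hdef hA' hB' hN' hp' hf' hn' _ => ?_
    haveI : IsMulCommutative A' := by
      subst hdef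
      refine ⟨⟨fun a b => Subtype.ext ?_⟩⟩
      obtain ⟨_, u, hu, rfl⟩ := a
      obtain ⟨_, v, hv, rfl⟩ := b
      show _ * _ = _ * _
      rw [← map_mul, ← map_mul]
      refine QuotientGroup.eq.2 (mem_subgroupOf.2 (hBz.le ⟨?_, ?_⟩))
      · show _ ∈ Pg
        exact mul_mem (inv_mem (mul_mem (mem_subgroupOf.1 hu) (mem_subgroupOf.1 hv)))
          (mul_mem (mem_subgroupOf.1 hv) (mem_subgroupOf.1 hu))
      · show _ ∈ K
        have := hLK _ (inv_mem (hPL (mem_subgroupOf.1 hv))) _ (inv_mem (hPL (mem_subgroupOf.1 hu)))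
        simpa [commutatorElement_def, mul_assoc] using this
    exact FPFAbelian.eq_bot hA' hB' hN' hp' hf' hn'
  haveI : Group.IsNilpotent R := CfsgLib.NormalPComplement.isNilpotent_of_fpf_element
    (hPR (z : Pg).2) hp hordz fun n hn hc => (Subgroup.eq_bot_iff_forall _).1 hU1 n
      ⟨hn, mem_centralizer_singleton_iff.2 hc.symm⟩
  infer_instance

/-- **Index two.** -/
theorem isSolvable_of_index_two (L K : Subgroup G) [K.Normal] {g : G} [L.Normal]
    (hidx : K.relIndex L = 2) (hgL : g ∈ L) (hgK : g ∉ K) (hGK : IsPGroup 2 (G ⧸ K))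
    (hC : Nat.card (centralizer ({g} : Set G)) = K.index)
    (hGL : ∀ a b : G, ⁅a, b⁆ ∈ L) (hZ : ∀ a : G, (∀ y, ⁅a, y⁆ ∈ K) → a ∈ L)
    (h8 : 8 ≤ K.index) : Group.IsSolvable K := by
  classical
  haveI := Fact.mk Nat.prime_two
  have htwo : ∀ x ∈ L, x ∉ K → g⁻¹ * x ∈ K := fun x hx hxK => by
    have h := (Subgroup.mul_mem_iff_of_index_two (H := K.subgroupOf L) hidx
      (a := (⟨g, hgL⟩ : L)⁻¹) (b := ⟨x, hx⟩)).2
    refine mem_subgroupOf.1 (h ⟨fun h1 => absurd ?_ hgK, fun h2 => absurd (mem_subgroupOf.1 h2) hxK⟩)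
    simpa using mem_subgroupOf.1 h1
  have hCp : IsPGroup 2 (centralizer ({g} : Set G)) := by
    obtain ⟨i, hi⟩ := IsPGroup.iff_card.1 hGK
    exact IsPGroup.of_card (n := i) (by rw [hC, index_eq_card, hi])
  obtain ⟨P, hP⟩ := hCp.exists_le_sylow
  have hgP : g ∈ (P : Subgroup G) := hP (mem_centralizer_singleton_iff.2 rfl)
  have hsup : (P : Subgroup G) ⊔ K = ⊤ := sup_sylow_eq_top P hGK
  set B := K.subgroupOf (P : Subgroup G)
  have hBidx : B.index = K.index := by
    show K.relIndex _ = _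
    rw [← relIndex_sup_right, hsup, relIndex_top_right]
  set g0 : (P : Subgroup G) := ⟨g, hgP⟩
  have hg0 : g0 ∉ B := fun h => hgK (mem_subgroupOf.1 h)
  have hgc : ∀ y, g0⁻¹ * (y * g0 * y⁻¹) ∈ B := fun y => mem_subgroupOf.2 (htwo _
    ((inferInstance : L.Normal).conj_mem g hgL y) fun h => hgK (by
      simpa [mul_assoc] using (inferInstance : K.Normal).conj_mem _ h (y : G)⁻¹))
  have hgg : g0 * g0 ∈ B := mem_subgroupOf.2
    (show g * g ∈ K from by
      by_contra h
      exact hgK (by simpa using htwo _ (mul_mem hgL hgL) h))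
  have hCP : Nat.card (centralizer ({g0} : Set (P : Subgroup G))) ≤ B.index := by
    rw [hBidx, ← hC]
    refine Nat.card_le_card_of_injective (fun c => ⟨((c : (P : Subgroup G)) : G),
      mem_centralizer_singleton_iff.2 (congrArg Subtype.val (mem_centralizer_singleton_iff.1 c.2))⟩)
      fun a b h => ?_
    exact Subtype.ext (Subtype.ext (congrArg (fun z : centralizer ({g} : Set G) => (z : G)) h))
  set π := QuotientGroup.mk' K
  have hπ1 : ∀ {w : G}, π w = 1 ↔ w ∈ K := fun {w} => QuotientGroup.eq_one_iff w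
  have hB2 := TwoLayers.card_dvd_two P.2 B hg0 hgg hgc
    (fun x y => (em (⁅x, y⁆ ∈ B)).imp id fun h =>
      mem_subgroupOf.2 (htwo _ (hGL x y) fun hK => h (mem_subgroupOf.2 hK)))
    (fun a ha => (em (a ∈ B)).imp id fun h => by
      refine mem_subgroupOf.2 (htwo _ (hZ a fun y => hπ1.1 ?_) fun hK => h (mem_subgroupOf.2 hK))
      obtain ⟨u, hu, w, hw, rfl⟩ := mem_sup_of_normal_right.1 (hsup.ge (mem_top y))
      have h1 : π ⁅(a : G), u⁆ = 1 := hπ1.2 (mem_subgroupOf.1 (ha ⟨u, hu⟩))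
      rw [map_commutatorElement] at h1 ⊢
      rw [map_mul, hπ1.2 hw, mul_one]
      exact h1)
    (hBidx ▸ h8) hCP
  obtain ⟨R, hRn, hRK, hRp, hsolv⟩ := exists_core K P hGK (le_commutator_of_class hgc hCP)
  refine hsolv ?_
  have hg4 : g ^ 4 = 1 := by
    have h1 : (⟨g0 * g0, hgg⟩ : B) ^ 2 = 1 :=
      orderOf_dvd_iff_pow_eq_one.1 ((_root_.orderOf_dvd_natCard _).trans hB2)
    have h2 : (g * g) ^ 2 = 1 := congrArg (fun w : B => ((w : (P : Subgroup G)) : G)) h1
    rw [show (4 : ℕ) = 2 * 2 by rfl, pow_mul, sq g]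
    exact h2
  haveI := hRn
  refine FPFFour.isSolvable_of_fpf_four (MulAut.conjNormal g : MulAut R) (fun r hr => ?_) fun r => ?_
  · have h1 : g * (r : G) * g⁻¹ = r := (MulAut.conjNormal_apply g r).symm.trans (congrArg Subtype.val hr)
    exact Subtype.ext (FPFAbelian.eq_one_of_mem hCp hRp
      (mem_centralizer_singleton_iff.2 (mul_inv_eq_iff_eq_mul.1 h1).symm) r.2)
  · refine Subtype.ext ?_
    simp only [MulAut.conjNormal_apply]
    calc g * (g * (g * (g * (r : G) * g⁻¹) * g⁻¹) * g⁻¹) * g⁻¹ = g ^ 4 * r * (g ^ 4)⁻¹ := by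
          simp [pow_succ, mul_assoc]
      _ = r := by rw [hg4, inv_one, mul_one, one_mul]

end CfsgLib.SeenOnce.Solvable
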